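import Mathlib
import Cfsg.Agent.Helper10.O7920Defs

set_option autoImplicit false

/-! PIECE CASE12 of CALL S2490 (helper10): with twelve Sylow 11-subgroups an element of order 3
centralising one of them fixes all of them. -/

namespace Cfsg.Agent.Helper55.O7920CASE12

open Subgroup Cfsg.Agent.Helper10.O7920

-- piece CASE12
theorem case12 {G : Type*} [Group G] [Finite G] (hG : Nat.card G = 7920)
    (h12 : Nat.card (Sylow 11 G) = 12) :
    ∃ y : G, y ≠ 1 ∧ ∀ Q : Sylow 11 G, y • Q = Q := by
  haveI : Fact (Nat.Prime 11) := ⟨by norm_num⟩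
  haveI : Fact (Nat.Prime 3) := ⟨by norm_num⟩
  obtain ⟨P⟩ : Nonempty (Sylow 11 G) := inferInstance
  have hP := sylow11_card hG P
  have hN := card_normalizer_mul_n11 hG P
  rw [h12] at hN
  have hN660 : Nat.card (normalizer ((P : Subgroup G) : Set G)) = 660 := by omega
  obtain ⟨e, he, hNe⟩ := card_normalizer_eq_mul P hP
  rw [hN660] at hNe
  have h3 : 3 ∣ Nat.card (centralizer ((P : Subgroup G) : Set G)) := by
    have he10 : e ∣ 10 := he
    have h3' : 3 ∣ e * Nat.card (centralizer ((P : Subgroup G) : Set G)) := by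
      rw [← hNe]; norm_num
    rcases (Nat.Prime.dvd_mul (by norm_num : Nat.Prime 3)).mp h3' with h | h
    · exfalso
      have h4 := Nat.dvd_trans h he10
      omega
    · exact h
  obtain ⟨y, hy⟩ := exists_prime_orderOf_dvd_card'
    (G := ↥(centralizer ((P : Subgroup G) : Set G))) 3 h3
  have hyG : orderOf (y : G) = 3 := by rw [Subgroup.orderOf_coe]; exact hy
  refine ⟨(y : G), ?_, ?_⟩
  · intro h1
    rw [h1, orderOf_one] at hyG
    omega
  · have hord : orderOf (y : G) = 3 ^ 1 := by rw [hyG]; rfl
    have hcomm : ∀ x ∈ (P : Subgroup G), x * (y : G) = (y : G) * x := by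
      intro x hx
      exact Subgroup.mem_centralizer_iff.mp y.2 x hx
    have hf1 := Cfsg.Agent.Helper8.SylFix.card_fixedBy_modEq_one P (y : G) hcomm
    have hf3 := Cfsg.Agent.Helper8.SylFix.card_fixedBy_modEq (p := 11) (y : G) hord
    rw [h12] at hf3
    have hle : Nat.card (MulAction.fixedBy (Sylow 11 G) (y : G)) ≤ 12 := by
      rw [← h12]
      exact Nat.card_le_card_of_injective Subtype.val Subtype.val_injective
    have hf : Nat.card (MulAction.fixedBy (Sylow 11 G) (y : G)) = 12 := by
      unfold Nat.ModEq at hf1 hf3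
      omega
    have huniv : MulAction.fixedBy (Sylow 11 G) (y : G) = Set.univ :=
      (Set.eq_univ_iff_ncard _).mpr (by rw [← Nat.card_coe_set_eq, hf, h12])
    intro Q
    have hQ : Q ∈ MulAction.fixedBy (Sylow 11 G) (y : G) := by rw [huniv]; trivial
    exact hQ

end Cfsg.Agent.Helper55.O7920CASE12
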