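import Mathlib
import Cfsg.Agent.Helper10.O7920Defs

set_option autoImplicit false

/-! PIECE O495 of CALL S2490 (helper10): a group of order 495 has an element of order 15. -/

namespace Cfsg.Agent.Helper55.O7920O495

open Subgroup Cfsg.Agent.Helper10.O7920

-- piece O495
theorem o495 {H : Type*} [Group H] [Finite H] (h : Nat.card H = 495) :
    ∃ g : H, orderOf g = 15 := by
  haveI : Fact (Nat.Prime 5) := ⟨by norm_num⟩
  haveI : Fact (Nat.Prime 3) := ⟨by norm_num⟩
  obtain ⟨Q⟩ : Nonempty (Sylow 5 H) := inferInstance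
  have hQ : Nat.card (Q : Subgroup H) = 5 := by
    have h1 := Cfsg.Agent.Helper9.OrdTools.sylow_card (p := 5) 1 99 (by rw [h]; norm_num) (by norm_num) Q
    simpa using h1
  have hidx : (Q : Subgroup H).index = 99 := by
    have h1 := Subgroup.card_mul_index (Q : Subgroup H)
    rw [hQ, h] at h1
    omega
  have hdvd : Nat.card (Sylow 5 H) ∣ 99 := by
    rw [← hidx]; exact Sylow.card_dvd_index Q
  have hmod : Nat.card (Sylow 5 H) % 5 = 1 := by
    have h1 := card_sylow_modEq_one 5 H
    unfold Nat.ModEq at h1
    omega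
  have hn5 : Nat.card (Sylow 5 H) = 1 ∨ Nat.card (Sylow 5 H) = 11 := by
    have hle : Nat.card (Sylow 5 H) ≤ 99 := Nat.le_of_dvd (by norm_num) hdvd
    generalize Nat.card (Sylow 5 H) = n at hdvd hmod hle
    interval_cases n <;> omega
  have hNidx : Nat.card (Sylow 5 H) = (normalizer ((Q : Subgroup H) : Set H)).index :=
    Sylow.card_eq_index_normalizer Q
  have hNcard := Subgroup.card_mul_index (normalizer ((Q : Subgroup H) : Set H))
  rw [← hNidx, h] at hNcard
  obtain ⟨e, he, hNe⟩ := card_normalizer_eq_mul Q hQ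
  have he4 : e ∣ 4 := he
  have he_le : e ≤ 4 := Nat.le_of_dvd (by norm_num) he4
  have h3 : 3 ∣ Nat.card (centralizer ((Q : Subgroup H) : Set H)) := by
    rcases hn5 with h1 | h1
    · rw [h1] at hNcard
      have hN : Nat.card (normalizer ((Q : Subgroup H) : Set H)) = 495 := by omega
      rw [hN] at hNe
      interval_cases e <;> omega
    · rw [h1] at hNcard
      have hN : Nat.card (normalizer ((Q : Subgroup H) : Set H)) = 45 := by omega
      rw [hN] at hNe
      interval_cases e <;> omega
  exact pj_of_dvd_centralizer (p := 5) (r := 3) (by norm_num) Q hQ h3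

end Cfsg.Agent.Helper55.O7920O495
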