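import Cfsg.Agent.Helper16.S4Defs2

/-! Model facts for CALL S3702 pieces XB1 (helper55), proved by kernel evaluation. -/

set_option autoImplicit false

namespace Cfsg.Agent.Helper55

open Cfsg Cfsg.Agent.Helper16 DihedralGroup

set_option maxRecDepth 100000 in
theorem h55m_P_pow3 : ∀ p : SM, sP p → p ^ 3 = 1 := by decide +kernel

set_option maxRecDepth 100000 in
theorem h55m_P_one : sP 1 := by decide +kernel

set_option maxRecDepth 100000 in
theorem h55m_z : sJ sz ∧ sz ≠ 1 := by decide +kernel

set_option maxRecDepth 100000 in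
theorem h55m_P_card : (Finset.univ.filter (fun m : SM => sP m)).card = 9 := by decide +kernel

theorem h55m_P_mul : ∀ p q : SM, sP p → sP q → sP (p * q) := by
  intro p q hp hq
  unfold sP at *
  rw [mul_assoc, hq, ← mul_assoc, hp, mul_assoc]

theorem h55m_P_inv : ∀ p : SM, sP p → sP p⁻¹ := by
  intro p hp
  unfold sP at *
  have : p⁻¹ * sx = p⁻¹ * (sx * p) * p⁻¹ := by group
  rw [this, ← hp]; group

end Cfsg.Agent.Helper55
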