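import Cfsg.Agent.Helper16.S4Defs2
import Cfsg.Agent.Helper55.S4MDL

/-!
# CALL S3702, piece XB1: basic facts on `C_G(x) = W ⋊ φ P₂`
(`xb_inter`, `xb_cz`, `xb_mem`, `xb_uniq`, `xb_card`).
-/

set_option autoImplicit false

namespace Cfsg.Agent.Helper55

open Cfsg Cfsg.Agent.Helper16 DihedralGroup

section

variable {G : Type*} [Group G] {φ : SM →* G} {W : Subgroup G}

theorem xb_inter [Finite G] (h : S4Cfg φ) (hW : XData φ W) :
    ∀ w ∈ W, ∀ p : SM, sP p → w = φ p → w = 1 := by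
  intro w hw p hp hwp
  have h1 : orderOf w ∣ 3 := by
    apply orderOf_dvd_of_pow_eq_one
    rw [hwp, ← map_pow, h55m_P_pow3 p hp, map_one]
  have h2 : orderOf w ∣ Nat.card W := Subgroup.orderOf_dvd_natCard W hw
  have h3 : orderOf w ∣ Nat.gcd (Nat.card W) 3 := Nat.dvd_gcd h2 h1
  rw [hW.cop.gcd_eq_one] at h3
  exact orderOf_eq_one_iff.mp (Nat.dvd_one.mp h3)

theorem xb_cz [Finite G] (h : S4Cfg φ) (hW : XData φ W) :
    ∀ w ∈ W, w * φ sz = φ sz * w → w = 1 := by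
  intro w hw hwz
  obtain ⟨p, hp⟩ := h.cent sz h55m_z.1 h55m_z.2 w hwz
  have hsP : sP p := by
    have h1 := hW.le w hw
    rw [← hp, ← map_mul, ← map_mul] at h1
    exact h.inj h1
  exact xb_inter h hW w hw p hsP hp.symm

theorem xb_uniq [Finite G] (h : S4Cfg φ) (hW : XData φ W) :
    ∀ w ∈ W, ∀ w' ∈ W, ∀ p p' : SM, sP p → sP p' → w * φ p = w' * φ p' → w = w' ∧ p = p' := by
  intro w hw w' hw' p p' hp hp' heq
  have h1 : w'⁻¹ * w = φ (p' * p⁻¹) := by
    rw [map_mul, map_inv]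
    have : w = w' * φ p' * (φ p)⁻¹ := by rw [← heq]; group
    rw [this]; group
  have h2 : w'⁻¹ * w ∈ W := W.mul_mem (W.inv_mem hw') hw
  have h3 := xb_inter h hW _ h2 (p' * p⁻¹) (h55m_P_mul _ _ hp' (h55m_P_inv _ hp)) h1
  have h4 : w = w' := by
    have : w = w' * (w'⁻¹ * w) := by group
    rw [this, h3, mul_one]
  refine ⟨h4, ?_⟩
  rw [h4] at heq
  exact h.inj (mul_left_cancel heq)

theorem xb_mem [Finite G] (h : S4Cfg φ) (hW : XData φ W) :
    ∀ c : G, c * φ sx = φ sx * c → ∀ n : ℕ, n.Coprime 3 → c ^ n = 1 → c ∈ W := by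
  intro c hc n hn hcn
  obtain ⟨w, hw, p, hp, hcwp⟩ := hW.dec c hc
  have hPk : ∀ k : ℕ, sP (p ^ k) := by
    intro k
    induction k with
    | zero => rw [pow_zero]; exact h55m_P_one
    | succ k ih => rw [pow_succ]; exact h55m_P_mul _ _ ih hp
  have hcomm : ∀ q : SM, sP q → φ q * φ sx = φ sx * φ q := by
    intro q hq
    rw [← map_mul, ← map_mul]
    exact congrArg φ hq
  have key : ∀ k : ℕ, ∃ v ∈ W, c ^ k = v * φ (p ^ k) := by
    intro k
    induction k with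
    | zero => exact ⟨1, W.one_mem, by simp⟩
    | succ k ih =>
      obtain ⟨v, hv, hvk⟩ := ih
      refine ⟨v * (φ (p ^ k) * w * (φ (p ^ k))⁻¹),
        W.mul_mem hv (hW.norm _ (hcomm _ (hPk k)) w hw), ?_⟩
      rw [pow_succ, hvk, pow_succ, map_mul]
      rw [hcwp]
      group
  obtain ⟨v, hv, hvn⟩ := key n
  rw [hcn] at hvn
  have h1 : v⁻¹ = φ (p ^ n) := by
    have : φ (p ^ n) = v⁻¹ * (v * φ (p ^ n)) := by group
    rw [this, ← hvn, mul_one]
  have h2 := xb_inter h hW _ (W.inv_mem hv) (p ^ n) (hPk n) h1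
  have h3 : p ^ n = 1 := by
    apply h.inj
    rw [← h1, h2, map_one]
  have h4 : orderOf p ∣ Nat.gcd n 3 :=
    Nat.dvd_gcd (orderOf_dvd_of_pow_eq_one h3) (orderOf_dvd_of_pow_eq_one (h55m_P_pow3 p hp))
  rw [hn.gcd_eq_one] at h4
  have h5 : p = 1 := orderOf_eq_one_iff.mp (Nat.dvd_one.mp h4)
  rw [hcwp, h5, map_one, mul_one]
  exact hw

theorem xb_card [Finite G] (h : S4Cfg φ) (hW : XData φ W) :
    Nat.card (Subgroup.centralizer ({φ sx} : Set G)) = 9 * Nat.card W := by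
  have hcomm : ∀ q : SM, sP q → φ q * φ sx = φ sx * φ q := by
    intro q hq
    rw [← map_mul, ← map_mul]
    exact congrArg φ hq
  have hmemC : ∀ (w : W) (p : {p : SM // sP p}),
      (w : G) * φ p.1 ∈ Subgroup.centralizer ({φ sx} : Set G) := by
    intro w p
    rw [Subgroup.mem_centralizer_singleton_iff, mul_assoc, hcomm p.1 p.2, ← mul_assoc,
      hW.le w.1 w.2, mul_assoc]
  let f : W × {p : SM // sP p} → Subgroup.centralizer ({φ sx} : Set G) :=
    fun wp => ⟨(wp.1 : G) * φ wp.2.1, hmemC wp.1 wp.2⟩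
  have hinj : Function.Injective f := by
    rintro ⟨w, p⟩ ⟨w', p'⟩ heq
    have h1 : (w : G) * φ p.1 = (w' : G) * φ p'.1 := congrArg Subtype.val heq
    obtain ⟨h2, h3⟩ := xb_uniq h hW w.1 w.2 w'.1 w'.2 p.1 p'.1 p.2 p'.2 h1
    exact Prod.ext (Subtype.ext h2) (Subtype.ext h3)
  have hsurj : Function.Surjective f := by
    rintro ⟨c, hc⟩
    rw [Subgroup.mem_centralizer_singleton_iff] at hc
    obtain ⟨w, hw, p, hp, hcwp⟩ := hW.dec c hc
    exact ⟨(⟨w, hw⟩, ⟨p, hp⟩), Subtype.ext hcwp.symm⟩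
  rw [← Nat.card_congr (Equiv.ofBijective f ⟨hinj, hsurj⟩), Nat.card_prod]
  have h9 : Nat.card {p : SM // sP p} = 9 := by
    rw [Nat.card_eq_fintype_card, Fintype.card_subtype]
    exact h55m_P_card
  rw [h9, mul_comm]

end

end Cfsg.Agent.Helper55
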