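import Mathlib
import Cfsg.Agent.Helper8.Ord4032A
import Cfsg.Agent.Helper41.Ord4032B
import Cfsg.Agent.S0985

set_option autoImplicit false

/-! PIECE N96b1 of CALL S0980 (helper8; no simple group of order 5760): the fixed points of an
involution commuting with an element of order 3 that has a unique fixed point on 16 points. -/

namespace Cfsg.Agent.Helper55

open scoped Pointwise
open Subgroup Cfsg.Agent.Helper9.OrdTools Cfsg.Agent.Helper8.SylFix

variable {G : Type*} [Group G] [Finite G]

/-- PIECE N96b1 of CALL S0980. -/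
theorem ord5760_inv_fix [IsSimpleGroup G] (hG : Nat.card G = 5760) (H : Subgroup G)
    (hidx : H.index = 16) (s v : G) (γ : G ⧸ H) (hs : orderOf s = 3)
    (hfix : ∀ q : G ⧸ H, s • q = q ↔ q = γ) (hv : orderOf v = 2) (hcomm : v * s = s * v) :
    ∃ δ : G ⧸ H, δ ≠ γ ∧ ∀ q : G ⧸ H, v • q = q ↔ (q = γ ∨ q = δ ∨ q = s • δ ∨ q = s⁻¹ • δ) := by
  classical
  haveI : Fintype (G ⧸ H) := Fintype.ofFinite _
  haveI : Fact (Nat.Prime 2) := ⟨Nat.prime_two⟩
  haveI : Fact (Nat.Prime 3) := ⟨Nat.prime_three⟩
  have hΩ : Nat.card (G ⧸ H) = 16 := by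
    rw [← Subgroup.index_eq_card, hidx]
  have hHtop : H ≠ ⊤ := by
    intro h; rw [h, Subgroup.index_top] at hidx; omega
  have hs3 : s ^ 3 = 1 := by rw [← hs]; exact pow_orderOf_eq_one s
  have hv2 : v ^ 2 = 1 := by rw [← hv]; exact pow_orderOf_eq_one v
  have hv1 : v ≠ 1 := by intro h; rw [h, orderOf_one] at hv; omega
  have hvs : ∀ q : G ⧸ H, v • s • q = s • v • q := by
    intro q; rw [smul_smul, smul_smul, hcomm]
  have hvγ : v • γ = γ := by
    rw [← hfix, ← hvs, (hfix γ).2 rfl]
  have hsinv : ∀ q : G ⧸ H, s⁻¹ • q = s • s • q := by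
    intro q
    rw [smul_smul, inv_smul_eq_iff, smul_smul, ← pow_two, ← pow_succ', hs3, one_smul]
  -- parity of the number of fixed points
  have hz2 : IsPGroup 2 (zpowers v) :=
    IsPGroup.of_card (n := 1) (by rw [Nat.card_zpowers, hv, pow_one])
  have hmod2 := hz2.card_modEq_card_fixedPoints (G ⧸ H)
  have heq2 : MulAction.fixedPoints (zpowers v) (G ⧸ H) = MulAction.fixedBy (G ⧸ H) v := by
    ext q
    constructor
    · intro hq
      exact hq ⟨v, Subgroup.mem_zpowers v⟩
    · intro hq g
      have hle : zpowers v ≤ MulAction.stabilizer G q :=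
        (Subgroup.zpowers_le).mpr (MulAction.mem_stabilizer_iff.mpr hq)
      exact MulAction.mem_stabilizer_iff.mp (hle g.2)
  rw [heq2, hΩ] at hmod2
  -- the number of fixed points modulo 3
  obtain ⟨f, hf⟩ : ∃ f : Function.End (MulAction.fixedBy (G ⧸ H) v),
      ∀ q, ((f q : MulAction.fixedBy (G ⧸ H) v) : G ⧸ H) = s • (q : G ⧸ H) :=
    ⟨fun q => ⟨s • (q : G ⧸ H), by
      rw [MulAction.mem_fixedBy, hvs, MulAction.mem_fixedBy.mp q.2]⟩, fun q => rfl⟩
  have hf3 : f ^ 3 ^ 1 = 1 := by
    funext q
    apply Subtype.ext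
    rw [pow_one, pow_succ, pow_succ, pow_one, Function.End.mul_def, Function.End.mul_def,
      Function.End.one_def]
    show ((f (f (f q)) : MulAction.fixedBy (G ⧸ H) v) : G ⧸ H) = (q : G ⧸ H)
    rw [hf, hf, hf, smul_smul, smul_smul, ← pow_two, ← pow_succ, hs3, one_smul]
  have hmod3 := Equiv.Perm.card_fixedPoints_modEq (p := 3) (n := 1) hf3
  have hfp1 : ∀ (inst : Fintype (Function.fixedPoints f)), @Fintype.card _ inst = 1 := by
    intro inst
    rw [← Nat.card_eq_fintype_card, Nat.card_eq_one_iff_unique]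
    constructor
    · refine ⟨fun y y' => ?_⟩
      apply Subtype.ext
      apply Subtype.ext
      have h1 : f y.1 = y.1 := y.2
      have h2 := congrArg Subtype.val h1
      rw [hf] at h2
      have h1' : f y'.1 = y'.1 := y'.2
      have h2' := congrArg Subtype.val h1'
      rw [hf] at h2'
      rw [(hfix _).1 h2, (hfix _).1 h2']
    · refine ⟨⟨⟨γ, MulAction.mem_fixedBy.mpr hvγ⟩, ?_⟩⟩
      apply Subtype.ext
      rw [hf]
      exact (hfix γ).2 rfl
  have hcardF : ∀ (inst : Fintype (MulAction.fixedBy (G ⧸ H) v)),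
      @Fintype.card _ inst = Nat.card (MulAction.fixedBy (G ⧸ H) v) :=
    fun inst => Nat.card_eq_fintype_card.symm
  rw [hcardF _, hfp1 _] at hmod3
  have hle16 : Nat.card (MulAction.fixedBy (G ⧸ H) v) ≤ 16 := by
    rw [← hΩ]
    exact Nat.card_le_card_of_injective _ Subtype.val_injective
  have hcases : Nat.card (MulAction.fixedBy (G ⧸ H) v) = 4 ∨
      Nat.card (MulAction.fixedBy (G ⧸ H) v) = 10 ∨
      Nat.card (MulAction.fixedBy (G ⧸ H) v) = 16 := by
    rw [Nat.ModEq] at hmod2 hmod3
    omega
  -- the fixed point set as a finset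
  have hFcard : (Finset.univ.filter (fun q : G ⧸ H => v • q = q)).card
      = Nat.card (MulAction.fixedBy (G ⧸ H) v) := by
    rw [Nat.card_eq_fintype_card, ← Fintype.card_subtype]
    rfl
  have hna : ∃ a b : G, a * b ≠ b * a := by
    by_contra hcon
    push Not at hcon
    have hn : (zpowers v).Normal := by
      refine ⟨fun x hx g => ?_⟩
      rw [hcon g x, mul_inv_cancel_right]
      exact hx
    rcases hn.eq_bot_or_eq_top with h | h
    · exact hv1 (Subgroup.zpowers_eq_bot.mp h)
    · have h1 : Nat.card (zpowers v) = Nat.card G := by rw [h, Subgroup.card_top]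
      rw [Nat.card_zpowers, hv, hG] at h1
      omega
  have hcard4 : Nat.card (MulAction.fixedBy (G ⧸ H) v) = 4 := by
    rcases hcases with h | h | h
    · exact h
    · -- ten fixed points: an odd permutation
      exfalso
      have hsign := hom_trivial hna
        ((Equiv.Perm.sign).comp (MulAction.toPermHom G (G ⧸ H))) v
      have hsq : (MulAction.toPermHom G (G ⧸ H) v) ^ 2 = 1 := by
        rw [← map_pow, hv2, map_one]
      have hfp : Fintype.card (Function.fixedPoints (MulAction.toPermHom G (G ⧸ H) v)) + 2 * 3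
          = Fintype.card (G ⧸ H) := by
        rw [← Nat.card_eq_fintype_card, ← Nat.card_eq_fintype_card, hΩ]
        have : Function.fixedPoints (MulAction.toPermHom G (G ⧸ H) v) =
            MulAction.fixedBy (G ⧸ H) v := by
          ext Q
          rfl
        rw [this, h]
      have h5 := sign_of_involution _ hsq 3 hfp (by decide)
      rw [MonoidHom.comp_apply] at hsign
      rw [hsign] at h5
      exact absurd h5 (by decide)
    · -- sixteen fixed points: `v` acts trivially
      exfalso
      apply hv1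
      apply toPermHom_injective H hHtop
      rw [map_one]
      have huniv : Finset.univ.filter (fun q : G ⧸ H => v • q = q) = Finset.univ := by
        rw [← Finset.card_eq_iff_eq_univ, hFcard, h, ← Nat.card_eq_fintype_card, hΩ]
      ext q
      have hq : q ∈ Finset.univ.filter (fun q : G ⧸ H => v • q = q) := by
        rw [huniv]; exact Finset.mem_univ q
      exact (Finset.mem_filter.mp hq).2
  -- a second fixed point
  obtain ⟨δ, hδv, hδγ⟩ : ∃ δ : G ⧸ H, v • δ = δ ∧ δ ≠ γ := by
    by_contra hcon
    push Not at hcon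
    have : Subsingleton (MulAction.fixedBy (G ⧸ H) v) :=
      ⟨fun a b => Subtype.ext ((hcon a a.2).trans (hcon b b.2).symm)⟩
    have := Finite.card_le_one_iff_subsingleton.mpr this
    omega
  have hsδ : s • δ ≠ δ := fun h => hδγ ((hfix δ).1 h)
  have h1 : γ ≠ δ := fun h => hδγ h.symm
  have h2 : γ ≠ s • δ := by
    intro h
    apply hδγ
    have h' : s • γ = s • δ := by rw [(hfix γ).2 rfl]; exact h
    exact (smul_left_cancel s h').symm
  have h3 : γ ≠ s⁻¹ • δ := by
    intro h
    apply hδγ
    have h' := congrArg (fun q => s • q) h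
    simp only [smul_inv_smul] at h'
    rw [(hfix γ).2 rfl] at h'
    exact h'.symm
  have h4 : δ ≠ s • δ := fun h => hsδ h.symm
  have h5 : δ ≠ s⁻¹ • δ := by
    intro h
    apply hsδ
    rw [eq_inv_smul_iff] at h
    exact h
  have h6 : s • δ ≠ s⁻¹ • δ := by
    intro h
    apply hsδ
    rw [hsinv] at h
    exact (smul_left_cancel s h).symm
  have hsub : ({γ, δ, s • δ, s⁻¹ • δ} : Finset (G ⧸ H))
      ⊆ Finset.univ.filter (fun q : G ⧸ H => v • q = q) := by
    intro q hq
    rw [Finset.mem_filter]
    refine ⟨Finset.mem_univ q, ?_⟩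
    simp only [Finset.mem_insert, Finset.mem_singleton] at hq
    rcases hq with rfl | rfl | rfl | rfl
    · exact hvγ
    · exact hδv
    · rw [hvs, hδv]
    · rw [hsinv, hvs, hvs, hδv]
  have hTcard : ({γ, δ, s • δ, s⁻¹ • δ} : Finset (G ⧸ H)).card = 4 := by
    rw [Finset.card_insert_of_notMem, Finset.card_insert_of_notMem,
      Finset.card_insert_of_notMem, Finset.card_singleton]
    · simp only [Finset.mem_singleton]; exact h6
    · simp only [Finset.mem_insert, Finset.mem_singleton]
      push Not
      exact ⟨h4, h5⟩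
    · simp only [Finset.mem_insert, Finset.mem_singleton]
      push Not
      exact ⟨h1, h2, h3⟩
  have heq := Finset.eq_of_subset_of_card_le hsub (by rw [hFcard, hcard4, hTcard])
  refine ⟨δ, hδγ, fun q => ?_⟩
  have hq : q ∈ Finset.univ.filter (fun q : G ⧸ H => v • q = q) ↔ v • q = q := by
    rw [Finset.mem_filter]
    exact ⟨fun h => h.2, fun h => ⟨Finset.mem_univ q, h⟩⟩
  rw [← hq, ← heq]
  simp only [Finset.mem_insert, Finset.mem_singleton]

end Cfsg.Agent.Helper55
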