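import Cfsg.Agent.Helper25.Bsw2

set_option autoImplicit false

/-! Piece EMA of the Brauer–Suzuki–Wall proof (S3282): the set `Z` of non-real elements
outside the conjugates of `K` is the set of non-identity `p`-elements. -/

namespace Cfsg.Agent.Helper55

open Cfsg.Agent.Helper25 Subgroup

section BswEMA

variable {G : Type*} [Group G]

theorem bswEMA_conj_quot (w : G) :
    ∃ f : G ⧸ centralizer ({w} : Set G) → G, Function.Injective f ∧
      ∀ a, ∃ g : G, f a = g * w * g⁻¹ := by
  refine ⟨fun a => Quotient.liftOn' a (fun g => g * w * g⁻¹) ?_, ?_, ?_⟩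
  · intro a b hab
    rw [QuotientGroup.leftRel_apply, mem_centralizer_singleton_iff] at hab
    show a * w * a⁻¹ = b * w * b⁻¹
    calc a * w * a⁻¹ = a * (w * (a⁻¹ * b)) * b⁻¹ := by group
      _ = a * (a⁻¹ * b * w) * b⁻¹ := by rw [hab]
      _ = b * w * b⁻¹ := by group
  · intro a b
    refine QuotientGroup.induction_on a ?_
    intro a
    refine QuotientGroup.induction_on b ?_
    intro b hab
    rw [QuotientGroup.eq, mem_centralizer_singleton_iff]
    have hab' : a * w * a⁻¹ = b * w * b⁻¹ := hab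
    calc a⁻¹ * b * w = a⁻¹ * (b * w * b⁻¹) * b := by group
      _ = a⁻¹ * (a * w * a⁻¹) * b := by rw [hab']
      _ = w * (a⁻¹ * b) := by group
  · intro a
    refine QuotientGroup.induction_on a ?_
    intro a
    exact ⟨a, rfl⟩

theorem bswEMA_pow_card {H : Subgroup G} [Finite H] {g : G} (hg : g ∈ H) :
    g ^ Nat.card H = 1 := by
  have h1 : (⟨g, hg⟩ : H) ^ Nat.card H = 1 := pow_card_eq_one'
  have := congrArg (fun z : H => (z : G)) h1
  simp only [Subgroup.coe_pow, Subgroup.coe_one] at this
  exact this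

theorem bswEMA_orderOf_conj (g w : G) : orderOf (g * w * g⁻¹) = orderOf w :=
  orderOf_injective (MulAut.conj g).toMonoidHom (MulAut.conj g).injective w

theorem bswEMA_class_inj {K : Subgroup G} (w : G) (hw1 : w ∉ bswCl K) (hw2 : bswA w = 0) :
    ∃ F : G ⧸ centralizer ({w} : Set G) → {g : G // g ∉ bswCl K ∧ bswA g = 0},
      Function.Injective F ∧ ∀ a, orderOf (F a : G) = orderOf w := by
  obtain ⟨f, hfinj, hf⟩ := bswEMA_conj_quot w
  have hfZ : ∀ a, f a ∉ bswCl K ∧ bswA (f a) = 0 := by
    intro a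
    obtain ⟨g, hg⟩ := hf a
    rw [hg]
    exact ⟨fun hh => hw1 ((bswCl_conj K w g).1 hh), by rw [bswA_conj]; exact hw2⟩
  refine ⟨fun a => ⟨f a, hfZ a⟩, ?_, ?_⟩
  · intro a b hab
    exact hfinj (congrArg Subtype.val hab)
  · intro a
    obtain ⟨g, hg⟩ := hf a
    show orderOf (f a) = orderOf w
    rw [hg]
    exact bswEMA_orderOf_conj g w

end BswEMA

theorem bsw_minus_Z {G : Type*} [Group G] [Finite G] {t s : G} {K : Subgroup G}
    (h : BswHyp t s K) (hF5 : BswF5 K) (q : ℕ) (hout : BswOutMinus K q) :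
    ∃ p : ℕ, BswMinusZ K q p := by
  obtain ⟨hq1, hG, hO3, hO4, hO5⟩ := hout
  have hk2 : 2 ≤ Nat.card K := by
    have h2 : (2 : ℕ) ∣ Nat.card K := by
      have := Subgroup.orderOf_dvd_natCard K h.htK
      rwa [h.ht] at this
    have hpos : 0 < Nat.card K := Nat.card_pos
    exact Nat.le_of_dvd hpos h2
  have hq3 : 3 ≤ q := by omega
  have hM : (q + 1) * (q - 1) = q ^ 2 - 1 := by
    obtain ⟨m, rfl⟩ := Nat.exists_eq_add_of_le (show 1 ≤ q by omega)
    rw [Nat.add_sub_cancel_left]
    symm
    apply Nat.sub_eq_of_eq_add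
    ring
  have hMpos : 0 < (q + 1) * (q - 1) := by
    apply Nat.mul_pos <;> omega
  have hqpos : 0 < q := by omega
  -- (F6)
  have hF6 : ∀ z : G, z ∉ bswCl K → bswA z = 0 → ∀ c ∈ centralizer ({z} : Set G), c ≠ 1 →
      c ∉ bswCl K ∧ bswA c = 0 := by
    intro z hz1 hz2 c hc hc1
    have hzc : z ∈ centralizer ({c} : Set G) := by
      rw [mem_centralizer_singleton_iff] at hc ⊢
      exact hc.symm
    have hz0 : z ≠ 1 := by
      rintro rfl
      exact hz1 (mem_bswCl_of_mem (one_mem K))
    have hcK : c ∉ bswCl K := by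
      intro hcK
      by_cases hc2 : orderOf c = 2
      · exact hz1 (h.cent_inv_subset_cl hc2 hzc)
      · obtain ⟨x, -, hx⟩ := h.cent_of_cl hcK hc1 hc2
        exact hz1 ⟨x, (hx z).1 hzc⟩
    refine ⟨hcK, ?_⟩
    by_contra hne
    have hpos : 0 < bswA c := Nat.pos_of_ne_zero hne
    obtain ⟨-, hy, -⟩ := hF5 c hcK hpos
    have := (hy z hzc hz0).2.2
    rw [hz2] at this
    have hcpos : 0 < Nat.card (centralizer ({c} : Set G)) := Nat.card_pos
    omega
  -- Step A : centralizers of elements of Z have order q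
  have hA : ∀ z : G, z ∉ bswCl K → bswA z = 0 →
      Nat.card (centralizer ({z} : Set G)) = q := by
    intro z hz1 hz2
    have hdvd : Nat.card (centralizer ({z} : Set G)) ∣ q := hO5 _ (hF6 z hz1 hz2)
    obtain ⟨F, hFinj, -⟩ := bswEMA_class_inj (K := K) z hz1 hz2
    have hle : Nat.card (G ⧸ centralizer ({z} : Set G)) ≤ q ^ 2 - 1 := by
      rw [← hO4]
      exact Nat.card_le_card_of_injective F hFinj
    have hcard := Subgroup.card_eq_card_quotient_mul_card_subgroup (centralizer ({z} : Set G))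
    obtain ⟨d, hd⟩ := hdvd
    have hcpos : 0 < Nat.card (centralizer ({z} : Set G)) := Nat.card_pos
    generalize Nat.card (G ⧸ centralizer ({z} : Set G)) = n at hle hcard
    generalize Nat.card (centralizer ({z} : Set G)) = c at hd hcpos hcard ⊢
    rw [← hM] at hle
    rw [hcard] at hG
    have h2n : 2 * n = d * ((q + 1) * (q - 1)) := by
      have : c * (2 * n) = c * (d * ((q + 1) * (q - 1))) := by
        calc c * (2 * n) = 2 * (n * c) := by ring
          _ = q * (q + 1) * (q - 1) := hG
          _ = c * d * (q + 1) * (q - 1) := by rw [← hd]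
          _ = c * (d * ((q + 1) * (q - 1))) := by ring
      exact Nat.eq_of_mul_eq_mul_left hcpos this
    have hd2 : d ≤ 2 := by
      have : d * ((q + 1) * (q - 1)) ≤ 2 * ((q + 1) * (q - 1)) := by
        rw [← h2n]; omega
      exact Nat.le_of_mul_le_mul_right this hMpos
    have hd0 : d ≠ 0 := by
      rintro rfl
      omega
    have hd12 : d = 1 ∨ d = 2 := by omega
    rcases hd12 with rfl | rfl
    · omega
    · omega
  have hgcd : ∀ g : G, g ^ q = 1 → ∀ m : ℕ, g ^ m = 1 → (q + 1 = 2 * m ∨ q = 2 * m + 1) →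
      g = 1 := by
    intro g hgq m hgm hm
    have h1 : orderOf g ∣ q := orderOf_dvd_of_pow_eq_one hgq
    have h2 : orderOf g ∣ m := orderOf_dvd_of_pow_eq_one hgm
    have h3 : orderOf g ∣ 1 := by
      rcases hm with hm | hm
      · have h4 : orderOf g ∣ q + 1 := by rw [hm]; exact Dvd.dvd.mul_left h2 2
        exact (Nat.dvd_add_right h1).1 h4
      · have h4 : orderOf g ∣ 2 * m + 1 := by rw [← hm]; exact h1
        exact (Nat.dvd_add_right (Dvd.dvd.mul_left h2 2)).1 h4
    exact orderOf_eq_one_iff.1 (Nat.dvd_one.1 h3)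
  have hB : ∀ g : G, (g ∉ bswCl K ∧ bswA g = 0) ↔ (g ≠ 1 ∧ g ^ q = 1) := by
    intro g
    constructor
    · rintro ⟨hg1, hg2⟩
      refine ⟨?_, ?_⟩
      · rintro rfl
        exact hg1 (mem_bswCl_of_mem (one_mem K))
      · have hc := hA g hg1 hg2
        have hmem : g ∈ centralizer ({g} : Set G) := by
          rw [mem_centralizer_singleton_iff]
        rw [← hc]
        exact bswEMA_pow_card hmem
    · rintro ⟨hg1, hgq⟩
      have hgK : g ∉ bswCl K := by
        intro hgK
        exact hg1 (hgcd g hgq _ (h.pow_card_of_cl hgK) (Or.inl hq1))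
      refine ⟨hgK, ?_⟩
      rcases hO3 g hgK with h0 | h0
      · exact h0
      · by_contra hne
        have hpos : 0 < bswA g := Nat.pos_of_ne_zero hne
        obtain ⟨-, hy, -⟩ := hF5 g hgK hpos
        have hmem : g ∈ centralizer ({g} : Set G) := by
          rw [mem_centralizer_singleton_iff]
        have hcard := (hy g hmem hg1).2.2
        have hpow : g ^ bswA g = 1 := by
          rw [hcard]; exact bswEMA_pow_card hmem
        exact hg1 (hgcd g hgq _ hpow (Or.inr (by omega)))
  have hC : ∀ z : G, z ≠ 1 → z ^ q = 1 → Nat.card (centralizer ({z} : Set G)) = q := by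
    intro z hz1 hzq
    obtain ⟨h1, h2⟩ := (hB z).2 ⟨hz1, hzq⟩
    exact hA z h1 h2
  have hp : (q.minFac).Prime := Nat.minFac_prime (by omega)
  refine ⟨q.minFac, hp, ?_, hB, hC⟩
  have huniq : ∀ {r : ℕ}, r.Prime → r ∣ q → r = q.minFac := by
    intro r hr hrq
    by_contra hne
    have hZpos : 0 < Nat.card {g : G // g ∉ bswCl K ∧ bswA g = 0} := by
      rw [hO4, ← hM]; exact hMpos
    obtain ⟨⟨⟨z, hz1, hz2⟩⟩, -⟩ := Nat.card_pos_iff.1 hZpos
    have hcz := hA z hz1 hz2
    have hpf : Fact (q.minFac).Prime := ⟨hp⟩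
    have hrf : Fact r.Prime := ⟨hr⟩
    obtain ⟨x', hx'⟩ := exists_prime_orderOf_dvd_card'
      (G := centralizer ({z} : Set G)) q.minFac (by rw [hcz]; exact Nat.minFac_dvd q)
    have hx : orderOf (x' : G) = q.minFac := by rw [Subgroup.orderOf_coe]; exact hx'
    have hx1 : (x' : G) ≠ 1 := by
      intro e
      rw [e, orderOf_one] at hx
      exact hp.one_lt.ne hx
    have hxq : (x' : G) ^ q = 1 := by
      apply orderOf_dvd_iff_pow_eq_one.1
      rw [hx]; exact Nat.minFac_dvd q
    have hcx := hC _ hx1 hxq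
    obtain ⟨y', hy'⟩ := exists_prime_orderOf_dvd_card'
      (G := centralizer ({(x' : G)} : Set G)) r (by rw [hcx]; exact hrq)
    have hy : orderOf (y' : G) = r := by rw [Subgroup.orderOf_coe]; exact hy'
    have hy1 : (y' : G) ≠ 1 := by
      intro e
      rw [e, orderOf_one] at hy
      exact hr.one_lt.ne hy
    have hyq : (y' : G) ^ q = 1 := by
      apply orderOf_dvd_iff_pow_eq_one.1
      rw [hy]; exact hrq
    have hcomm : Commute (x' : G) (y' : G) := by
      have := y'.2
      rw [mem_centralizer_singleton_iff] at this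
      exact this.symm
    have hcop : (q.minFac).Coprime r := (Nat.coprime_primes hp hr).2 (Ne.symm hne)
    have hxy : orderOf ((x' : G) * (y' : G)) = q.minFac * r := by
      have := hcomm.orderOf_mul_eq_mul_orderOf_of_coprime (by rw [hx, hy]; exact hcop)
      rw [this, hx, hy]
    have hp2 := hp.two_le
    have hr2 := hr.two_le
    have hxy1 : (x' : G) * (y' : G) ≠ 1 := by
      intro e
      rw [e, orderOf_one] at hxy
      have := Nat.mul_le_mul hp2 hr2
      omega
    have hxyq : ((x' : G) * (y' : G)) ^ q = 1 := by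
      apply orderOf_dvd_iff_pow_eq_one.1
      rw [hxy]; exact Nat.Coprime.mul_dvd_of_dvd_of_dvd hcop (Nat.minFac_dvd q) hrq
    have hcy := hC _ hy1 hyq
    have hcxy := hC _ hxy1 hxyq
    have hpr1 : q.minFac * r ≠ r := by
      intro e
      have : 2 * r ≤ q.minFac * r := Nat.mul_le_mul_right r hp2
      omega
    have hpr2 : q.minFac * r ≠ q.minFac := by
      intro e
      have : q.minFac * 2 ≤ q.minFac * r := Nat.mul_le_mul_left _ hr2
      omega
    have hxZ := (hB (x' : G)).2 ⟨hx1, hxq⟩
    have hyZ := (hB (y' : G)).2 ⟨hy1, hyq⟩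
    have hxyZ := (hB ((x' : G) * (y' : G))).2 ⟨hxy1, hxyq⟩
    obtain ⟨F1, hF1, hO1⟩ := bswEMA_class_inj (K := K) (x' : G) hxZ.1 hxZ.2
    obtain ⟨F2, hF2, hO2⟩ := bswEMA_class_inj (K := K) (y' : G) hyZ.1 hyZ.2
    obtain ⟨F3, hF3, hO3'⟩ := bswEMA_class_inj (K := K) ((x' : G) * (y' : G)) hxyZ.1 hxyZ.2
    have hinj23 : Function.Injective (Sum.elim F2 F3) := by
      refine hF2.sumElim hF3 ?_
      intro a b hab
      have e : orderOf (F2 a : G) = orderOf (F3 b : G) := by rw [hab]
      rw [hO2, hO3', hy, hxy] at e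
      exact hpr1 e.symm
    have hinj : Function.Injective (Sum.elim F1 (Sum.elim F2 F3)) := by
      refine hF1.sumElim hinj23 ?_
      intro a b hab
      rcases b with b | b
      · have e : orderOf (F1 a : G) = orderOf (F2 b : G) := by rw [hab]; rfl
        rw [hO1, hO2, hx, hy] at e
        exact hne e.symm
      · have e : orderOf (F1 a : G) = orderOf (F3 b : G) := by rw [hab]; rfl
        rw [hO1, hO3', hx, hxy] at e
        exact hpr2 e.symm
    have hle := Nat.card_le_card_of_injective _ hinj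
    rw [Nat.card_sum, Nat.card_sum, hO4, ← hM] at hle
    have c1 := Subgroup.card_eq_card_quotient_mul_card_subgroup (centralizer ({(x' : G)} : Set G))
    have c2 := Subgroup.card_eq_card_quotient_mul_card_subgroup (centralizer ({(y' : G)} : Set G))
    have c3 := Subgroup.card_eq_card_quotient_mul_card_subgroup
      (centralizer ({(x' : G) * (y' : G)} : Set G))
    rw [hcx] at c1
    rw [hcy] at c2
    rw [hcxy] at c3
    have key : ∀ n : ℕ, Nat.card G = n * q → 2 * n = (q + 1) * (q - 1) := by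
      intro n hn
      have : q * (2 * n) = q * ((q + 1) * (q - 1)) := by
        calc q * (2 * n) = 2 * (n * q) := by ring
          _ = 2 * Nat.card G := by rw [hn]
          _ = q * (q + 1) * (q - 1) := hG
          _ = q * ((q + 1) * (q - 1)) := by ring
      exact Nat.eq_of_mul_eq_mul_left hqpos this
    have e1 := key _ c1
    have e2 := key _ c2
    have e3 := key _ c3
    omega
  exact ⟨_, Nat.eq_prime_pow_of_unique_prime_dvd (by omega) huniq⟩

end Cfsg.Agent.Helper55
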