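/-
helper55: piece P8 of helper3's CALL S2202 (groups with abelian involution centralizers):
the center is trivial — core statement, with the two other pieces (P1, P2) as hypotheses.
-/
import Mathlib
import Cfsg.Agent.Helper3.AicDefs
import Cfsg.Agent.S1230

set_option autoImplicit false

namespace Cfsg.Agent.Helper55

open Cfsg.Agent.Helper3

universe u

section aicP8

variable {G : Type u} [Group G] [Finite G]

theorem aic8_no_inv_center (h : AbInvCent G) (P : Sylow 2 G)
    (hnn : ¬ (P : Subgroup G).Normal) :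
    ∀ z ∈ Subgroup.center G, z ^ 2 = 1 → z = 1 := by
  intro z hz hz2
  by_contra hz1
  have ho : orderOf z = 2 := orderOf_eq_prime hz2 hz1
  have hab := h z ho
  have htop : ∀ g : G, g ∈ Subgroup.centralizer ({z} : Set G) := by
    intro g
    rw [Subgroup.mem_centralizer_singleton_iff]
    exact (Subgroup.mem_center_iff.mp hz g)
  apply hnn
  constructor
  intro n hn g
  have hc : g * n = n * g :=
    congrArg Subtype.val (hab.is_comm.comm ⟨g, htop g⟩ ⟨n, htop n⟩)
  rw [hc]; simpa using hn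

theorem aic8_two_elt_center (hZ : ∀ z ∈ Subgroup.center G, z ^ 2 = 1 → z = 1) :
    ∀ k : ℕ, ∀ z ∈ Subgroup.center G, z ^ (2 ^ k) = 1 → z = 1 := by
  intro k
  induction k with
  | zero => intro z _ h; simpa using h
  | succ k ih =>
    intro z hz h
    have h1 : (z ^ 2) ^ (2 ^ k) = 1 := by rw [← pow_mul, ← pow_succ']; exact h
    exact hZ z hz (ih (z ^ 2) (pow_mem hz 2) h1)

theorem aic8_odd_center (hZ : ∀ z ∈ Subgroup.center G, z ^ 2 = 1 → z = 1) :
    Odd (Nat.card (Subgroup.center G)) := by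
  rw [← Nat.not_even_iff_odd]
  intro he
  have h2 : 2 ∣ Nat.card (Subgroup.center G) := even_iff_two_dvd.mp he
  obtain ⟨z, hz⟩ := exists_prime_orderOf_dvd_card' 2 h2
  have h1 : (z : G) ^ 2 = 1 := by
    have h3 := pow_orderOf_eq_one z
    rw [hz] at h3
    have h4 := congrArg Subtype.val h3
    simpa using h4
  have h3 := hZ z z.2 h1
  have h4 : z = 1 := Subtype.ext h3
  rw [h4, orderOf_one] at hz
  omega

theorem aic8_lift_inv (hodd : Odd (Nat.card (Subgroup.center G)))
    (tb : G ⧸ Subgroup.center G) (htb : orderOf tb = 2) :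
    ∃ t : G, orderOf t = 2 ∧ QuotientGroup.mk' (Subgroup.center G) t = tb := by
  obtain ⟨g, rfl⟩ := QuotientGroup.mk'_surjective (Subgroup.center G) tb
  have htb2 : (QuotientGroup.mk' (Subgroup.center G) g) ^ 2 = 1 := by
    rw [← htb]; exact pow_orderOf_eq_one _
  have hg2 : g ^ 2 ∈ Subgroup.center G := by
    rw [← QuotientGroup.eq_one_iff]
    have h1 : ((g ^ 2 : G) : G ⧸ Subgroup.center G) =
        (QuotientGroup.mk' (Subgroup.center G) g) ^ 2 := rfl
    rw [h1]; exact htb2
  obtain ⟨k, hk⟩ := hodd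
  refine ⟨g ^ Nat.card (Subgroup.center G), ?_, ?_⟩
  · have h1 : (g ^ Nat.card (Subgroup.center G)) ^ 2 = 1 := by
      rw [← pow_mul, mul_comm, pow_mul]
      have h2 : (⟨g ^ 2, hg2⟩ : Subgroup.center G) ^ Nat.card (Subgroup.center G) = 1 :=
        pow_card_eq_one'
      have h3 : (((⟨g ^ 2, hg2⟩ : Subgroup.center G) ^ Nat.card (Subgroup.center G) :
          Subgroup.center G) : G) = 1 := by rw [h2]; rfl
      rw [Subgroup.coe_pow] at h3
      exact h3
    have h2 : g ^ Nat.card (Subgroup.center G) ≠ 1 := by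
      intro h3
      have h4 : (QuotientGroup.mk' (Subgroup.center G) g) ^ Nat.card (Subgroup.center G) = 1 := by
        rw [← map_pow, h3, map_one]
      rw [hk, pow_succ, pow_mul, htb2, one_pow, one_mul] at h4
      rw [h4, orderOf_one] at htb
      omega
    exact orderOf_eq_prime h1 h2
  · rw [map_pow, hk, pow_succ, pow_mul, htb2, one_pow, one_mul]

theorem aic8_abInvCent_quot (h : AbInvCent G)
    (hZ : ∀ z ∈ Subgroup.center G, z ^ 2 = 1 → z = 1)
    (hodd : Odd (Nat.card (Subgroup.center G))) : AbInvCent (G ⧸ Subgroup.center G) := by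
  intro tb htb
  obtain ⟨t, ht, rfl⟩ := aic8_lift_inv hodd tb htb
  have hab := h t ht
  have ht2 : t ^ 2 = 1 := by rw [← ht]; exact pow_orderOf_eq_one t
  have key : ∀ c ∈ Subgroup.centralizer
      ({QuotientGroup.mk' (Subgroup.center G) t} : Set (G ⧸ Subgroup.center G)),
      ∃ x ∈ Subgroup.centralizer ({t} : Set G),
        QuotientGroup.mk' (Subgroup.center G) x = c := by
    intro c hc
    obtain ⟨x, rfl⟩ := QuotientGroup.mk'_surjective (Subgroup.center G) c
    refine ⟨x, ?_, rfl⟩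
    rw [Subgroup.mem_centralizer_singleton_iff] at hc ⊢
    have hz : x * t * x⁻¹ * t⁻¹ ∈ Subgroup.center G := by
      rw [← QuotientGroup.eq_one_iff]
      have h1 : ((x * t * x⁻¹ * t⁻¹ : G) : G ⧸ Subgroup.center G) =
          QuotientGroup.mk' (Subgroup.center G) x * QuotientGroup.mk' (Subgroup.center G) t *
            (QuotientGroup.mk' (Subgroup.center G) x)⁻¹ *
            (QuotientGroup.mk' (Subgroup.center G) t)⁻¹ := rfl
      rw [h1, hc]; group
    have hzc : ∀ g : G, g * (x * t * x⁻¹ * t⁻¹) = (x * t * x⁻¹ * t⁻¹) * g :=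
      Subgroup.mem_center_iff.mp hz
    have hz2 : (x * t * x⁻¹ * t⁻¹) ^ 2 = 1 := by
      have e1 : x * t * x⁻¹ = (x * t * x⁻¹ * t⁻¹) * t := by group
      have e2 : (x * t * x⁻¹) ^ 2 = 1 := by rw [conj_pow, ht2]; group
      rw [e1] at e2
      generalize x * t * x⁻¹ * t⁻¹ = z at hzc e2 ⊢
      have e3 : (z * t) ^ 2 = z ^ 2 * t ^ 2 := by
        have hct : Commute z t := (hzc t).symm
        exact hct.mul_pow 2
      rw [e3, ht2, mul_one] at e2; exact e2
    have hz1 := hZ _ hz hz2
    calc x * t = (x * t * x⁻¹ * t⁻¹) * t * x := by group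
      _ = t * x := by rw [hz1, one_mul]
  refine ⟨⟨fun a b => ?_⟩⟩
  obtain ⟨x, hx, hxa⟩ := key a.1 a.2
  obtain ⟨y, hy, hyb⟩ := key b.1 b.2
  apply Subtype.ext
  show a.1 * b.1 = b.1 * a.1
  rw [← hxa, ← hyb, ← map_mul, ← map_mul]
  congr 1
  exact congrArg Subtype.val (hab.is_comm.comm ⟨x, hx⟩ ⟨y, hy⟩)

omit [Finite G] in
theorem aic8_invClosure_normal : (invClosure G).Normal := by
  constructor
  intro n hn g
  have h1 : invClosure G ≤ (invClosure G).comap (MulAut.conj g).toMonoidHom := by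
    unfold invClosure
    rw [Subgroup.closure_le]
    intro t ht
    rw [SetLike.mem_coe, Subgroup.mem_comap]
    apply Subgroup.subset_closure
    have h2 : orderOf ((MulAut.conj g) t) = orderOf t := (MulAut.conj g).orderOf_eq t
    show orderOf ((MulAut.conj g) t) = 2
    rw [h2]; exact ht
  have h3 := h1 hn
  rw [Subgroup.mem_comap] at h3
  simpa using h3

/-- **P8, core**: the center is trivial, given the pieces P1 and P2 for `G ⧸ center G`. -/
theorem aic_center_eq_bot_aux (h : AbInvCent G) (P : Sylow 2 G)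
    (hnc : ¬ IsCyclic (P : Subgroup G)) (hnn : ¬ (P : Subgroup G).Normal)
    (hgen : Subgroup.normalClosure ((P : Subgroup G) : Set G) = ⊤)
    (IH : ∀ (X : Type u) [Group X] [Finite X], Nat.card X < Nat.card G → AbInvCent X →
      ∀ Q : Sylow 2 X, ¬ IsCyclic (Q : Subgroup X) → ¬ (Q : Subgroup X).Normal → AicConcl X)
    (hP1 : ∀ (F : Type) [Field F] [Fintype F] [CharP F 2]
      (_ : (G ⧸ Subgroup.center G) ≃* Matrix.ProjectiveSpecialLinearGroup (Fin 2) F)
      (p : ℕ) [Fact p.Prime], p ≠ 2 → ∀ Q : Subgroup (G ⧸ Subgroup.center G),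
        IsPGroup p Q → IsCyclic Q)
    (hP2 : Odd (Nat.card (Subgroup.center G)) → invClosure G = ⊤ →
      (∀ (p : ℕ) [Fact p.Prime], p ≠ 2 → ∀ Q : Subgroup (G ⧸ Subgroup.center G),
        IsPGroup p Q → IsCyclic Q) → Subgroup.center G = ⊥) :
    Subgroup.center G = ⊥ := by
  have hZ := aic8_no_inv_center h P hnn
  have hodd := aic8_odd_center hZ
  have hZk := aic8_two_elt_center hZ
  by_contra hne
  have hsurj := QuotientGroup.mk'_surjective (Subgroup.center G)
  have hP2grp : IsPGroup 2 (P : Subgroup G) := P.isPGroup'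
  have hpow : ∀ y ∈ (P : Subgroup G), ∃ k : ℕ, y ^ (2 ^ k) = 1 := by
    intro y hy
    obtain ⟨k, hk⟩ := hP2grp ⟨y, hy⟩
    refine ⟨k, ?_⟩
    have h4 : (((⟨y, hy⟩ : (P : Subgroup G)) ^ (2 ^ k) : (P : Subgroup G)) : G) = 1 := by
      rw [hk]; rfl
    rw [Subgroup.coe_pow] at h4
    exact h4
  have hlt : Nat.card (G ⧸ Subgroup.center G) < Nat.card G := by
    have h1 := Subgroup.card_eq_card_quotient_mul_card_subgroup (Subgroup.center G)
    have h2 : Nat.card (Subgroup.center G) ≠ 1 := fun h3 => hne (Subgroup.card_eq_one.mp h3)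
    have h3 : 0 < Nat.card (Subgroup.center G) := Nat.card_pos
    have h4 : 0 < Nat.card (G ⧸ Subgroup.center G) := Nat.card_pos
    rw [h1]
    have h5 : 2 ≤ Nat.card (Subgroup.center G) := by omega
    nlinarith
  have hAb := aic8_abInvCent_quot h hZ hodd
  have hQcoe : ((P.mapSurjective hsurj : Sylow 2 (G ⧸ Subgroup.center G)) :
      Subgroup (G ⧸ Subgroup.center G)) =
        (P : Subgroup G).map (QuotientGroup.mk' (Subgroup.center G)) :=
    Sylow.coe_mapSurjective hsurj P
  have hker : ∀ y ∈ (P : Subgroup G), QuotientGroup.mk' (Subgroup.center G) y = 1 → y = 1 := by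
    intro y hy h1
    have h2 : y ∈ Subgroup.center G := (QuotientGroup.eq_one_iff y).mp h1
    obtain ⟨k, hk⟩ := hpow y hy
    exact hZk k y h2 hk
  have hncQ : ¬ IsCyclic ((P.mapSurjective hsurj : Sylow 2 (G ⧸ Subgroup.center G)) :
      Subgroup (G ⧸ Subgroup.center G)) := by
    intro hcyc
    apply hnc
    let f : (P : Subgroup G) →* ((P.mapSurjective hsurj : Sylow 2 (G ⧸ Subgroup.center G)) :
        Subgroup (G ⧸ Subgroup.center G)) :=
      ((QuotientGroup.mk' (Subgroup.center G)).comp (P : Subgroup G).subtype).codRestrict _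
        (fun y => by rw [hQcoe]; exact Subgroup.mem_map_of_mem _ y.2)
    apply isCyclic_of_injective f
    rw [injective_iff_map_eq_one]
    intro y hy
    have h1 : QuotientGroup.mk' (Subgroup.center G) y.1 = 1 := congrArg Subtype.val hy
    exact Subtype.ext (hker y.1 y.2 h1)
  have hnnQ : ¬ ((P.mapSurjective hsurj : Sylow 2 (G ⧸ Subgroup.center G)) :
      Subgroup (G ⧸ Subgroup.center G)).Normal := by
    intro hnor
    apply hnn
    constructor
    intro y hy g
    have h1 : QuotientGroup.mk' (Subgroup.center G) (g * y * g⁻¹) ∈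
        ((P.mapSurjective hsurj : Sylow 2 (G ⧸ Subgroup.center G)) :
          Subgroup (G ⧸ Subgroup.center G)) := by
      rw [map_mul, map_mul, map_inv]
      apply hnor.conj_mem
      rw [hQcoe]; exact Subgroup.mem_map_of_mem _ hy
    rw [hQcoe, Subgroup.mem_map] at h1
    obtain ⟨q, hq, hqe⟩ := h1
    have hz : q⁻¹ * (g * y * g⁻¹) ∈ Subgroup.center G := by
      rw [← QuotientGroup.eq_one_iff]
      have h2 : ((q⁻¹ * (g * y * g⁻¹) : G) : G ⧸ Subgroup.center G) =
          (QuotientGroup.mk' (Subgroup.center G) q)⁻¹ *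
            QuotientGroup.mk' (Subgroup.center G) (g * y * g⁻¹) := rfl
      rw [h2, hqe]; group
    obtain ⟨a, hqa⟩ := hpow q hq
    obtain ⟨b, hyb⟩ := hpow y hy
    have hzc : ∀ g' : G, g' * (q⁻¹ * (g * y * g⁻¹)) = (q⁻¹ * (g * y * g⁻¹)) * g' :=
      Subgroup.mem_center_iff.mp hz
    have hcomm : Commute q⁻¹ (g * y * g⁻¹) := by
      have e : g * y * g⁻¹ = q * (q⁻¹ * (g * y * g⁻¹)) := by group
      rw [e]
      generalize q⁻¹ * (g * y * g⁻¹) = z at hzc
      show q⁻¹ * (q * z) = q * z * q⁻¹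
      calc q⁻¹ * (q * z) = q * (q⁻¹ * z) := by group
        _ = q * (z * q⁻¹) := by rw [hzc q⁻¹]
        _ = q * z * q⁻¹ := by group
    have e1 : q ^ (2 ^ (a + b)) = 1 := by rw [pow_add, pow_mul, hqa, one_pow]
    have e2 : y ^ (2 ^ (a + b)) = 1 := by rw [pow_add, mul_comm, pow_mul, hyb, one_pow]
    have hz1 : q⁻¹ * (g * y * g⁻¹) = 1 := by
      apply hZk (a + b) _ hz
      rw [hcomm.mul_pow, inv_pow, e1, inv_one, one_mul, conj_pow, e2]; group
    have e3 : g * y * g⁻¹ = q := by
      calc g * y * g⁻¹ = q * (q⁻¹ * (g * y * g⁻¹)) := by group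
        _ = q := by rw [hz1, mul_one]
    rw [e3]; exact hq
  obtain ⟨c1, c2, c3, c4, c5⟩ :=
    IH (G ⧸ Subgroup.center G) hlt hAb (P.mapSurjective hsurj) hncQ hnnQ
  have hPexp : ∀ y ∈ (P : Subgroup G), y ^ 2 = 1 := by
    intro y hy
    have hmem : QuotientGroup.mk' (Subgroup.center G) y ∈
        ((P.mapSurjective hsurj : Sylow 2 (G ⧸ Subgroup.center G)) :
          Subgroup (G ⧸ Subgroup.center G)) := by
      rw [hQcoe]; exact Subgroup.mem_map_of_mem _ hy
    have h1 : (QuotientGroup.mk' (Subgroup.center G) y) ^ 2 = 1 :=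
      c1 (P.mapSurjective hsurj) _ hmem
    rw [← map_pow] at h1
    exact hker (y ^ 2) (pow_mem hy 2) h1
  have hgenG : invClosure G = ⊤ := by
    have hN : (invClosure G).Normal := aic8_invClosure_normal
    rw [eq_top_iff, ← hgen]
    apply Subgroup.normalClosure_le_normal
    intro y hy
    by_cases hy1 : y = 1
    · rw [hy1]; exact Subgroup.one_mem _
    · exact Subgroup.subset_closure (orderOf_eq_prime (hPexp y hy) hy1)
  have hgenX : invClosure (G ⧸ Subgroup.center G) = ⊤ := by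
    rw [eq_top_iff, ← Subgroup.map_top_of_surjective _ hsurj, ← hgenG]
    unfold invClosure
    rw [MonoidHom.map_closure]
    apply Subgroup.closure_mono
    rintro _ ⟨t, ht, rfl⟩
    have ht' : orderOf t = 2 := ht
    have ht2 : t ^ 2 = 1 := by rw [← ht']; exact pow_orderOf_eq_one t
    apply orderOf_eq_prime
    · rw [← map_pow, ht2, map_one]
    · intro h1
      have h2 : t ∈ Subgroup.center G := (QuotientGroup.eq_one_iff t).mp h1
      have h3 := hZ t h2 ht2
      rw [h3, orderOf_one] at ht'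
      omega
  have hcenX : Subgroup.center (G ⧸ Subgroup.center G) = ⊥ := by
    rw [hgenX, top_inf_eq] at c3; exact c3
  have hC : ∀ tb : G ⧸ Subgroup.center G, orderOf tb = 2 →
      IsMulCommutative (Subgroup.centralizer ({tb} : Set (G ⧸ Subgroup.center G))) ∧
      ∀ c ∈ Subgroup.centralizer ({tb} : Set (G ⧸ Subgroup.center G)), c ^ 2 = 1 := by
    intro tb htb
    refine ⟨hAb tb htb, ?_⟩
    intro c hc
    rw [Subgroup.mem_centralizer_singleton_iff] at hc
    obtain ⟨k, m, hm, hn⟩ := Nat.exists_eq_two_pow_mul_odd (orderOf_pos c).ne'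
    have hd : (c ^ (2 ^ k)) ^ m = 1 := by rw [← pow_mul, ← hn]; exact pow_orderOf_eq_one c
    have hdodd : Odd (orderOf (c ^ (2 ^ k))) := hm.of_dvd_nat (orderOf_dvd_of_pow_eq_one hd)
    have hdc : Commute (c ^ (2 ^ k)) tb := (show Commute c tb from hc).pow_left _
    have hd1 : c ^ (2 ^ k) = 1 := by
      have h1 := c2 tb (c ^ (2 ^ k)) htb hdc hdodd
      rw [hcenX] at h1
      exact Subgroup.mem_bot.mp h1
    have hpg : IsPGroup 2 (Subgroup.zpowers c) := by
      have h1 : Nat.card (Subgroup.zpowers c) ∣ 2 ^ k := by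
        rw [Nat.card_zpowers]; exact orderOf_dvd_of_pow_eq_one hd1
      obtain ⟨j, _, hj⟩ := (Nat.dvd_prime_pow Nat.prime_two).mp h1
      exact IsPGroup.of_card hj
    obtain ⟨Q', hQ'⟩ := hpg.exists_le_sylow
    exact c1 Q' c (hQ' (Subgroup.mem_zpowers c))
  obtain ⟨F, hF1, hF2, hFcard, ⟨e⟩⟩ :=
    Cfsg.Agent.S1230.result (P.mapSurjective hsurj) hncQ hnnQ hC
  have hchar : CharP F 2 := by
    obtain ⟨q, hq⟩ := CharP.exists F
    obtain ⟨n, hqp, hn⟩ := FiniteField.card F q
    obtain ⟨j, hj⟩ := IsPGroup.exists_card_eq (P.mapSurjective hsurj).isPGroup'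
    rw [hFcard, hj] at hn
    have h1 : q ∣ 2 ^ j := by rw [hn]; exact dvd_pow_self q n.ne_zero
    have h2 : q = 2 :=
      (Nat.prime_dvd_prime_iff_eq hqp Nat.prime_two).mp (hqp.dvd_of_dvd_pow h1)
    rw [h2] at hq; exact hq
  exact hne (hP2 hodd hgenG (fun p _ hp Q hQ => hP1 F e p hp Q hQ))

end aicP8

end Cfsg.Agent.Helper55
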