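/-
helper55: piece P8 of helper3's CALL S2202 (groups with abelian involution centralizers):
the center is trivial.
-/
import Cfsg.Agent.Helper55.AicP8a
import Cfsg.Agent.Helper47.AicP2
import Cfsg.Agent.Helper79.Psl2Cyc

set_option autoImplicit false

namespace Cfsg.Agent.Helper55

open Cfsg.Agent.Helper3

universe u

/-- **P8 of CALL S2202.** -/
theorem aic_center_eq_bot {G : Type u} [Group G] [Finite G] (h : AbInvCent G) (P : Sylow 2 G)
    (hnc : ¬ IsCyclic (P : Subgroup G)) (hnn : ¬ (P : Subgroup G).Normal)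
    (hgen : Subgroup.normalClosure ((P : Subgroup G) : Set G) = ⊤)
    (IH : ∀ (X : Type u) [Group X] [Finite X], Nat.card X < Nat.card G → AbInvCent X →
      ∀ Q : Sylow 2 X, ¬ IsCyclic (Q : Subgroup X) → ¬ (Q : Subgroup X).Normal → AicConcl X) :
    Subgroup.center G = ⊥ :=
  aic_center_eq_bot_aux h P hnc hnn hgen IH
    (fun F _ _ _ e p _ hp Q hQ =>
      Cfsg.Agent.Helper79.isCyclic_pgroup_of_equiv_psl2_char2 F e p hp Q hQ)
    (fun hodd hgenG hcyc =>
      Cfsg.Agent.Helper47.center_odd_trivial_of_cyclic (Subgroup.center G) le_rfl hodd hgenG hcyc)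

end Cfsg.Agent.Helper55
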