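/-
helper55: piece P9a of helper3's CALL S2202 (groups with abelian involution centralizers):
the normalizer of `oddCent P` is the whole group or the normalizer of `P`.
-/
import Mathlib
import Cfsg.Agent.Helper3.AicBasic
import Cfsg.Agent.Helper33.AicSub
import Cfsg.Agent.Helper47.AicP3
import Cfsg.Agent.Helper61.AicP10

set_option autoImplicit false

namespace Cfsg.Agent.Helper55

open Subgroup Cfsg.Agent.Helper3

universe u

section aicP9

variable {G : Type u} [Group G] [Finite G]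

theorem aic9_le_normalizer_oddCent (h : AbInvCent G) {R : Sylow 2 G}
    (hR : (R : Subgroup G) ≠ ⊥) :
    (R : Subgroup G) ≤ normalizer ((oddCent R : Subgroup G) : Set G) := by
  intro y hy
  apply aic_cent_le_norm
  rw [mem_centralizer_iff]
  intro x hx
  have hx' := aic_oddCent_le h hR hx
  rw [mem_centralizer_iff] at hx'
  exact (hx' y hy).symm

theorem aic9_mem_oddCent_smul (h : AbInvCent G) {R : Sylow 2 G} (hR : (R : Subgroup G) ≠ ⊥)
    (g x : G) : x ∈ oddCent (g • R) ↔ g⁻¹ * x * g ∈ oddCent R := by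
  constructor
  · intro hx
    have h1 := aic_conj_mem_oddCent h (aic_smul_ne_bot hR g) (g := g⁻¹) hx
    rw [inv_smul_smul, inv_inv] at h1
    exact h1
  · intro hx
    have h1 := aic_conj_mem_oddCent h hR (g := g) hx
    have e : g * (g⁻¹ * x * g) * g⁻¹ = x := by group
    rw [e] at h1
    exact h1

theorem aic9_oddCent_smul_eq (h : AbInvCent G) {R : Sylow 2 G} (hR : (R : Subgroup G) ≠ ⊥)
    {w : G} (hw : w ∈ normalizer ((oddCent R : Subgroup G) : Set G)) :
    oddCent (w • R) = oddCent R := by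
  ext x
  rw [aic9_mem_oddCent_smul h hR]
  have hw' : w⁻¹ ∈ normalizer ((oddCent R : Subgroup G) : Set G) := inv_mem hw
  rw [mem_normalizer_iff] at hw'
  rw [hw' x, inv_inv]

theorem aic9_mem_normalizer_of_oddCent_smul (h : AbInvCent G) {R : Sylow 2 G}
    (hR : (R : Subgroup G) ≠ ⊥) {g : G} (hg : oddCent (g • R) = oddCent R) :
    g ∈ normalizer ((oddCent R : Subgroup G) : Set G) := by
  have h1 : g⁻¹ ∈ normalizer ((oddCent R : Subgroup G) : Set G) := by
    rw [mem_normalizer_iff]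
    intro x
    rw [inv_inv, ← aic9_mem_oddCent_smul h hR, hg]
  simpa using inv_mem h1

theorem aic9_swap_into (h : AbInvCent G) {R R' : Sylow 2 G} (hR : (R : Subgroup G) ≠ ⊥)
    {v : G} (hv : orderOf v = 2) (hvR' : v ∈ R')
    (hvN : v ∈ normalizer ((oddCent R : Subgroup G) : Set G)) :
    ∃ w ∈ normalizer ((oddCent R : Subgroup G) : Set G), w • R = R' := by
  by_cases hRR : R = R'
  · exact ⟨1, one_mem _, by rw [one_smul, hRR]⟩
  obtain ⟨t, htR, ht⟩ := aic_exists_inv_mem hR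
  obtain ⟨w, hw, hwc, hwcl⟩ := aic_exists_swap h hRR ht hv htR hvR'
  refine ⟨w, ?_, aic_smul_eq_of_conj h ht htR (by rw [hwc]; exact hvR')⟩
  have hle : closure ({t, v} : Set G) ≤ normalizer ((oddCent R : Subgroup G) : Set G) := by
    rw [closure_le]
    intro z hz
    rcases hz with rfl | rfl
    · exact aic9_le_normalizer_oddCent h hR htR
    · exact hvN
  exact hle hwcl

theorem aic9_of_inv_mem (h : AbInvCent G) {R R' : Sylow 2 G} (hR : (R : Subgroup G) ≠ ⊥)
    {v : G} (hv : orderOf v = 2) (hvR' : v ∈ R')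
    (hvN : v ∈ normalizer ((oddCent R : Subgroup G) : Set G)) :
    (R' : Subgroup G) ≤ normalizer ((oddCent R : Subgroup G) : Set G) ∧
      oddCent R' = oddCent R := by
  obtain ⟨w, hwN, hw⟩ := aic9_swap_into h hR hv hvR' hvN
  refine ⟨?_, ?_⟩
  · intro y hy
    have hy' : y ∈ (w • R : Sylow 2 G) := by rw [hw]; exact hy
    rw [aic_mem_smul] at hy'
    have h1 := aic9_le_normalizer_oddCent h hR hy'
    have e : y = w * (w⁻¹ * y * w) * w⁻¹ := by group
    rw [e]; exact mul_mem (mul_mem hwN h1) (inv_mem hwN)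
  · rw [← hw]; exact aic9_oddCent_smul_eq h hR hwN

theorem aic9_smul_le {M : Subgroup G} {g : G} (hg : g ∈ M) {R : Sylow 2 G}
    (hR : (R : Subgroup G) ≤ M) : ((g • R : Sylow 2 G) : Subgroup G) ≤ M := by
  intro y hy
  have hy' : g⁻¹ * y * g ∈ R := aic_mem_smul.mp hy
  have e : y = g * (g⁻¹ * y * g) * g⁻¹ := by group
  rw [e]; exact mul_mem (mul_mem hg (hR hy')) (inv_mem hg)

/-- The Sylow 2-subgroups inside `N(oddCent P)` other than `P`. -/
def aic9Y (P : Sylow 2 G) : Set (Sylow 2 G) :=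
  {R | (R : Subgroup G) ≤ normalizer ((oddCent P : Subgroup G) : Set G) ∧ R ≠ P}

/-- `N(oddCent P) ∩ N(oddCent Q) ∩ N(P)`. -/
def aic9D (P Q : Sylow 2 G) : Subgroup G :=
  (normalizer ((oddCent P : Subgroup G) : Set G) ⊓
    normalizer ((oddCent Q : Subgroup G) : Set G)) ⊓ normalizer ((P : Subgroup G) : Set G)

theorem aic9_mem_D {P Q : Sylow 2 G} {r : G} : r ∈ aic9D P Q ↔
    (r ∈ normalizer ((oddCent P : Subgroup G) : Set G) ∧
      r ∈ normalizer ((oddCent Q : Subgroup G) : Set G)) ∧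
      r ∈ normalizer ((P : Subgroup G) : Set G) := by
  unfold aic9D
  rw [mem_inf, mem_inf]

end aicP9

/-- **P9a of CALL S2202.** -/
theorem aic_normalizer_oddCent {G : Type u} [Group G] [Finite G] (h : AbInvCent G)
    (P : Sylow 2 G) (hnc : ¬ IsCyclic (P : Subgroup G)) (hnn : ¬ (P : Subgroup G).Normal)
    (IH : ∀ (X : Type u) [Group X] [Finite X], Nat.card X < Nat.card G → AbInvCent X →
      ∀ Q : Sylow 2 X, ¬ IsCyclic (Q : Subgroup X) → ¬ (Q : Subgroup X).Normal → AicConcl X) :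
    normalizer ((oddCent P : Subgroup G) : Set G) = ⊤ ∨
      normalizer ((oddCent P : Subgroup G) : Set G) = normalizer ((P : Subgroup G) : Set G) := by
  by_contra hcon
  push Not at hcon
  obtain ⟨hMtop, hMN⟩ := hcon
  have hPbot : (P : Subgroup G) ≠ ⊥ := by
    intro hb
    apply hnc
    rw [hb]; infer_instance
  have hbot : ∀ R : Sylow 2 G, (R : Subgroup G) ≠ ⊥ := by
    intro R
    by_cases hRP : R = P
    · rw [hRP]; exact hPbot
    · exact aic_ne_bot_of_ne hRP
  have hPM : (P : Subgroup G) ≤ normalizer ((oddCent P : Subgroup G) : Set G) :=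
    aic9_le_normalizer_oddCent h hPbot
  have hNM : normalizer ((P : Subgroup G) : Set G) ≤
      normalizer ((oddCent P : Subgroup G) : Set G) := by
    intro g hg
    apply aic9_mem_normalizer_of_oddCent_smul h hPbot
    rw [Sylow.smul_eq_iff_mem_normalizer.mpr hg]
  obtain ⟨g, hgM, hgN⟩ : ∃ g ∈ normalizer ((oddCent P : Subgroup G) : Set G),
      g ∉ normalizer ((P : Subgroup G) : Set G) := by
    by_contra hc
    push Not at hc
    exact hMN (le_antisymm hc hNM)
  have hP'ne : P ≠ g • P := fun he => hgN (Sylow.smul_eq_iff_mem_normalizer.mp he.symm)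
  have hP'M : ((g • P : Sylow 2 G) : Subgroup G) ≤
      normalizer ((oddCent P : Subgroup G) : Set G) := aic9_smul_le hgM hPM
  obtain ⟨ha, -, -, hd⟩ :=
    Cfsg.Agent.Helper33.aicConcl_of_subgroup h _ hMtop P (g • P) hP'ne hnc hPM hP'M IH
  have hA : ∀ R : Sylow 2 G, (R : Subgroup G) ≤ normalizer ((oddCent P : Subgroup G) : Set G) →
      oddCent R = oddCent P := by
    intro R hR
    obtain ⟨v, hvR, hv⟩ := aic_exists_inv_mem (hbot R)
    exact (aic9_of_inv_mem h hPbot hv hvR (hR hvR)).2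
  obtain ⟨Q, hQM⟩ : ∃ Q : Sylow 2 G,
      ¬ (Q : Subgroup G) ≤ normalizer ((oddCent P : Subgroup G) : Set G) := by
    by_contra hc'
    push Not at hc'
    apply hMtop
    rw [eq_top_iff]
    intro x _
    obtain ⟨v, hvR, hv⟩ := aic_exists_inv_mem (hbot (x • P))
    obtain ⟨w, hwM, hw⟩ := aic9_swap_into h hPbot hv hvR (hc' (x • P) hvR)
    have h1 : (w⁻¹ * x) • P = P := by rw [mul_smul, ← hw, inv_smul_smul]
    have h2 : w⁻¹ * x ∈ normalizer ((oddCent P : Subgroup G) : Set G) :=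
      hNM (Sylow.smul_eq_iff_mem_normalizer.mp h1)
    have e : x = w * (w⁻¹ * x) := by group
    rw [e]; exact mul_mem hwM h2
  have hPQ : P ≠ Q := fun he => hQM (by rw [← he]; exact hPM)
  have hQbot := hbot Q
  have hQMQ : (Q : Subgroup G) ≤ normalizer ((oddCent Q : Subgroup G) : Set G) :=
    aic9_le_normalizer_oddCent h hQbot
  have hAne : oddCent Q ≠ oddCent P := by
    intro he
    apply hQM
    rw [← he]; exact hQMQ
  have hnoinv : ∀ v : G, v ∈ normalizer ((oddCent P : Subgroup G) : Set G) →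
      v ∈ normalizer ((oddCent Q : Subgroup G) : Set G) → orderOf v ≠ 2 := by
    intro v hvM hvMQ hv
    obtain ⟨R, hR⟩ := (aic_isPGroup_zpowers_of_two hv).exists_le_sylow
    have hvR : v ∈ R := hR (mem_zpowers v)
    have h1 := (aic9_of_inv_mem h hPbot hv hvR hvM).2
    have h2 := (aic9_of_inv_mem h hQbot hv hvR hvMQ).2
    exact hAne (h2.symm.trans h1)
  have hodd : ∀ d : G, d ∈ normalizer ((oddCent P : Subgroup G) : Set G) →
      d ∈ normalizer ((oddCent Q : Subgroup G) : Set G) → Odd (orderOf d) := by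
    intro d hdM hdMQ
    by_contra hne
    have h2 : 2 ∣ orderOf d := by
      rcases Nat.even_or_odd (orderOf d) with he | ho
      · exact even_iff_two_dvd.mp he
      · exact absurd ho hne
    exact hnoinv _ (pow_mem hdM _) (pow_mem hdMQ _) (aic_pow_involution h2)
  obtain ⟨s, hsQ, hs⟩ := aic_exists_inv_mem hQbot
  have htrans : ∀ R : Sylow 2 G,
      (R : Subgroup G) ≤ normalizer ((oddCent P : Subgroup G) : Set G) →
      ∀ t t' : G, t ∈ P → t' ∈ R → orderOf t = 2 → orderOf t' = 2 →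
      ∃ δ : G, δ ∈ normalizer ((oddCent P : Subgroup G) : Set G) ∧
        δ ∈ normalizer ((oddCent Q : Subgroup G) : Set G) ∧ δ • P = R ∧ δ * t * δ⁻¹ = t' := by
    intro R hRM t t' htP ht'R ht ht'
    have hRQ : R ≠ Q := fun he => hQM (by rw [← he]; exact hRM)
    obtain ⟨w, hw, hwc, -⟩ := aic_exists_swap h hPQ ht hs htP hsQ
    obtain ⟨w', hw', hwc', -⟩ := aic_exists_swap h hRQ ht' hs ht'R hsQ
    obtain ⟨hw1, hw2⟩ := aic_swap_smul h ht htP hw
      (show w * t * w⁻¹ ∈ Q by rw [hwc]; exact hsQ)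
    obtain ⟨hw1', hw2'⟩ := aic_swap_smul h ht' ht'R hw'
      (show w' * t' * w'⁻¹ ∈ Q by rw [hwc']; exact hsQ)
    have hAR : oddCent R = oddCent P := hA R hRM
    refine ⟨w' * w, ?_, ?_, ?_, ?_⟩
    · apply aic9_mem_normalizer_of_oddCent_smul h hPbot
      rw [mul_smul, hw1, hw2', hAR]
    · apply aic9_mem_normalizer_of_oddCent_smul h hQbot
      rw [mul_smul, hw2]
      ext x
      rw [aic9_mem_oddCent_smul h hPbot, ← hAR, ← aic9_mem_oddCent_smul h (hbot R), hw1']
    · rw [mul_smul, hw1, hw2']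
    · have e1 : w' * w * t * (w' * w)⁻¹ = w' * (w * t * w⁻¹) * w'⁻¹ := by group
      rw [e1, hwc, ← hwc']
      have e2 : w' * w' = 1 := aic_inv_sq hw'
      have e3 : w'⁻¹ = w' := aic_inv_inv hw'
      rw [e3]
      calc w' * (w' * t' * w') * w' = (w' * w') * t' * (w' * w') := by group
        _ = t' := by rw [e2, one_mul, mul_one]
  have hfree : ∀ x : G, x ∈ P → ∀ R : Sylow 2 G, R ≠ P → x • R = R → x = 1 := by
    intro x hxP R hRP hxR
    by_contra hx1
    have hx2 : orderOf x = 2 := orderOf_eq_prime (ha P x hxP) hx1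
    have h1 : x ∈ R := aic_inv_mem_of_fix hx2 hxR
    exact hRP (aic_sylow_eq_of_inv h hx2 h1 hxP)
  have hPfix : ∀ x : G, x ∈ P → x • P = P := fun x hx =>
    Sylow.smul_eq_iff_mem_normalizer.mpr (le_normalizer hx)
  have hYcard : Nat.card ↥(aic9Y P) = Nat.card P := by
    have hT : Set.ncard {R : Sylow 2 G |
        (R : Subgroup G) ≤ normalizer ((oddCent P : Subgroup G) : Set G)} = Nat.card P + 1 := by
      rw [← hd]; exact (Nat.card_coe_set_eq _).symm
    have h1 : ({R : Sylow 2 G |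
        (R : Subgroup G) ≤ normalizer ((oddCent P : Subgroup G) : Set G)} \ {P}).ncard + 1 =
        Set.ncard {R : Sylow 2 G |
          (R : Subgroup G) ≤ normalizer ((oddCent P : Subgroup G) : Set G)} :=
      Set.ncard_sdiff_singleton_add_one (show P ∈ {R : Sylow 2 G |
        (R : Subgroup G) ≤ normalizer ((oddCent P : Subgroup G) : Set G)} from hPM)
        (Set.toFinite _)
    have h2 : aic9Y P = {R : Sylow 2 G |
        (R : Subgroup G) ≤ normalizer ((oddCent P : Subgroup G) : Set G)} \ {P} := rfl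
    rw [Nat.card_coe_set_eq, h2]
    omega
  have hYmem : ∀ x : G, x ∈ normalizer ((oddCent P : Subgroup G) : Set G) → x • P = P →
      ∀ y ∈ aic9Y P, x • y ∈ aic9Y P := by
    intro x hxM hxP y hy
    refine ⟨aic9_smul_le hxM hy.1, ?_⟩
    intro he
    apply hy.2
    have h1 : x • y = x • P := by rw [he, hxP]
    exact smul_left_cancel x h1
  have hreg : ∀ x ∈ aic9Y P, ∀ y ∈ aic9Y P,
      ∃! s : G, s ∈ (P : Subgroup G) ∧ s • x = y := by
    intro x hx y hy
    let f : ↥(P : Subgroup G) → ↥(aic9Y P) := fun s =>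
      ⟨s.1 • x, hYmem s.1 (hPM s.2) (hPfix s.1 s.2) x hx⟩
    have hf : Function.Injective f := by
      intro s1 s2 h12
      have h1 : s1.1 • x = s2.1 • x := congrArg Subtype.val h12
      have h2 : (s2.1⁻¹ * s1.1) • x = x := by rw [mul_smul, h1, inv_smul_smul]
      have h3 := hfree _ (mul_mem (inv_mem s2.2) s1.2) x hx.2 h2
      exact Subtype.ext (inv_mul_eq_one.mp h3).symm
    have hbij := hf.bijective_of_nat_card_le hYcard.le
    obtain ⟨s0, hs0⟩ := hbij.2 ⟨y, hy⟩
    refine ⟨s0.1, ⟨s0.2, congrArg Subtype.val hs0⟩, ?_⟩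
    rintro s' ⟨hs'P, hs'⟩
    have h1 : f ⟨s', hs'P⟩ = f s0 := Subtype.ext (by
      show s' • x = s0.1 • x
      rw [hs']; exact (congrArg Subtype.val hs0).symm)
    exact congrArg Subtype.val (hf h1)
  have hDodd : Odd (Nat.card ↥(aic9D P Q)) := by
    rw [← Nat.not_even_iff_odd]
    intro he
    obtain ⟨z, hz⟩ := exists_prime_orderOf_dvd_card' 2 (even_iff_two_dvd.mp he)
    have hz' : orderOf (z : G) = 2 := by rw [Subgroup.orderOf_coe]; exact hz
    have hzD := aic9_mem_D.mp z.2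
    exact hnoinv z.1 hzD.1.1 hzD.1.2 hz'
  obtain ⟨R0, hR0Y, hR0fix⟩ := Cfsg.Agent.Helper47.exists_fixed_of_odd_normalizing
    (P : Subgroup G) (aic9D P Q) (aic9Y P) (fun s hs => ha P s hs)
    (fun r hr s hs => (mem_normalizer_iff.mp (aic9_mem_D.mp hr).2 s).mp hs) hDodd
    (fun s hs y hy => hYmem s (hPM hs) (hPfix s hs) y hy)
    (fun r hr y hy => hYmem r (aic9_mem_D.mp hr).1.1
      (Sylow.smul_eq_iff_mem_normalizer.mpr (aic9_mem_D.mp hr).2) y hy)
    hreg ⟨g • P, hP'M, hP'ne.symm⟩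
  have hR0uniq : ∀ R1 ∈ aic9Y P, (∀ r ∈ aic9D P Q, r • R1 = R1) → R1 = R0 := by
    intro R1 hR1Y hR1fix
    obtain ⟨x, ⟨hxP, hx⟩, -⟩ := hreg R0 hR0Y R1 hR1Y
    by_cases hx1 : x = 1
    · rw [← hx, hx1, one_smul]
    exfalso
    have hx2 : orderOf x = 2 := orderOf_eq_prime (ha P x hxP) hx1
    obtain ⟨t1, ht1P, t2, ht2P, ht1, ht2, ht12⟩ :=
      Cfsg.Agent.Helper61.exists_two_involutions_of_not_cyclic (P : Subgroup G) P.isPGroup'
        (fun a ha' b hb' => aic_sylow_comm h P ha' hb') hnc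
    obtain ⟨t', ht'P, ht', ht'x⟩ : ∃ t' ∈ P, orderOf t' = 2 ∧ t' ≠ x := by
      by_cases h1 : t1 = x
      · exact ⟨t2, ht2P, ht2, fun h2 => ht12 (h1.trans h2.symm)⟩
      · exact ⟨t1, ht1P, ht1, h1⟩
    obtain ⟨δ, hδM, hδMQ, hδP, hδt⟩ := htrans P hPM x t' hxP ht'P hx2 ht'
    have hδD : δ ∈ aic9D P Q :=
      aic9_mem_D.mpr ⟨⟨hδM, hδMQ⟩, Sylow.smul_eq_iff_mem_normalizer.mp hδP⟩
    have h1 : (x⁻¹ * (δ * x * δ⁻¹)) • R0 = R0 := by
      have e1 : δ⁻¹ • R0 = R0 := by
        have h2 := hR0fix δ hδD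
        calc δ⁻¹ • R0 = δ⁻¹ • (δ • R0) := by rw [h2]
          _ = R0 := inv_smul_smul δ R0
      have e2 : δ • (x • R0) = x • R0 := by rw [hx]; exact hR1fix δ hδD
      rw [mul_smul, mul_smul, mul_smul, e1, e2, inv_smul_smul]
    have h2 : x⁻¹ * (δ * x * δ⁻¹) ∈ P := mul_mem (inv_mem hxP) (by rw [hδt]; exact ht'P)
    have h3 := hfree _ h2 R0 hR0Y.2 h1
    rw [hδt] at h3
    exact ht'x (inv_mul_eq_one.mp h3).symm
  obtain ⟨t, htP, ht⟩ := aic_exists_inv_mem hPbot
  obtain ⟨t0, ht0R, ht0⟩ := aic_exists_inv_mem (hbot R0)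
  obtain ⟨δ, hδM, hδMQ, hδP, -⟩ := htrans R0 hR0Y.1 t t0 htP ht0R ht ht0
  have hfix2 : ∀ r ∈ aic9D P Q, r • (δ • R0) = δ • R0 := by
    intro r hr
    have hrD := aic9_mem_D.mp hr
    have hr' : δ⁻¹ * r * δ ∈ aic9D P Q := by
      refine aic9_mem_D.mpr ⟨⟨mul_mem (mul_mem (inv_mem hδM) hrD.1.1) hδM,
        mul_mem (mul_mem (inv_mem hδMQ) hrD.1.2) hδMQ⟩, ?_⟩
      apply Sylow.smul_eq_iff_mem_normalizer.mp
      rw [mul_smul, mul_smul, hδP, hR0fix r hr, ← hδP, inv_smul_smul]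
    have h1 := hR0fix _ hr'
    calc r • (δ • R0) = δ • ((δ⁻¹ * r * δ) • R0) := by
          rw [mul_smul, mul_smul, smul_inv_smul]
      _ = δ • R0 := by rw [h1]
  have hδR0M : ((δ • R0 : Sylow 2 G) : Subgroup G) ≤
      normalizer ((oddCent P : Subgroup G) : Set G) := aic9_smul_le hδM hR0Y.1
  have hswap : δ • R0 = P := by
    by_contra hne
    have h1 := hR0uniq (δ • R0) ⟨hδR0M, hne⟩ hfix2
    have h2 : δ • R0 = δ • P := by rw [h1, hδP]
    exact hR0Y.2 (smul_left_cancel δ h2)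
  obtain ⟨k, hk⟩ := hodd δ hδM hδMQ
  have hsq : ∀ n : ℕ, (δ ^ (2 * n)) • P = P := by
    intro n
    induction n with
    | zero => simp
    | succ n ih =>
      have e : δ ^ (2 * (n + 1)) = δ ^ (2 * n) * (δ * δ) := by
        rw [mul_add, pow_add, mul_one, pow_two]
      rw [e, mul_smul, mul_smul, hδP, hswap, ih]
  have hfin : δ • P = P := by
    have h1 : δ ^ (2 * k + 1) = 1 := by rw [← hk]; exact pow_orderOf_eq_one δ
    have h2 : (δ ^ (2 * k + 1)) • P = δ • P := by
      rw [pow_succ', mul_smul, hsq k]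
    rw [← h2, h1, one_smul]
  exact hR0Y.2 (by rw [← hδP, hfin])

end Cfsg.Agent.Helper55
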