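import Mathlib

/-!
# S4409 (Thompson-type lemma on solvable groups with a noncyclic abelian subgroup of order 8):
shared definitions for the pieces.  Everything is internal to an ambient group `G`.
-/

set_option autoImplicit false

namespace Cfsg.Agent.Helper55.N9

open Subgroup

variable {G : Type*} [Group G]

/-- `Y` has no noncyclic abelian subgroup of order 8. -/
def NoA8 (Y : Subgroup G) : Prop :=
  ¬ ∃ A : Subgroup G, A ≤ Y ∧ IsMulCommutative ↥A ∧ ¬ IsCyclic ↥A ∧ Nat.card ↥A = 8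

theorem NoA8.mono {Y Y' : Subgroup G} (h : Y ≤ Y') (hN : NoA8 Y') : NoA8 Y := by
  rintro ⟨A, hA, h1, h2, h3⟩
  exact hN ⟨A, hA.trans h, h1, h2, h3⟩

/-- Minimal configuration: `K` normalizes `D`, does not centralize it, but centralizes every
proper `K`-invariant subgroup of `D`. -/
structure MinCfg (K D : Subgroup G) : Prop where
  inv : K ≤ normalizer (D : Set G)
  nt : ¬ D ≤ centralizer (K : Set G)
  min : ∀ E : Subgroup G, E ≤ D → E ≠ D → K ≤ normalizer (E : Set G) →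
    E ≤ centralizer (K : Set G)

/-- `D` is a four-group. -/
def IsV4 (D : Subgroup G) : Prop := Nat.card D = 4 ∧ ∀ d ∈ D, d ^ 2 = 1

/-- `D` is a quaternion group of order 8. -/
def IsQ8 (D : Subgroup G) : Prop := Nonempty (↥D ≃* QuaternionGroup 2)

/-- The centre of `X`, as a subgroup of the ambient group. -/
def zc (X : Subgroup G) : Subgroup G := X ⊓ centralizer (X : Set G)

/-- The subgroup generated by the squares of the elements of `X`. -/
def sqs (X : Subgroup G) : Subgroup G := closure {g : G | ∃ x ∈ X, g = x ^ 2}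

/-- `X / Z(X)` has exponent 2, `X' = Z(X)`, and `Z(X)` lies in every subgroup of index 2 of `X`. -/
structure SpecialData (X : Subgroup G) : Prop where
  sq : ∀ x ∈ X, x ^ 2 ∈ zc X
  comm : ⁅X, X⁆ = zc X
  frat : ∀ M : Subgroup G, M ≤ X → M.relIndex X = 2 → zc X ≤ M

/-- The core setting: a 2-group `X` normalized by a group `K` of odd order acting faithfully,
every proper `K`-invariant subgroup of `X` has no noncyclic abelian subgroup of order 8, but
`X` has one. -/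
structure Core (X K : Subgroup G) : Prop where
  pX : IsPGroup 2 X
  odd : Odd (Nat.card K)
  inv : K ≤ normalizer (X : Set G)
  faith : ∀ k ∈ K, (∀ x ∈ X, k * x = x * k) → k = 1
  hyp : ∀ Y : Subgroup G, Y ≤ X → Y ≠ X → K ≤ normalizer (Y : Set G) → NoA8 Y
  a8 : ¬ NoA8 X

/-- The four alternatives of the conclusion, for a subgroup `X` of the ambient group. -/
def Alt (X : Subgroup G) : Prop :=
  (∀ a ∈ X, ∀ b ∈ X, a * b = b * a) ∨
  (SpecialData X ∧ Nat.card (zc X) = 2 ∧ 32 ≤ Nat.card X) ∨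
  (∃ X₀ : Subgroup G, X₀ ≤ X ∧ X₀.relIndex X = 2 ∧ IsQ8 X₀ ∧
    X₀ ⊔ (X ⊓ centralizer (X₀ : Set G)) = X) ∨
  (SpecialData X ∧ Nat.card (zc X) = 4)

/-- No `K`-invariant subgroup of index 2 in `X`. -/
def NoIdx2 (K X : Subgroup G) : Prop :=
  ∀ M : Subgroup G, M ≤ X → M.relIndex X = 2 → ¬ K ≤ normalizer (M : Set G)

/-- The general tools (the statements of the pieces T2, IDX, T4, T5, T6, HP, A1, A3, Q1, Q2,
Q4), bundled so that the other pieces can take them as one hypothesis. -/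
structure Tools (G : Type*) [Group G] : Prop where
  decomp : ∀ Y K : Subgroup G, IsPGroup 2 Y → Odd (Nat.card K) →
    K ≤ normalizer (Y : Set G) →
    ∀ y ∈ Y, ∃ a ∈ ⁅Y, K⁆, ∃ c ∈ Y ⊓ centralizer (K : Set G), y = a * c
  idx : ∀ N K M : Subgroup G, K ≤ normalizer (N : Set G) → M ≤ N → M.relIndex N = 2 →
    K ≤ normalizer (M : Set G) → ⁅N, K⁆ ≤ M
  norm_trick : ∀ Y K : Subgroup G, IsPGroup 2 Y → Odd (Nat.card K) →
    K ≤ normalizer (Y : Set G) → NoIdx2 K Y →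
    ∀ v : G, v ∈ Y → v ∈ centralizer (K : Set G) →
    ∀ M : Subgroup G, M ≤ Y → M.relIndex Y = 2 → v ∈ M
  star : ∀ Y K E : Subgroup G, ⁅Y, K⁆ = Y → E ≤ Y → Y ≤ normalizer (E : Set G) →
    E ≤ centralizer (K : Set G) → E ≤ centralizer (Y : Set G)
  comm_inv : ∀ Y K : Subgroup G, K ≤ normalizer (Y : Set G) →
    ⁅Y, K⁆ ≤ Y ∧ Y ≤ normalizer ((⁅Y, K⁆ : Subgroup G) : Set G) ∧
      K ≤ normalizer ((⁅Y, K⁆ : Subgroup G) : Set G)
  hyper : ∀ X N : Subgroup G, N ≤ X → (∀ x ∈ X, x ^ 2 ∈ N) → X ≤ normalizer (N : Set G) →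
    ∀ v : G, v ∈ X → v ∉ N → ∃ M : Subgroup G, M ≤ X ∧ M.relIndex X = 2 ∧ N ≤ M ∧ v ∉ M
  ab8 : ∀ A : Subgroup G, IsPGroup 2 A → (∀ a ∈ A, ∀ b ∈ A, a * b = b * a) → NoA8 A →
    IsCyclic A ∨ Nat.card A ≤ 4
  cent_a8 : ∀ D : Subgroup G, IsV4 D ∨ IsQ8 D → ∀ c : G, (∀ d ∈ D, c * d = d * c) → c ∉ D →
    (∃ n : ℕ, c ^ 2 ^ n = 1) → ¬ NoA8 (D ⊔ zpowers c)
  autV4 : ∀ D N : Subgroup G, IsPGroup 2 N → IsV4 D → N ≤ normalizer (D : Set G) →
    (N ⊓ centralizer (D : Set G)).relIndex N ≤ 2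
  autQ8 : ∀ D N : Subgroup G, IsPGroup 2 N → IsQ8 D → D ≤ N → N ≤ normalizer (D : Set G) →
    N ⊓ centralizer (D : Set G) ≤ D → D.relIndex N ≤ 2
  q8_not_sqs : ∀ X : Subgroup G, IsPGroup 2 X → IsQ8 (sqs X) → False

/-- Facts about a minimal configuration (the statements of the pieces M1, M2, M3, LA, M4). -/
structure MinFacts (K D : Subgroup G) : Prop where
  comm : ⁅D, K⁆ = D
  noidx2 : NoIdx2 K D
  central : ∀ E : Subgroup G, E ≤ D → E ≠ D → D ≤ normalizer (E : Set G) →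
    K ≤ normalizer (E : Set G) → E ≤ centralizer (D : Set G)
  cent : ∀ C : Subgroup G, IsPGroup 2 C → C ≤ normalizer (D : Set G) →
    C ≤ centralizer (K : Set G) → C ≤ centralizer (D : Set G)
  sq : (¬ ∀ a ∈ D, ∀ b ∈ D, a * b = b * a) →
    (∀ x ∈ D, x ^ 2 ∈ zc D) ∧ ⁅D, D⁆ ≤ zc D ∧ zc D ≤ centralizer (K : Set G) ∧ zc D ≠ D

/-- The structure statement for `K`-invariant 2-subgroups without a noncyclic abelian subgroup
of order 8 (assembled by the architect from the pieces F1a, M5a-d, F1b, F1c). -/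
def Struct (K Y : Subgroup G) : Prop :=
  ¬ Y ≤ centralizer (K : Set G) → MinCfg K Y ∧ (IsV4 Y ∨ IsQ8 Y)

end Cfsg.Agent.Helper55.N9
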