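import Mathlib
import Cfsg.Agent.Helper37.BRA4p
import Cfsg.Agent.Helper67.BRA5

set_option autoImplicit false

/-! PIECE S3c of CALL S0999 (helper8's sub-pieces of the Brauer–Reynolds beta stage): the pure
group theory finish. -/

universe u

namespace Cfsg.Agent.Helper55

theorem br_beta_finish {G : Type u} [Group G] [Finite G] (p q t : ℕ) (ht : 2 ≤ t)
    (hqt : q * t = p - 1) (τ : G) (hτ : orderOf τ = 2) (Q₀ : Subgroup G)
    (hQ₀ : Q₀ ≤ Subgroup.centralizer ({τ} : Set G)) (hτQ : τ ∈ Q₀) (hQ₀card : Nat.card Q₀ = q)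
    (huniq : ∀ σ : G, σ ∈ Q₀ → orderOf σ = 2 → σ = τ)
    (hCτ : Nat.card (Subgroup.centralizer ({τ} : Set G)) = q * t)
    (hcount : Nat.card {gh : G × G // gh.1 * τ * gh.1⁻¹ * (gh.2 * τ * gh.2⁻¹) = τ}
      = (q * t) ^ 2 * (q * t - q)) :
    t = 2 ∨ (q = 2 ∧ Nat.card (Subgroup.centralizer ({τ} : Set G)) = p - 1 ∧
      ∀ c : G, c ∈ Subgroup.centralizer ({τ} : Set G) → c ≠ 1 → IsConj c τ) := by
  have hτ2 : τ ^ 2 = 1 := by
    rw [← hτ]; exact pow_orderOf_eq_one τ
  have hτ1 : τ ≠ 1 := by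
    intro h
    rw [h, orderOf_one] at hτ
    omega
  have hout : ∀ c : G, c ∈ Subgroup.centralizer ({τ} : Set G) → c ∉ Q₀ → IsConj c τ :=
    Cfsg.Agent.Helper37.br_pairs_tau τ hτ Q₀ hQ₀ huniq (by rw [hCτ, hQ₀card]; exact hcount)
  have hsq : ∀ c : G, c ∈ Subgroup.centralizer ({τ} : Set G) → c ∉ Q₀ → c ^ 2 = 1 := by
    intro c hc hcQ
    obtain ⟨g, hg⟩ := isConj_iff.mp (hout c hc hcQ)
    have hc' : c = g⁻¹ * τ * g := by
      rw [← hg]; group
    rw [hc']
    calc (g⁻¹ * τ * g) ^ 2 = g⁻¹ * τ ^ 2 * g := by simp [pow_two, mul_assoc]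
      _ = 1 := by rw [hτ2]; simp
  have hq0 : 0 < q := by
    rw [← hQ₀card]; exact Nat.card_pos
  -- the index of `Q₀` in `C(τ)` is `t`
  have hidx : (Q₀.subgroupOf (Subgroup.centralizer ({τ} : Set G))).index = t := by
    have h1 := Subgroup.card_mul_index (Q₀.subgroupOf (Subgroup.centralizer ({τ} : Set G)))
    have h2 : Nat.card (Q₀.subgroupOf (Subgroup.centralizer ({τ} : Set G))) = q := by
      rw [← hQ₀card]
      exact Nat.card_congr (Subgroup.subgroupOfEquivOfLe hQ₀).toEquiv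
    rw [h2, hCτ] at h1
    exact Nat.eq_of_mul_eq_mul_left hq0 h1
  rcases Cfsg.Agent.Helper67.br_index_two (Q₀.subgroupOf (Subgroup.centralizer ({τ} : Set G)))
      (fun c hc => by
        have hcQ : (c : G) ∉ Q₀ := fun h => hc (Subgroup.mem_subgroupOf.mpr h)
        have := hsq c c.2 hcQ
        exact Subtype.ext (by simpa using this)) with h | h
  · left
    rw [hidx] at h
    omega
  · right
    have hQsq : ∀ y : G, y ∈ Q₀ → y = 1 ∨ y = τ := by
      intro y hy
      by_cases hy1 : y = 1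
      · exact Or.inl hy1
      · right
        have hy2 : y ^ 2 = 1 := by
          have := h ⟨y, hQ₀ hy⟩ (Subgroup.mem_subgroupOf.mpr hy)
          have h3 := congrArg Subtype.val this
          simpa using h3
        haveI : Fact (Nat.Prime 2) := ⟨Nat.prime_two⟩
        exact huniq y hy (orderOf_eq_prime hy2 hy1)
    have hQz : Q₀ = Subgroup.zpowers τ := by
      apply le_antisymm
      · intro y hy
        rcases hQsq y hy with rfl | rfl
        · exact Subgroup.one_mem _
        · exact Subgroup.mem_zpowers _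
      · exact (Subgroup.zpowers_le).mpr hτQ
    have hq2 : q = 2 := by
      rw [← hQ₀card, hQz, Nat.card_zpowers, hτ]
    refine ⟨hq2, by rw [hCτ, hqt], ?_⟩
    intro c hc hc1
    by_cases hcQ : c ∈ Q₀
    · rcases hQsq c hcQ with h1 | h1
      · exact absurd h1 hc1
      · rw [h1]
    · exact hout c hc hcQ

end Cfsg.Agent.Helper55
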