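import Mathlib
import Cfsg.Prelude.Def_CaseTheorems
import Cfsg.Prelude.Def_OddOrderLocal

set_option autoImplicit false

/-! Piece J2 of CALL S3888 (Blackburn, p-groups of rank ≤ 2): family II,
`G = E C_G(E)` with `E` normal nonabelian of order `p ^ 3` and exponent `p`. -/

namespace Cfsg.Agent.Helper55

open Subgroup

section BkJ2

variable {G : Type*} [Group G] [Finite G] {p : ℕ} [Fact p.Prime]

/-- A non-commuting pair of elements of a group of order `p ^ 3` generates it. -/
theorem bkJ2_closure_eq (E : Subgroup G) (hE : Nat.card E = p ^ 3) (x y : G) (hx : x ∈ E)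
    (hy : y ∈ E) (hne : x * y ≠ y * x) : closure ({x, y} : Set G) = E := by
  have hpp := (Fact.out : p.Prime)
  have hle : closure ({x, y} : Set G) ≤ E := by
    rw [closure_le]
    intro g hg
    rcases hg with rfl | hg
    · exact hx
    · rw [Set.mem_singleton_iff] at hg; rw [hg]; exact hy
  have hxB : x ∈ closure ({x, y} : Set G) := subset_closure (Set.mem_insert x {y})
  have hyB : y ∈ closure ({x, y} : Set G) := subset_closure (Set.mem_insert_of_mem x rfl)
  have hdvd : Nat.card (closure ({x, y} : Set G)) ∣ p ^ 3 := hE ▸ Subgroup.card_dvd_of_le hle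
  obtain ⟨i, hi, hci⟩ := (Nat.dvd_prime_pow hpp).1 hdvd
  have hcomm : i ≤ 2 → False := by
    intro hi2
    have hab : ∀ a b : closure ({x, y} : Set G), a * b = b * a := by
      interval_cases i
      · rw [pow_zero] at hci
        have hs := (Nat.card_eq_one_iff_unique.1 hci).1
        intro a b
        exact Subsingleton.elim _ _
      · rw [pow_one] at hci
        have hc : IsCyclic (closure ({x, y} : Set G)) := isCyclic_of_prime_card hci
        intro a b
        exact (inferInstance : IsMulCommutative (closure ({x, y} : Set G))).is_comm.comm a b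
      · intro a b
        exact (IsPGroup.isMulCommutative_of_card_eq_prime_sq hci).is_comm.comm a b
    have h := hab ⟨x, hxB⟩ ⟨y, hyB⟩
    exact hne (congrArg Subtype.val h)
  have hi3 : i = 3 := by
    by_contra h
    exact hcomm (by omega)
  subst hi3
  exact Subgroup.eq_of_le_of_card_ge hle (by rw [hE, hci])

theorem bk_f2_split (hp : p ≠ 2) (n : ℕ) (hG : Nat.card G = p ^ n) (hrk : Cfsg.PRankLE p 2 G)
    (E : Subgroup G) [E.Normal] (hE : Nat.card E = p ^ 3) (hexp : ∀ e ∈ E, e ^ p = 1)
    (x y w : G) (hx : x ∈ E) (hy : y ∈ E) (hw : w ∈ E) (hw1 : w ≠ 1)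
    (hwc : w ∈ Subgroup.center G) (hxy : x * y * x⁻¹ * y⁻¹ = w)
    (hcyc : IsCyclic (Subgroup.centralizer (E : Set G)))
    (hΩ : ∀ v ∈ Subgroup.centralizer (E : Set G), v ^ p = 1 → v ∈ Subgroup.zpowers w)
    (hK : ∀ g : G, ∃ e ∈ E, ∃ c ∈ Subgroup.centralizer (E : Set G), g = e * c) :
    3 ≤ n ∧ ∃ x y z : G, Subgroup.closure ({x, y, z} : Set G) = ⊤ ∧ x ^ p = 1 ∧ y ^ p = 1 ∧
      z ^ p ^ (n - 2) = 1 ∧ x * z = z * x ∧ y * z = z * y ∧
      x⁻¹ * y * x = y * z ^ p ^ (n - 3) := by
  have hpp := (Fact.out : p.Prime)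
  have hn3 : 3 ≤ n := by
    have h1 : p ^ 3 ∣ p ^ n := by rw [← hE, ← hG]; exact Subgroup.card_subgroup_dvd_card E
    exact (Nat.pow_dvd_pow_iff_le_right hpp.one_lt).1 h1
  refine ⟨hn3, ?_⟩
  have hwg : ∀ g : G, g * w = w * g := fun g => Subgroup.mem_center_iff.1 hwc g
  have hwp : w ^ p = 1 := hexp w hw
  have hwC : w ∈ centralizer (E : Set G) := by
    rw [mem_centralizer_iff]; intro e _; exact hwg e
  have hinf : E ⊓ centralizer (E : Set G) = zpowers w := by
    apply le_antisymm
    · intro v hv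
      exact hΩ v (mem_inf.1 hv).2 (hexp v (mem_inf.1 hv).1)
    · rw [zpowers_le]; exact mem_inf.2 ⟨hw, hwC⟩
  have hcinf : Nat.card (E ⊓ centralizer (E : Set G) : Subgroup G) = p := by
    rw [hinf, Nat.card_zpowers]; exact orderOf_eq_prime hwp hw1
  have hsup : E ⊔ centralizer (E : Set G) = ⊤ := by
    rw [eq_top_iff]
    intro g _
    obtain ⟨e, he, c, hc, rfl⟩ := hK g
    exact mul_mem (mem_sup_left he) (mem_sup_right hc)
  have hidx : E.index = p ^ (n - 3) := by
    have h1 := Subgroup.card_mul_index E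
    rw [hE, hG] at h1
    have h2 : p ^ n = p ^ 3 * p ^ (n - 3) := by rw [← pow_add]; congr 1; omega
    rw [h2] at h1
    exact Nat.eq_of_mul_eq_mul_left (pow_pos hpp.pos 3) h1
  have hrel : E.relIndex (centralizer (E : Set G)) = p ^ (n - 3) := by
    have h1 := Subgroup.relIndex_sup_left (K := E) (H := centralizer (E : Set G))
    rw [hsup, Subgroup.relIndex_top_right] at h1
    rw [← h1, hidx]
  have hcardC : Nat.card (centralizer (E : Set G)) = p ^ (n - 2) := by
    have h1 : Nat.card ((E ⊓ centralizer (E : Set G)).subgroupOf (centralizer (E : Set G))) *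
        ((E ⊓ centralizer (E : Set G)).subgroupOf (centralizer (E : Set G))).index =
        Nat.card (centralizer (E : Set G)) := Subgroup.card_mul_index _
    have h2 : Nat.card ((E ⊓ centralizer (E : Set G)).subgroupOf (centralizer (E : Set G)))
        = p := by
      rw [← hcinf]
      exact Nat.card_congr (Subgroup.subgroupOfEquivOfLe inf_le_right).toEquiv
    have h3 : ((E ⊓ centralizer (E : Set G)).subgroupOf (centralizer (E : Set G))).index =
        p ^ (n - 3) := by
      have h4 := Subgroup.inf_relIndex_right (H := E) (K := centralizer (E : Set G))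
      rw [hrel] at h4
      exact h4
    rw [h2, h3] at h1
    rw [← h1, ← pow_succ']
    congr 1; omega
  obtain ⟨z', hz'⟩ := hcyc.exists_generator
  have hzord : orderOf (z' : G) = p ^ (n - 2) := by
    rw [Subgroup.orderOf_coe, orderOf_eq_card_of_forall_mem_zpowers hz', hcardC]
  have hzC : (z' : G) ∈ centralizer (E : Set G) := z'.2
  have hzpow : (z' : G) ^ p ^ (n - 2) = 1 := by rw [← hzord]; exact pow_orderOf_eq_one _
  have hv1 : (z' : G) ^ p ^ (n - 3) ≠ 1 := by
    intro h
    have h1 : p ^ (n - 2) ∣ p ^ (n - 3) := by rw [← hzord]; exact orderOf_dvd_of_pow_eq_one h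
    have h2 := (Nat.pow_dvd_pow_iff_le_right hpp.one_lt).1 h1
    omega
  have hvp : ((z' : G) ^ p ^ (n - 3)) ^ p = 1 := by
    rw [← pow_mul, ← pow_succ]
    have h1 : n - 3 + 1 = n - 2 := by omega
    rw [h1]; exact hzpow
  have hvC : (z' : G) ^ p ^ (n - 3) ∈ centralizer (E : Set G) := pow_mem hzC _
  have hvw := hΩ _ hvC hvp
  obtain ⟨t, ht⟩ := (Submonoid.mem_powers_iff _ _).1 ((mem_powers_iff_mem_zpowers).2 hvw)
  have hpt : ¬ p ∣ t := by
    rintro ⟨m, rfl⟩
    apply hv1
    rw [← ht, pow_mul, hwp, one_pow]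
  have h1 : x * y = y * x * w := by
    have e : x * y = w * (y * x) := by rw [← hxy]; group
    rw [e]; exact (hwg (y * x)).symm
  have hconj : x⁻¹ * y * x = y * w⁻¹ := by
    have e : x⁻¹ * y * x = x⁻¹ * (y * x * w) * w⁻¹ := by group
    rw [e, ← h1]; group
  have hy'E : y ^ (-(t : ℤ)) ∈ E := zpow_mem hy _
  have hy'p : (y ^ (-(t : ℤ))) ^ p = 1 := by
    rw [← zpow_natCast, ← zpow_mul, mul_comm, zpow_mul, zpow_natCast, hexp y hy, one_zpow]
  have hcyw : Commute y w⁻¹ := by
    have h2 : Commute y w := hwg y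
    exact h2.inv_right
  have hconj' : x⁻¹ * y ^ (-(t : ℤ)) * x = y ^ (-(t : ℤ)) * (z' : G) ^ p ^ (n - 3) := by
    have e1 : x⁻¹ * y ^ (-(t : ℤ)) * x = (x⁻¹ * y * x) ^ (-(t : ℤ)) := by
      have h2 := conj_zpow (a := x⁻¹) (b := y) (i := -(t : ℤ))
      rw [inv_inv] at h2
      exact h2.symm
    rw [e1, hconj, hcyw.mul_zpow, ← ht]
    congr 1
    rw [inv_zpow, zpow_neg, inv_inv, zpow_natCast]
  refine ⟨x, y ^ (-(t : ℤ)), (z' : G), ?_, hexp x hx, hy'p, hzpow, ?_, ?_, hconj'⟩
  · rw [eq_top_iff]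
    intro g _
    have hxL : x ∈ closure ({x, y ^ (-(t : ℤ)), (z' : G)} : Set G) :=
      subset_closure (by simp)
    have hy'L : y ^ (-(t : ℤ)) ∈ closure ({x, y ^ (-(t : ℤ)), (z' : G)} : Set G) :=
      subset_closure (by simp)
    have hzL : (z' : G) ∈ closure ({x, y ^ (-(t : ℤ)), (z' : G)} : Set G) :=
      subset_closure (by simp)
    have hytL : y ^ t ∈ closure ({x, y ^ (-(t : ℤ)), (z' : G)} : Set G) := by
      have h2 := inv_mem hy'L
      have e2 : (y ^ (-(t : ℤ)))⁻¹ = y ^ t := by rw [zpow_neg, inv_inv, zpow_natCast]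
      rw [e2] at h2
      exact h2
    have hyL : y ∈ closure ({x, y ^ (-(t : ℤ)), (z' : G)} : Set G) := by
      have hcop : Nat.Coprime t p :=
        Nat.Coprime.symm ((Nat.Prime.coprime_iff_not_dvd hpp).2 hpt)
      obtain ⟨m, -, hm⟩ := Nat.exists_mul_mod_eq_one_of_coprime hcop hpp.one_lt
      have e : (y ^ t) ^ m = y := by
        rw [← pow_mul, ← Nat.div_add_mod (t * m) p, hm, pow_add, pow_mul, hexp y hy, one_pow,
          one_mul, pow_one]
      have h3 := pow_mem hytL m
      rw [e] at h3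
      exact h3
    have hEL : E ≤ closure ({x, y ^ (-(t : ℤ)), (z' : G)} : Set G) := by
      have hne : x * y ≠ y * x := by
        intro h
        apply hw1
        rw [← hxy, h]; group
      have hEq := bkJ2_closure_eq E hE x y hx hy hne
      have hcl : closure ({x, y} : Set G) ≤
          closure ({x, y ^ (-(t : ℤ)), (z' : G)} : Set G) := by
        rw [closure_le]
        intro g hg
        rcases hg with rfl | hg
        · exact hxL
        · rw [Set.mem_singleton_iff] at hg; rw [hg]; exact hyL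
      intro e he
      apply hcl
      rw [hEq]; exact he
    obtain ⟨e, he, c, hc, rfl⟩ := hK g
    refine mul_mem (hEL he) ?_
    have hcz := hz' ⟨c, hc⟩
    obtain ⟨j, hj⟩ := Subgroup.mem_zpowers_iff.1 hcz
    have hcj : c = (z' : G) ^ j := by
      have h2 := congrArg Subtype.val hj
      simp only [Subgroup.coe_zpow] at h2
      exact h2.symm
    rw [hcj]; exact zpow_mem hzL j
  · exact (mem_centralizer_iff.1 hzC) x hx
  · exact (mem_centralizer_iff.1 hzC) _ hy'E

end BkJ2

end Cfsg.Agent.Helper55
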