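/-
helper55: balance for `p`-constrained centralizers, and a criterion for `2`-constraint:
if an involution `z` inverts `O(Y)`, `Y` has no components and `C_Y(z)` has no components,
then `Y` has no `2`-components.
Everything lives in `Cfsg.Agent.Helper55`; all names carry the prefix `cb_`.
-/
import Cfsg.Agent.Helper22.Balance
import Cfsg.Agent.Helper34.PCons2
import Cfsg.Agent.Helper34.PComp8
import Cfsg.Agent.Helper54.PConstrained3

set_option autoImplicit false

namespace Cfsg.Agent.Helper55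

open Cfsg
open scoped commutatorElement

/-- In a finite `p`-constrained group `Y`, a subgroup `D` of order prime to `p` that centralizes
the `p`-subgroup `R` and is normalized by `C_Y(R)` lies in `O_{p'}(Y)`. -/
theorem cb_le_pPrimeCore_of_local {Y : Type*} [Group Y] [Finite Y]
    (p : ℕ) [Fact p.Prime]
    (hQ : Subgroup.centralizer (pCore p (Y ⧸ pPrimeCore p Y) : Set (Y ⧸ pPrimeCore p Y)) ≤
      pCore p (Y ⧸ pPrimeCore p Y))
    {R D : Subgroup Y} (hR : IsPGroup p R)
    (hDR : D ≤ Subgroup.centralizer (R : Set Y)) (hDp : (Nat.card D).Coprime p)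
    (hDn : ∀ y ∈ Subgroup.centralizer (R : Set Y), ∀ d ∈ D, y * d * y⁻¹ ∈ D) :
    D ≤ pPrimeCore p Y := by
  intro d hd
  have hdR : ∀ r ∈ R, d * r = r * d := by
    intro r hr
    have := Subgroup.mem_centralizer_iff.mp (hDR hd) r hr
    exact this.symm
  have hord : (orderOf (QuotientGroup.mk' (pPrimeCore p Y) d)).Coprime p :=
    Nat.Coprime.coprime_dvd_left
      ((orderOf_map_dvd _ d).trans (Subgroup.orderOf_dvd_natCard D hd)) hDp
  have hDmap : (Nat.card (D.map (QuotientGroup.mk' (pPrimeCore p Y)))).Coprime p :=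
    Nat.Coprime.coprime_dvd_left (Subgroup.card_map_dvd D _) hDp
  have h1 := Cfsg.Agent.Helper54.eq_one_of_centralizes hQ
    (R.map (QuotientGroup.mk' (pPrimeCore p Y))) (hR.map _)
    (QuotientGroup.mk' (pPrimeCore p Y) d) hord
    (by
      rintro _ ⟨r, hr, rfl⟩
      show _ * _ = _ * _
      rw [← map_mul, ← map_mul, hdR r hr])
    (by
      intro q hq hc
      obtain ⟨y, hy1, hy2⟩ := Cfsg.Agent.Helper31.exists_lift_of_commute_map (p := p) hR
        (ybar := q) (fun r hr => (hc _ ⟨r, hr, rfl⟩).eq.symm)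
      have hyC : y ∈ Subgroup.centralizer (R : Set Y) := by
        rw [Subgroup.mem_centralizer_iff]
        intro r hr
        exact (hy1 r hr).symm
      have hc1 : d * y * d⁻¹ * y⁻¹ ∈ D := by
        have h0 := hDn y hyC d⁻¹ (D.inv_mem hd)
        have h00 := D.mul_mem hd h0
        simpa [mul_assoc] using h00
      have hc2 : QuotientGroup.mk' (pPrimeCore p Y) (d * y * d⁻¹ * y⁻¹) ∈
          pCore p (Y ⧸ pPrimeCore p Y) := by
        rw [map_mul, map_mul, map_mul, map_inv, map_inv, hy2]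
        exact Subgroup.mul_mem _
          ((Cfsg.Agent.Helper34.pCore_normal' p _).conj_mem q hq _) (Subgroup.inv_mem _ hq)
      have hc3 := Cfsg.Agent.Helper54.eq_one_of_mem_pgroup_of_mem_coprime
        (Cfsg.Agent.Helper22.pCore_isPGroup p (Y ⧸ pPrimeCore p Y)) hDmap hc2 ⟨_, hc1, rfl⟩
      rw [map_mul, map_mul, map_mul, map_inv, map_inv, hy2] at hc3
      have hc4 : QuotientGroup.mk' (pPrimeCore p Y) d * q *
          (QuotientGroup.mk' (pPrimeCore p Y) d)⁻¹ = q := mul_inv_eq_one.mp hc3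
      show _ * _ = _ * _
      calc QuotientGroup.mk' (pPrimeCore p Y) d * q
          = QuotientGroup.mk' (pPrimeCore p Y) d * q *
            (QuotientGroup.mk' (pPrimeCore p Y) d)⁻¹ * QuotientGroup.mk' (pPrimeCore p Y) d := by
            group
        _ = q * QuotientGroup.mk' (pPrimeCore p Y) d := by rw [hc4])
  exact (QuotientGroup.eq_one_iff d).mp h1

/-- The same for a `p`-constrained subgroup `X` of a group `G`. -/
theorem cb_le_map_pPrimeCore_of_local {G : Type*} [Group G] [Finite G] (p : ℕ)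
    [Fact p.Prime] {X R D : Subgroup G}
    (hX : Subgroup.centralizer (pCore p (↥X ⧸ pPrimeCore p ↥X) : Set (↥X ⧸ pPrimeCore p ↥X)) ≤
      pCore p (↥X ⧸ pPrimeCore p ↥X)) (hRX : R ≤ X)
    (hR : IsPGroup p R) (hDX : D ≤ X) (hDR : D ≤ Subgroup.centralizer (R : Set G))
    (hDp : (Nat.card D).Coprime p)
    (hDn : ∀ y ∈ X, y ∈ Subgroup.centralizer (R : Set G) → ∀ d ∈ D, y * d * y⁻¹ ∈ D) :
    D ≤ (pPrimeCore p ↥X).map X.subtype := by
  have key := cb_le_pPrimeCore_of_local (Y := ↥X) p hX (R := R.subgroupOf X)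
    (D := D.subgroupOf X) hR.comap_subtype
    (by
      intro d hd
      rw [Subgroup.mem_centralizer_iff]
      intro r hr
      have h1 := Subgroup.mem_centralizer_iff.mp (hDR (Subgroup.mem_subgroupOf.mp hd)) (r : G)
        (Subgroup.mem_subgroupOf.mp hr)
      exact Subtype.ext h1)
    (by rw [Cfsg.Agent.Helper35.card_subgroupOf_of_le hDX]; exact hDp)
    (by
      intro y hy d hd
      rw [Subgroup.mem_subgroupOf]
      refine hDn (y : G) y.2 ?_ (d : G) (Subgroup.mem_subgroupOf.mp hd)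
      rw [Subgroup.mem_centralizer_iff]
      intro r hr
      have h1 := Subgroup.mem_centralizer_iff.mp hy ⟨r, hRX hr⟩ (Subgroup.mem_subgroupOf.mpr hr)
      exact congrArg Subtype.val h1)
  intro d hd
  exact ⟨⟨d, hDX hd⟩, key (Subgroup.mem_subgroupOf.mpr hd), rfl⟩

/-- Balance for `p`-constrained centralizers: if `a` is a `p`-element commuting with `b` and
`C_G(b)` is `p`-constrained, then `O_{p'}(C_G(a)) ∩ C_G(b) ≤ O_{p'}(C_G(b))`. -/
theorem cb_centralizerPPrimeCore_inf_le {G : Type*} [Group G] [Finite G] (p : ℕ)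
    [Fact p.Prime] {a b : G} (ha : IsPGroup p (Subgroup.zpowers a)) (hab : a * b = b * a)
    (hb : Subgroup.centralizer
      (pCore p (↥(Subgroup.centralizer ({b} : Set G)) ⧸
        pPrimeCore p ↥(Subgroup.centralizer ({b} : Set G))) :
        Set (↥(Subgroup.centralizer ({b} : Set G)) ⧸
          pPrimeCore p ↥(Subgroup.centralizer ({b} : Set G)))) ≤
      pCore p (↥(Subgroup.centralizer ({b} : Set G)) ⧸
        pPrimeCore p ↥(Subgroup.centralizer ({b} : Set G)))) :
    centralizerPPrimeCore p a ⊓ Subgroup.centralizer {b} ≤ centralizerPPrimeCore p b := by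
  have hzc : (Subgroup.centralizer ((Subgroup.zpowers a : Subgroup G) : Set G)) =
      Subgroup.centralizer ({a} : Set G) := by
    rw [Subgroup.zpowers_eq_closure, Subgroup.centralizer_closure]
  refine cb_le_map_pPrimeCore_of_local p (R := Subgroup.zpowers a) hb ?_ ha inf_le_right ?_ ?_
    ?_
  · rw [Subgroup.zpowers_le, Subgroup.mem_centralizer_singleton_iff]
    exact hab
  · rw [hzc]
    exact inf_le_left.trans (Cfsg.Agent.Helper31.centralizerPPrimeCore_le p a)
  · exact Nat.Coprime.coprime_dvd_left (Subgroup.card_dvd_of_le inf_le_left)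
      (Cfsg.Agent.Helper31.card_centralizerPPrimeCore_coprime p a)
  · intro y hyb hya d hd
    rw [hzc] at hya
    obtain ⟨hd1, hd2⟩ := Subgroup.mem_inf.mp hd
    refine Subgroup.mem_inf.mpr
      ⟨Cfsg.Agent.Helper31.conj_mem_centralizerPPrimeCore hya hd1, ?_⟩
    exact Subgroup.mul_mem _ (Subgroup.mul_mem _ hyb hd2) (Subgroup.inv_mem _ hyb)

/-- `O_{p'}(Y) = 1` and `C(O_p(Y)) ≤ O_p(Y)` force `E(Y) = 1`. -/
theorem cb_layer_eq_bot_of_constrained {p : ℕ} [Fact p.Prime] {Y : Type*} [Group Y] [Finite Y]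
    (h1 : pPrimeCore p Y = ⊥)
    (h2 : Subgroup.centralizer (pCore p Y : Set Y) ≤ pCore p Y) : layer Y = ⊥ := by
  have hF := Cfsg.Agent.Helper34.fittingSubgroup_eq_pCore_of_pPrimeCore_eq_bot h1
  exact (Cfsg.Agent.Helper34.centralizer_fittingSubgroup_le_iff Y).mp (by rw [hF]; exact h2)

end Cfsg.Agent.Helper55
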