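/-
helper55: cores of involution centralizers in an elementary abelian `2`-subgroup `Y` of order
at least `8`, when `E(C(y)) = 1` for all `y ∈ Y#` and some `C(z)`, `z ∈ Y#`, has characteristic `2`:
the cores `O(C(y))` are abelian, inverted by `z`, pairwise commuting, and generate a subgroup
of odd order normalized by `N(Y)`.  No signalizer functor theorem is needed.
Everything lives in `Cfsg.Agent.Helper55`; all names carry the prefix `cg_`.
-/
import Cfsg.Agent.Helper55.CoreLayer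

set_option autoImplicit false

namespace Cfsg.Agent.Helper55

open Cfsg

/-- A subgroup inverted by an element is commutative. -/
theorem cg_comm_of_inv {G : Type*} [Group G] (A : Subgroup G) (z : G)
    (hinv : ∀ a ∈ A, z * a * z⁻¹ = a⁻¹) : ∀ a ∈ A, ∀ b ∈ A, a * b = b * a := by
  intro a ha b hb
  have h1 := hinv a ha
  have h2 := hinv b hb
  have h3 := hinv (a * b) (Subgroup.mul_mem _ ha hb)
  have h4 : z * (a * b) * z⁻¹ = (z * a * z⁻¹) * (z * b * z⁻¹) := by group
  rw [h4, h1, h2, mul_inv_rev] at h3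
  have h5 := congrArg Inv.inv h3
  simp only [mul_inv_rev, inv_inv] at h5
  exact h5.symm

/-- An involution has a cyclic group of `2`-power order. -/
theorem cg_isPGroup_zpowers {G : Type*} [Group G] {z : G} (hz2 : z * z = 1) :
    IsPGroup 2 (Subgroup.zpowers z) := by
  rintro ⟨g, hg⟩
  obtain ⟨n, rfl⟩ := Subgroup.mem_zpowers_iff.mp hg
  refine ⟨1, Subtype.ext ?_⟩
  show (z ^ n) ^ 2 ^ 1 = 1
  rw [pow_one, ← zpow_natCast, ← zpow_mul, mul_comm, zpow_mul, zpow_natCast, pow_two, hz2,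
    one_zpow]

/-- Decomposition of an abelian group `A` of odd order inverted by `z` under an involution `f`
normalizing it: every element is a product of an element centralized by `f` and an element
centralized by `f z`. -/
theorem cg_decomp {G : Type*} [Group G] (A : Subgroup G) [Finite A] (hodd : Odd (Nat.card A))
    (hab : ∀ a ∈ A, ∀ b ∈ A, a * b = b * a) (f z : G) (hf2 : f * f = 1)
    (hfA : ∀ a ∈ A, f * a * f⁻¹ ∈ A) (hz : ∀ a ∈ A, z * a * z⁻¹ = a⁻¹) (x : G) (hx : x ∈ A) :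
    ∃ x₁ ∈ A, ∃ x₂ ∈ A, x = x₁ * x₂ ∧ x₁ * f = f * x₁ ∧ x₂ * (f * z) = (f * z) * x₂ := by
  obtain ⟨m, hm⟩ := hodd
  have hfinv : f⁻¹ = f := inv_eq_of_mul_eq_one_left hf2
  obtain ⟨x', hx'⟩ : ∃ x' : G, x' = f * x * f⁻¹ := ⟨_, rfl⟩
  have hx'A : x' ∈ A := by rw [hx']; exact hfA x hx
  have hfx' : f * x' * f⁻¹ = x := by
    rw [hx']
    calc f * (f * x * f⁻¹) * f⁻¹ = (f * f) * x * (f * f)⁻¹ := by group
      _ = x := by rw [hf2]; group
  have hc : Commute x x' := hab x hx x' hx'A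
  have hxn : x ^ (2 * m + 1) = 1 := by
    have h1 : (⟨x, hx⟩ : ↥A) ^ Nat.card ↥A = 1 := pow_card_eq_one'
    have h2 := congrArg Subtype.val h1
    rw [hm] at h2
    simpa using h2
  refine ⟨(x * x') ^ (m + 1), pow_mem (mul_mem hx hx'A) _, (x * x'⁻¹) ^ (m + 1),
    pow_mem (mul_mem hx (inv_mem hx'A)) _, ?_, ?_, ?_⟩
  · have hc2 : Commute (x * x') (x * x'⁻¹) :=
      ((Commute.refl x).mul_right hc.inv_right).mul_left
        (hc.symm.mul_right (Commute.refl x').inv_right)
    rw [← hc2.mul_pow]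
    have h3 : x * x' * (x * x'⁻¹) = x ^ 2 := by
      calc x * x' * (x * x'⁻¹) = x * (x' * x) * x'⁻¹ := by group
        _ = x * (x * x') * x'⁻¹ := by rw [hc.eq]
        _ = x * x := by group
        _ = x ^ 2 := (pow_two x).symm
    rw [h3, ← pow_mul]
    have h4 : 2 * (m + 1) = (2 * m + 1) + 1 := by ring
    rw [h4, pow_succ, hxn, one_mul]
  · -- `f` centralizes `(x x')^(m+1)`
    have h1 : f * (x * x') * f⁻¹ = x * x' := by
      calc f * (x * x') * f⁻¹ = (f * x * f⁻¹) * (f * x' * f⁻¹) := by group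
        _ = x' * x := by rw [hfx', ← hx']
        _ = x * x' := hc.eq.symm
    have h2 : f * (x * x') ^ (m + 1) * f⁻¹ = (x * x') ^ (m + 1) := by
      rw [← conj_pow, h1]
    have h3 := congrArg (fun t => t * f) h2
    simp only [inv_mul_cancel_right] at h3
    exact h3.symm
  · have h1 : f * (x * x'⁻¹) * f⁻¹ = (x * x'⁻¹)⁻¹ := by
      calc f * (x * x'⁻¹) * f⁻¹ = (f * x * f⁻¹) * (f * x' * f⁻¹)⁻¹ := by group
        _ = x' * x⁻¹ := by rw [hfx', ← hx']
        _ = (x * x'⁻¹)⁻¹ := by group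
    have hy : (x * x'⁻¹) ^ (m + 1) ∈ A := pow_mem (mul_mem hx (inv_mem hx'A)) _
    have h2 : f * (x * x'⁻¹) ^ (m + 1) * f⁻¹ = ((x * x'⁻¹) ^ (m + 1))⁻¹ := by
      rw [← conj_pow, h1, inv_pow]
    have h3 := hz _ hy
    have h4 : (f * z) * (x * x'⁻¹) ^ (m + 1) * (f * z)⁻¹ = (x * x'⁻¹) ^ (m + 1) := by
      calc (f * z) * (x * x'⁻¹) ^ (m + 1) * (f * z)⁻¹
          = f * (z * (x * x'⁻¹) ^ (m + 1) * z⁻¹) * f⁻¹ := by group
        _ = f * ((x * x'⁻¹) ^ (m + 1))⁻¹ * f⁻¹ := by rw [h3]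
        _ = (f * (x * x'⁻¹) ^ (m + 1) * f⁻¹)⁻¹ := by group
        _ = (x * x'⁻¹) ^ (m + 1) := by rw [h2, inv_inv]
    have h5 := congrArg (fun t => t * (f * z)) h4
    simp only [inv_mul_cancel_right] at h5
    exact h5.symm

/-- In a subgroup with at least `8` elements there is an element different from `1` and from three
given elements. -/
theorem cg_exists_fifth {G : Type*} [Group G] {Y : Subgroup G} (h8 : 8 ≤ Nat.card ↥Y)
    (a b c : G) : ∃ f ∈ Y, f ≠ 1 ∧ f ≠ a ∧ f ≠ b ∧ f ≠ c := by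
  classical
  by_contra hcon
  push Not at hcon
  have hsub : (Y : Set G) ⊆ (({1, a, b, c} : Finset G) : Set G) := by
    intro f hf
    by_cases h1 : f = 1
    · simp [h1]
    by_cases h2 : f = a
    · simp [h2]
    by_cases h3 : f = b
    · simp [h3]
    have := hcon f hf h1 h2 h3
    simp [this]
  have hcard : Nat.card ↥Y ≤ 4 := by
    have h1 : (Y : Set G).ncard ≤ (({1, a, b, c} : Finset G) : Set G).ncard :=
      Set.ncard_le_ncard hsub (Finset.finite_toSet _)
    rw [Set.ncard_coe_finset] at h1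
    have h2 : Nat.card ↥Y = (Y : Set G).ncard := Nat.card_coe_set_eq (Y : Set G)
    rw [h2]
    exact h1.trans Finset.card_le_four
  omega

/-- Conjugation maps `O(C(y))` into `O(C(g y g⁻¹))`. -/
theorem cg_conj_core {X : Type*} [Group X] [Finite X] (g y : X) :
    (centralizerPPrimeCore 2 y).map (MulAut.conj g).toMonoidHom ≤
      centralizerPPrimeCore 2 (g * y * g⁻¹) := by
  apply Cfsg.Agent.Helper31.le_centralizerPPrimeCore
  · rintro _ ⟨a, ha, rfl⟩
    have ha' := Cfsg.Agent.Helper31.centralizerPPrimeCore_le 2 y ha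
    rw [Subgroup.mem_centralizer_singleton_iff] at ha' ⊢
    show g * a * g⁻¹ * (g * y * g⁻¹) = g * y * g⁻¹ * (g * a * g⁻¹)
    calc g * a * g⁻¹ * (g * y * g⁻¹) = g * (a * y) * g⁻¹ := by group
      _ = g * (y * a) * g⁻¹ := by rw [ha']
      _ = g * y * g⁻¹ * (g * a * g⁻¹) := by group
  · rintro k hk _ ⟨a, ha, rfl⟩
    have hk' : g⁻¹ * k * g ∈ Subgroup.centralizer ({y} : Set X) := by
      rw [Subgroup.mem_centralizer_singleton_iff] at hk ⊢
      calc g⁻¹ * k * g * y = g⁻¹ * (k * (g * y * g⁻¹)) * g := by group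
        _ = g⁻¹ * ((g * y * g⁻¹) * k) * g := by rw [hk]
        _ = y * (g⁻¹ * k * g) := by group
    have h1 := Cfsg.Agent.Helper31.conj_mem_centralizerPPrimeCore hk' ha
    refine ⟨_, h1, ?_⟩
    show g * (g⁻¹ * k * g * a * (g⁻¹ * k * g)⁻¹) * g⁻¹ = k * (g * a * g⁻¹) * k⁻¹
    group
  · exact Nat.Coprime.coprime_dvd_left (Subgroup.card_map_dvd _ _)
      (Cfsg.Agent.Helper31.card_centralizerPPrimeCore_coprime 2 y)

/-- `N(Y)` normalizes the subgroup generated by the cores `O(C(y))`, `y ∈ Y#`. -/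
theorem cg_normalizer {X : Type*} [Group X] [Finite X] (Y : Subgroup X) :
    Subgroup.normalizer (Y : Set X) ≤
      Subgroup.normalizer ((⨆ y : {y : X // y ∈ Y ∧ y ≠ 1},
        centralizerPPrimeCore 2 (y : X) : Subgroup X) : Set X) := by
  have key : ∀ g ∈ Subgroup.normalizer (Y : Set X),
      ∀ w ∈ (⨆ y : {y : X // y ∈ Y ∧ y ≠ 1}, centralizerPPrimeCore 2 (y : X)),
      g * w * g⁻¹ ∈ (⨆ y : {y : X // y ∈ Y ∧ y ≠ 1}, centralizerPPrimeCore 2 (y : X)) := by
    intro g hg w hw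
    have h1 : (⨆ y : {y : X // y ∈ Y ∧ y ≠ 1},
        centralizerPPrimeCore 2 (y : X)).map (MulAut.conj g).toMonoidHom ≤
        ⨆ y : {y : X // y ∈ Y ∧ y ≠ 1}, centralizerPPrimeCore 2 (y : X) := by
      rw [Subgroup.map_iSup]
      apply iSup_le
      rintro ⟨y, hy, hy1⟩
      refine (cg_conj_core g y).trans ?_
      have hgy : g * y * g⁻¹ ∈ Y := (Subgroup.mem_normalizer_iff.mp hg y).mp hy
      have hgy1 : g * y * g⁻¹ ≠ 1 := by
        intro h0
        apply hy1
        have h2 := congrArg (fun t => g⁻¹ * t * g) h0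
        simpa [mul_assoc] using h2
      exact le_iSup (fun y : {y : X // y ∈ Y ∧ y ≠ 1} => centralizerPPrimeCore 2 (y : X))
        ⟨g * y * g⁻¹, hgy, hgy1⟩
    exact h1 ⟨w, hw, rfl⟩
  intro g hg
  rw [Subgroup.mem_normalizer_iff]
  intro w
  constructor
  · exact key g hg w
  · intro hw
    have h2 := key g⁻¹ (inv_mem hg) _ hw
    simpa [mul_assoc] using h2

/-- The standing hypotheses: `Y` is an elementary abelian `2`-group, `z ∈ Y`, `C(z)` has
characteristic `2`, and no `C(y)`, `y ∈ Y#`, has a component. -/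
structure CGData {X : Type*} [Group X] (Y : Subgroup X) (z : X) : Prop where
  comm : ∀ a ∈ Y, ∀ b ∈ Y, a * b = b * a
  sq : ∀ a ∈ Y, a * a = 1
  zY : z ∈ Y
  core : pPrimeCore 2 ↥(Subgroup.centralizer ({z} : Set X)) = ⊥
  cen : Subgroup.centralizer (pCore 2 ↥(Subgroup.centralizer ({z} : Set X)) :
      Set ↥(Subgroup.centralizer ({z} : Set X))) ≤ pCore 2 ↥(Subgroup.centralizer ({z} : Set X))
  lay : ∀ x ∈ Y, x ≠ 1 → layer ↥(Subgroup.centralizer ({x} : Set X)) = ⊥

section Main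

variable {X : Type*} [Group X] [Finite X] {Y : Subgroup X} {z : X}

omit [Finite X] in
theorem cg_zpowers_cent (y : X) :
    Subgroup.centralizer ((Subgroup.zpowers y : Subgroup X) : Set X) =
      Subgroup.centralizer ({y} : Set X) := by
  rw [Subgroup.zpowers_eq_closure, Subgroup.centralizer_closure]

/-- `C(y) ∩ C(z)` has trivial core and no components. -/
theorem cg_local (h : CGData Y z) {y : X} (hy : y ∈ Y) :
    pPrimeCore 2 ↥(Subgroup.centralizer ({y} : Set X) ⊓ Subgroup.centralizer ({z} : Set X)) = ⊥ ∧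
    layer ↥(Subgroup.centralizer ({y} : Set X) ⊓ Subgroup.centralizer ({z} : Set X)) = ⊥ := by
  have hp2 : Fact (Nat.Prime 2) := ⟨Nat.prime_two⟩
  have hM : IsPConstrained 2 ↥(Subgroup.centralizer ({z} : Set X)) :=
    (Cfsg.Agent.Helper54.isPConstrained_iff_of_surjective (MonoidHom.id _) Function.surjective_id
      (by rw [MonoidHom.ker_id, Subgroup.card_bot]; exact Nat.coprime_one_left 2) h.core).mpr h.cen
  have hT : IsPGroup 2 (Subgroup.zpowers y) := cg_isPGroup_zpowers (h.sq y hy)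
  have hTM : Subgroup.zpowers y ≤ Subgroup.centralizer ({z} : Set X) := by
    rw [Subgroup.zpowers_le, Subgroup.mem_centralizer_singleton_iff]
    exact h.comm y hy z h.zY
  have hCH : Subgroup.centralizer ((Subgroup.zpowers y : Subgroup X) : Set X) ⊓
      Subgroup.centralizer ({z} : Set X) ≤
      Subgroup.centralizer ({y} : Set X) ⊓ Subgroup.centralizer ({z} : Set X) := by
    rw [cg_zpowers_cent]
  have hHc : Subgroup.centralizer ({y} : Set X) ⊓ Subgroup.centralizer ({z} : Set X) ≤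
      Subgroup.centralizer ((Subgroup.zpowers y : Subgroup X) : Set X) := by
    rw [cg_zpowers_cent]; exact inf_le_left
  have hHN : Subgroup.centralizer ({y} : Set X) ⊓ Subgroup.centralizer ({z} : Set X) ≤
      Subgroup.normalizer ((Subgroup.zpowers y : Subgroup X) : Set X) :=
    fun x hx => Subgroup.centralizer_le_normalizer _ (hHc hx)
  have h1 := Cfsg.Agent.Helper54.local_core_in hM h.core (Subgroup.zpowers y) hT hTM _
    inf_le_right hCH hHN (Or.inr hHc)
  have h2 := Cfsg.Agent.Helper54.isPConstrained_local_in hM (Subgroup.zpowers y) hT hTM _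
    inf_le_right hCH hHN (Or.inr hHc)
  have h3 := (Cfsg.Agent.Helper54.isPConstrained_iff_of_surjective (MonoidHom.id _)
    Function.surjective_id
    (by rw [MonoidHom.ker_id, Subgroup.card_bot]; exact Nat.coprime_one_left 2) h1).mp h2
  exact ⟨h1, cb_layer_eq_bot_of_constrained h1 h3⟩

/-- `z` acts fixed-point-freely on `O(C(y))`. -/
theorem cg_fpf (h : CGData Y z) {y : X} (hy : y ∈ Y) :
    centralizerPPrimeCore 2 y ⊓ Subgroup.centralizer ({z} : Set X) = ⊥ := by
  have h1 := (cg_local h hy).1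
  rw [eq_bot_iff]
  have hle : centralizerPPrimeCore 2 y ⊓ Subgroup.centralizer ({z} : Set X) ≤
      Cfsg.Agent.Helper34.coreIn 2
        (Subgroup.centralizer ({y} : Set X) ⊓ Subgroup.centralizer ({z} : Set X)) := by
    apply Cfsg.Agent.Helper34.le_coreIn
    · exact inf_le_inf_right _ (Cfsg.Agent.Helper31.centralizerPPrimeCore_le 2 y)
    · intro k hk m hm
      obtain ⟨hk1, hk2⟩ := Subgroup.mem_inf.mp hk
      obtain ⟨hm1, hm2⟩ := Subgroup.mem_inf.mp hm
      exact Subgroup.mem_inf.mpr ⟨Cfsg.Agent.Helper31.conj_mem_centralizerPPrimeCore hk1 hm1,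
        Subgroup.mul_mem _ (Subgroup.mul_mem _ hk2 hm2) (Subgroup.inv_mem _ hk2)⟩
    · exact Nat.Coprime.coprime_dvd_left (Subgroup.card_dvd_of_le inf_le_left)
        (Cfsg.Agent.Helper31.card_centralizerPPrimeCore_coprime 2 y)
  refine hle.trans ?_
  show (pPrimeCore 2 ↥(Subgroup.centralizer ({y} : Set X) ⊓
    Subgroup.centralizer ({z} : Set X))).map _ ≤ ⊥
  rw [h1, Subgroup.map_bot]

/-- `z` inverts `O(C(y))`. -/
theorem cg_inv (h : CGData Y z) {y : X} (hy : y ∈ Y) :
    ∀ x ∈ centralizerPPrimeCore 2 y, z * x * z⁻¹ = x⁻¹ := by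
  have hzy : z ∈ Subgroup.centralizer ({y} : Set X) :=
    Subgroup.mem_centralizer_singleton_iff.mpr (h.comm z h.zY y hy)
  apply Cfsg.Agent.Helper54.conj_eq_inv_of_fixed_point_free (centralizerPPrimeCore 2 y) z
    (h.sq z h.zY)
  · intro x hx
    exact Cfsg.Agent.Helper31.conj_mem_centralizerPPrimeCore hzy hx
  · intro x hx hxz
    have h1 : x ∈ centralizerPPrimeCore 2 y ⊓ Subgroup.centralizer ({z} : Set X) :=
      ⟨hx, Subgroup.mem_centralizer_singleton_iff.mpr hxz⟩
    rw [cg_fpf h hy] at h1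
    exact Subgroup.mem_bot.mp h1

/-- `O(C(y))` is abelian. -/
theorem cg_abelian (h : CGData Y z) {y : X} (hy : y ∈ Y) :
    ∀ a ∈ centralizerPPrimeCore 2 y, ∀ b ∈ centralizerPPrimeCore 2 y, a * b = b * a :=
  cg_comm_of_inv _ z (cg_inv h hy)

/-- `C(y)` is `2`-constrained for `y ∈ Y#`. -/
theorem cg_constrained (h : CGData Y z) {y : X} (hy : y ∈ Y) (hy1 : y ≠ 1) :
    Subgroup.centralizer
      (pCore 2 (↥(Subgroup.centralizer ({y} : Set X)) ⧸
        pPrimeCore 2 ↥(Subgroup.centralizer ({y} : Set X))) :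
        Set (↥(Subgroup.centralizer ({y} : Set X)) ⧸
          pPrimeCore 2 ↥(Subgroup.centralizer ({y} : Set X)))) ≤
      pCore 2 (↥(Subgroup.centralizer ({y} : Set X)) ⧸
        pPrimeCore 2 ↥(Subgroup.centralizer ({y} : Set X))) := by
  have hp2 : Fact (Nat.Prime 2) := ⟨Nat.prime_two⟩
  have hzy : z ∈ Subgroup.centralizer ({y} : Set X) :=
    Subgroup.mem_centralizer_singleton_iff.mpr (h.comm z h.zY y hy)
  have hpl : pLayer 2 ↥(Subgroup.centralizer ({y} : Set X)) = ⊥ :=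
    cl_pLayer_eq_bot_amb hzy (h.sq z h.zY) inf_le_left inf_le_right le_rfl (cg_inv h hy)
      (h.lay y hy hy1) (cg_local h hy).2
  exact (Cfsg.Agent.Helper34.pLayer_eq_bot_iff_centralizer_pCore_le 2 _).mp hpl

/-- Balance. -/
theorem cg_balance (h : CGData Y z) {e g : X} (he : e ∈ Y) (hg : g ∈ Y) (hg1 : g ≠ 1) :
    centralizerPPrimeCore 2 e ⊓ Subgroup.centralizer ({g} : Set X) ≤
      centralizerPPrimeCore 2 g := by
  have hp2 : Fact (Nat.Prime 2) := ⟨Nat.prime_two⟩
  exact cb_centralizerPPrimeCore_inf_le 2 (cg_isPGroup_zpowers (h.sq e he)) (h.comm e he g hg)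
    (cg_constrained h hg hg1)

/-- Raw decomposition of `x ∈ O(C(e))` with respect to `f ∈ Y`. -/
theorem cg_decomp' (h : CGData Y z) {e f : X} (he : e ∈ Y) (hf : f ∈ Y) {x : X}
    (hx : x ∈ centralizerPPrimeCore 2 e) :
    ∃ x₁ ∈ centralizerPPrimeCore 2 e, ∃ x₂ ∈ centralizerPPrimeCore 2 e,
      x = x₁ * x₂ ∧ x₁ * f = f * x₁ ∧ x₂ * (f * z) = (f * z) * x₂ := by
  have hfe : f ∈ Subgroup.centralizer ({e} : Set X) :=
    Subgroup.mem_centralizer_singleton_iff.mpr (h.comm f hf e he)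
  exact cg_decomp (centralizerPPrimeCore 2 e)
    (Cfsg.Agent.Helper31.card_centralizerPPrimeCore_coprime 2 e).odd_of_right
    (cg_abelian h he) f z (h.sq f hf)
    (fun a ha => Cfsg.Agent.Helper31.conj_mem_centralizerPPrimeCore hfe ha) (cg_inv h he) x hx

/-- Decomposition of `x ∈ O(C(e))` into a part in `O(C(f))` and a part in `O(C(f z))`. -/
theorem cg_split (h : CGData Y z) {e f : X} (he : e ∈ Y) (hf : f ∈ Y) (hf1 : f ≠ 1)
    (hfz : f * z ≠ 1) {x : X} (hx : x ∈ centralizerPPrimeCore 2 e) :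
    ∃ x₁ ∈ centralizerPPrimeCore 2 f, ∃ x₂ ∈ centralizerPPrimeCore 2 (f * z), x = x₁ * x₂ := by
  obtain ⟨x₁, hx₁, x₂, hx₂, hxx, h1, h2⟩ := cg_decomp' h he hf hx
  refine ⟨x₁, ?_, x₂, ?_, hxx⟩
  · exact cg_balance h he hf hf1 ⟨hx₁, Subgroup.mem_centralizer_singleton_iff.mpr h1⟩
  · exact cg_balance h he (mul_mem hf h.zY) hfz
      ⟨hx₂, Subgroup.mem_centralizer_singleton_iff.mpr h2⟩

/-- `O(C(e))` and `O(C(k))` commute when `e k z ≠ 1`. -/
theorem cg_commute_indep (h : CGData Y z) {e k : X} (he : e ∈ Y) (hk : k ∈ Y) (he1 : e ≠ 1)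
    (hk1 : k ≠ 1) (hg : e * k * z ≠ 1) :
    ∀ x ∈ centralizerPPrimeCore 2 e, ∀ y ∈ centralizerPPrimeCore 2 k, x * y = y * x := by
  intro x hx y hy
  obtain ⟨x₁, hx₁, x₂, hx₂, rfl, hx1k, hx2kz⟩ := cg_decomp' h he hk hx
  obtain ⟨y₁, hy₁, y₂, hy₂, rfl, hy1e, hy2ez⟩ := cg_decomp' h hk he hy
  have hgY : e * k * z ∈ Y := mul_mem (mul_mem he hk) h.zY
  have hx₁k : x₁ ∈ centralizerPPrimeCore 2 k :=
    cg_balance h he hk hk1 ⟨hx₁, Subgroup.mem_centralizer_singleton_iff.mpr hx1k⟩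
  have hy₁e : y₁ ∈ centralizerPPrimeCore 2 e :=
    cg_balance h hk he he1 ⟨hy₁, Subgroup.mem_centralizer_singleton_iff.mpr hy1e⟩
  have hx2e : x₂ * e = e * x₂ :=
    Subgroup.mem_centralizer_singleton_iff.mp (Cfsg.Agent.Helper31.centralizerPPrimeCore_le 2 e hx₂)
  have hy2k : y₂ * k = k * y₂ :=
    Subgroup.mem_centralizer_singleton_iff.mp (Cfsg.Agent.Helper31.centralizerPPrimeCore_le 2 k hy₂)
  have hx₂g : x₂ ∈ centralizerPPrimeCore 2 (e * k * z) := by
    apply cg_balance h he hgY hg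
    refine ⟨hx₂, Subgroup.mem_centralizer_singleton_iff.mpr ?_⟩
    calc x₂ * (e * k * z) = (x₂ * e) * (k * z) := by group
      _ = (e * x₂) * (k * z) := by rw [hx2e]
      _ = e * (x₂ * (k * z)) := by group
      _ = e * ((k * z) * x₂) := by rw [hx2kz]
      _ = e * k * z * x₂ := by group
  have hy₂g : y₂ ∈ centralizerPPrimeCore 2 (e * k * z) := by
    apply cg_balance h hk hgY hg
    refine ⟨hy₂, Subgroup.mem_centralizer_singleton_iff.mpr ?_⟩
    have hek : e * k = k * e := h.comm e he k hk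
    calc y₂ * (e * k * z) = y₂ * (k * e * z) := by rw [hek]
      _ = (y₂ * k) * (e * z) := by group
      _ = (k * y₂) * (e * z) := by rw [hy2k]
      _ = k * (y₂ * (e * z)) := by group
      _ = k * ((e * z) * y₂) := by rw [hy2ez]
      _ = (k * e) * z * y₂ := by group
      _ = e * k * z * y₂ := by rw [hek]
  have c11 : Commute x₁ y₁ := cg_abelian h hk x₁ hx₁k y₁ hy₁
  have c12 : Commute x₁ y₂ := cg_abelian h hk x₁ hx₁k y₂ hy₂
  have c21 : Commute x₂ y₁ := cg_abelian h he x₂ hx₂ y₁ hy₁e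
  have c22 : Commute x₂ y₂ := cg_abelian h hgY x₂ hx₂g y₂ hy₂g
  exact ((c11.mul_right c12).mul_left (c21.mul_right c22)).eq

/-- All the cores `O(C(e))`, `e ∈ Y#`, commute pairwise. -/
theorem cg_commute (h : CGData Y z) (h8 : 8 ≤ Nat.card ↥Y) {e k : X} (he : e ∈ Y) (hk : k ∈ Y)
    (he1 : e ≠ 1) (hk1 : k ≠ 1) :
    ∀ x ∈ centralizerPPrimeCore 2 e, ∀ y ∈ centralizerPPrimeCore 2 k, x * y = y * x := by
  by_cases hg : e * k * z = 1
  · obtain ⟨f, hfY, hf1, hfz, hfe, hfez⟩ := cg_exists_fifth h8 z e (e * z)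
    have hze : z⁻¹ = z := inv_eq_of_mul_eq_one_left (h.sq z h.zY)
    have hee : e⁻¹ = e := inv_eq_of_mul_eq_one_left (h.sq e he)
    intro x hx y hy
    have hfz1 : f * z ≠ 1 := by
      intro h0
      apply hfz
      rw [eq_inv_of_mul_eq_one_left h0, hze]
    obtain ⟨x₁, hx₁, x₂, hx₂, rfl⟩ := cg_split h he hfY hf1 hfz1 hx
    have hk_eq : k = e * z := by
      have h1 : k = e * (e * k * z) * z := by
        calc k = (e * e) * k * (z * z) := by rw [h.sq e he, h.sq z h.zY]; group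
          _ = e * (e * k * z) * z := by group
      rw [hg] at h1
      simpa using h1
    have h1 : f * k * z ≠ 1 := by
      rw [hk_eq]
      intro h0
      have h3 : f * e = 1 := by
        calc f * e = f * e * (z * z) := by rw [h.sq z h.zY, mul_one]
          _ = f * (e * z) * z := by group
          _ = 1 := h0
      apply hfe
      rw [eq_inv_of_mul_eq_one_left h3, hee]
    have h2 : f * z * k * z ≠ 1 := by
      rw [hk_eq]
      intro h0
      have h3 : f * (z * e) = 1 := by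
        calc f * (z * e) = f * (z * e) * (z * z) := by rw [h.sq z h.zY, mul_one]
          _ = f * z * (e * z) * z := by group
          _ = 1 := h0
      apply hfez
      rw [eq_inv_of_mul_eq_one_left h3, mul_inv_rev, hee, hze]
    have c1 : Commute x₁ y := cg_commute_indep h hfY hk hf1 hk1 h1 x₁ hx₁ y hy
    have c2 : Commute x₂ y := cg_commute_indep h (mul_mem hfY h.zY) hk hfz1 hk1 h2 x₂ hx₂ y hy
    exact (c1.mul_left c2).eq
  · exact cg_commute_indep h he hk he1 hk1 hg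

/-- The cores `O(C(y))`, `y ∈ Y#`, generate a subgroup of odd order. -/
theorem cg_odd (h : CGData Y z) (h8 : 8 ≤ Nat.card ↥Y) :
    Odd (Nat.card ↥(⨆ y : {y : X // y ∈ Y ∧ y ≠ 1}, centralizerPPrimeCore 2 (y : X))) := by
  classical
  obtain ⟨S, hS⟩ : ∃ S : Set X, S = ⋃ y : {y : X // y ∈ Y ∧ y ≠ 1},
      ((centralizerPPrimeCore 2 (y : X) : Subgroup X) : Set X) := ⟨_, rfl⟩
  have hW : (⨆ y : {y : X // y ∈ Y ∧ y ≠ 1}, centralizerPPrimeCore 2 (y : X)) =
      Subgroup.closure S := by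
    rw [hS]; exact Subgroup.iSup_eq_closure _
  rw [hW]
  have hScomm : ∀ a ∈ S, ∀ b ∈ S, a * b = b * a := by
    intro a ha b hb
    rw [hS, Set.mem_iUnion] at ha hb
    obtain ⟨⟨e, he, he1⟩, ha⟩ := ha
    obtain ⟨⟨k, hk, hk1⟩, hb⟩ := hb
    exact cg_commute h h8 he hk he1 hk1 a ha b hb
  have hSodd : ∀ a ∈ S, Odd (orderOf a) := by
    intro a ha
    rw [hS, Set.mem_iUnion] at ha
    obtain ⟨⟨e, he, he1⟩, ha⟩ := ha
    have h1 : orderOf a ∣ Nat.card ↥(centralizerPPrimeCore 2 e) :=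
      Subgroup.orderOf_dvd_natCard _ ha
    exact (Nat.Coprime.coprime_dvd_left h1
      (Cfsg.Agent.Helper31.card_centralizerPPrimeCore_coprime 2 e)).odd_of_right
  have hcl : Subgroup.closure S ≤ Subgroup.centralizer S := by
    rw [Subgroup.closure_le]
    intro a ha
    rw [SetLike.mem_coe, Subgroup.mem_centralizer_iff]
    intro b hb
    exact hScomm b hb a ha
  have hWc : ∀ a ∈ Subgroup.closure S, ∀ b ∈ Subgroup.closure S, a * b = b * a := by
    intro a ha b hb
    have hb' := hcl hb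
    rw [← Subgroup.centralizer_closure, Subgroup.mem_centralizer_iff] at hb'
    exact hb' a ha
  have hodd : ∀ w ∈ Subgroup.closure S, Odd (orderOf w) := by
    intro w hw
    induction hw using Subgroup.closure_induction with
    | mem x hx => exact hSodd x hx
    | one => rw [orderOf_one]; exact odd_one
    | mul x y hx hy ihx ihy =>
      have hc : Commute x y := hWc x hx y hy
      exact (ihx.mul ihy).of_dvd_nat (hc.orderOf_mul_dvd_lcm.trans (Nat.lcm_dvd_mul _ _))
    | inv x hx ih => rw [orderOf_inv]; exact ih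
  by_contra hne
  have h2 : 2 ∣ Nat.card ↥(Subgroup.closure S) := by
    rcases Nat.even_or_odd (Nat.card ↥(Subgroup.closure S)) with he | ho
    · exact even_iff_two_dvd.mp he
    · exact absurd ho hne
  have hp2 : Fact (Nat.Prime 2) := ⟨Nat.prime_two⟩
  obtain ⟨w, hw⟩ := exists_prime_orderOf_dvd_card' 2 h2
  have h3 := hodd (w : X) w.2
  rw [Subgroup.orderOf_coe, hw] at h3
  exact absurd h3 (by decide)

end Main

end Cfsg.Agent.Helper55
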