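/-
helper55: a criterion for `2`-constraint.  If an involution `z` inverts `O(Y)`, `Y` has no
components and `C_Y(z)` has no components, then `Y` has no `2`-components (so `Y` is
`2`-constrained).
Everything lives in `Cfsg.Agent.Helper55`; all names carry the prefix `cl_`.
-/
import Cfsg.Agent.Helper55.CoreBal

set_option autoImplicit false

namespace Cfsg.Agent.Helper55

open Cfsg
open scoped commutatorElement

/-- A commutator is unchanged when both entries are multiplied by commuting "central" factors. -/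
theorem cl_comm_central {G : Type*} [Group G] {x y c d : G} (hcx : Commute c x)
    (hcy : Commute c y) (hdx : Commute d x) (hdy : Commute d y) (hcd : Commute c d) :
    ⁅c * x, d * y⁆ = ⁅x, y⁆ := by
  rw [commutatorElement_def, commutatorElement_def]
  have h1 : Commute c (x * (d * y) * x⁻¹) :=
    (hcx.mul_right (hcd.mul_right hcy)).mul_right hcx.inv_right
  have h2 : Commute d (x * y * x⁻¹ * y⁻¹) :=
    ((hdx.mul_right hdy).mul_right hdx.inv_right).mul_right hdy.inv_right
  calc (c * x) * (d * y) * (c * x)⁻¹ * (d * y)⁻¹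
      = (c * (x * (d * y) * x⁻¹) * c⁻¹) * (d * y)⁻¹ := by group
    _ = ((x * (d * y) * x⁻¹) * c * c⁻¹) * (d * y)⁻¹ := by rw [h1.eq]
    _ = x * d * (y * x⁻¹ * y⁻¹) * d⁻¹ := by group
    _ = d * x * (y * x⁻¹ * y⁻¹) * d⁻¹ := by rw [hdx.eq]
    _ = d * (x * y * x⁻¹ * y⁻¹) * d⁻¹ := by group
    _ = (x * y * x⁻¹ * y⁻¹) * d * d⁻¹ := by rw [h2.eq]
    _ = x * y * x⁻¹ * y⁻¹ := by group

/-- **Criterion for `2`-constraint.**  Let `z` be an involution of the finite group `Y` inverting
`O(Y)`.  If `Y` has no components and `C_Y(z)` (given as the image of an injective homomorphism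
`f`) has no components, then `Y` has no `2`-components. -/
theorem cl_pLayer_eq_bot {Y : Type*} [Group Y] [Finite Y] {H' : Type*} [Group H']
    (f : H' →* Y) (hf : Function.Injective f) (z : Y) (hz2 : z * z = 1)
    (hrange : ∀ y : Y, y * z = z * y → y ∈ f.range)
    (hrange' : ∀ h : H', f h * z = z * f h)
    (hinv : ∀ a ∈ pPrimeCore 2 Y, z * a * z⁻¹ = a⁻¹)
    (hN : layer Y = ⊥) (hH : layer H' = ⊥) : pLayer 2 Y = ⊥ := by
  have hp2 : Fact (Nat.Prime 2) := ⟨Nat.prime_two⟩
  have hAn : (pPrimeCore 2 Y).Normal := pPrimeCore_normal 2 Y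
  rw [eq_bot_iff]
  apply sSup_le
  intro K hK
  have hK' : IsPComponent 2 K := hK
  exfalso
  obtain ⟨π, hπ⟩ : ∃ π : Y →* Y ⧸ pPrimeCore 2 Y, π = QuotientGroup.mk' (pPrimeCore 2 Y) :=
    ⟨_, rfl⟩
  have hπs : Function.Surjective π := by rw [hπ]; exact QuotientGroup.mk'_surjective _
  have hπk : ∀ y : Y, π y = 1 ↔ y ∈ pPrimeCore 2 Y := by
    intro y; rw [hπ]; exact QuotientGroup.eq_one_iff y
  have hKb : IsComponent (K.map π) := by rw [hπ]; exact hK'.2.1
  -- `K` is not a component
  have hKA : ⁅K, pPrimeCore 2 Y⁆ ≠ ⊥ := by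
    intro h
    have hc : IsComponent K := (Cfsg.Agent.Helper34.pc_isComponent_iff hK').mpr h
    have h1 : K ≤ layer Y := le_sSup hc
    rw [hN] at h1
    exact Cfsg.Agent.Helper34.pc_not_le_core hK' (h1.trans bot_le)
  have hzinv : z⁻¹ = z := inv_eq_of_mul_eq_one_left hz2
  -- `O(Y)` is abelian
  have hAab : ∀ a ∈ pPrimeCore 2 Y, ∀ b ∈ pPrimeCore 2 Y, a * b = b * a := by
    intro a ha b hb
    have h1 := hinv a ha
    have h2 := hinv b hb
    have h3 := hinv (a * b) (Subgroup.mul_mem _ ha hb)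
    have h4 : z * (a * b) * z⁻¹ = (z * a * z⁻¹) * (z * b * z⁻¹) := by group
    rw [h4, h1, h2, mul_inv_rev] at h3
    have h5 := congrArg Inv.inv h3
    simp only [mul_inv_rev, inv_inv] at h5
    exact h5.symm
  obtain ⟨C, hC⟩ : ∃ C : Subgroup Y,
      C = Subgroup.centralizer ((pPrimeCore 2 Y : Subgroup Y) : Set Y) := ⟨_, rfl⟩
  have hCn : C.Normal := by rw [hC]; infer_instance
  have hAC : pPrimeCore 2 Y ≤ C := by
    intro a ha
    rw [hC, Subgroup.mem_centralizer_iff]
    intro b hb
    exact hAab b hb a ha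
  -- `[z, n]` centralizes `O(Y)`
  have hfact : ∀ n : Y, z * n * z⁻¹ * n⁻¹ ∈ C := by
    intro n
    rw [hC, Subgroup.mem_centralizer_iff]
    intro a ha
    have ha' : a ∈ pPrimeCore 2 Y := ha
    have h1 : n⁻¹ * a * n ∈ pPrimeCore 2 Y := by
      have := hAn.conj_mem a ha' n⁻¹
      simpa using this
    have h2 := hinv _ h1
    have h3 := hinv a⁻¹ (inv_mem ha')
    rw [inv_inv] at h3
    have h4 : (z * n * z⁻¹ * n⁻¹) * a * (z * n * z⁻¹ * n⁻¹)⁻¹ = a := by
      calc (z * n * z⁻¹ * n⁻¹) * a * (z * n * z⁻¹ * n⁻¹)⁻¹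
          = z * n * (z⁻¹ * (n⁻¹ * a * n) * z) * n⁻¹ * z⁻¹ := by group
        _ = z * n * (z * (n⁻¹ * a * n) * z⁻¹) * n⁻¹ * z⁻¹ := by rw [hzinv]
        _ = z * n * (n⁻¹ * a * n)⁻¹ * n⁻¹ * z⁻¹ := by rw [h2]
        _ = z * a⁻¹ * z⁻¹ := by group
        _ = a := h3
    have h5 := congrArg (fun t => t * (z * n * z⁻¹ * n⁻¹)) h4
    simp only [inv_mul_cancel_right] at h5
    exact h5.symm
  have hCbn : (C.map π).Normal := hCn.map π hπs
  rcases Cfsg.Agent.Helper34.component_le_or_commutator_eq_bot hKb (C.map π) with hle | hcomm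
  · -- `K ≤ C`, contradiction
    apply hKA
    rw [Subgroup.commutator_eq_bot_iff_le_centralizer, ← hC]
    intro k hk
    obtain ⟨c, hc, hck⟩ := hle (Subgroup.mem_map_of_mem π hk)
    have h1 : c⁻¹ * k ∈ pPrimeCore 2 Y := (hπk _).mp (by rw [map_mul, map_inv, hck, inv_mul_cancel])
    have h2 := C.mul_mem hc (hAC h1)
    simpa using h2
  · have hcc : ∀ x ∈ K.map π, ∀ c ∈ C.map π, Commute c x := by
      have h := Subgroup.commutator_eq_bot_iff_le_centralizer.mp hcomm
      intro x hx c hc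
      exact Subgroup.mem_centralizer_iff.mp (h hx) c hc
    have hcx : ∀ x ∈ K.map π, π z * x * (π z)⁻¹ * x⁻¹ ∈ C.map π := by
      rintro _ ⟨k, hk, rfl⟩
      refine ⟨z * k * z⁻¹ * k⁻¹, hfact k, ?_⟩
      simp only [map_mul, map_inv]
    have hperf : ⁅K.map π, K.map π⁆ = K.map π := Subgroup.isPerfect_iff.mp hKb.2.1
    have hnt : K.map π ≠ ⊥ :=
      (Subgroup.nontrivial_iff_ne_bot _).mp (Cfsg.Agent.Helper34.qs_nontrivial hKb.2)
    -- `z̄` normalizes `K̄`
    have hnorm : ∀ x ∈ K.map π, π z * x * (π z)⁻¹ ∈ K.map π := by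
      by_contra hcon
      have hKb' : IsComponent ((K.map π).map (MulAut.conj (π z)).toMonoidHom) :=
        Cfsg.Agent.Helper34.component_map_equiv (MulAut.conj (π z)) hKb
      have hne : (K.map π).map (MulAut.conj (π z)).toMonoidHom ≠ K.map π := by
        intro heq
        apply hcon
        intro x hx
        rw [← heq]
        exact ⟨x, hx, by simp [MulAut.conj_apply]⟩
      have h0 := Cfsg.Agent.Helper34.component_commutator_eq_bot hKb' hKb hne
      have h1 := Subgroup.commutator_eq_bot_iff_le_centralizer.mp h0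
      have hab : ∀ x ∈ K.map π, ∀ y ∈ K.map π, x * y = y * x := by
        intro x hx y hy
        have h2 : π z * y * (π z)⁻¹ ∈ (K.map π).map (MulAut.conj (π z)).toMonoidHom :=
          ⟨y, hy, by simp [MulAut.conj_apply]⟩
        have h3 := Subgroup.mem_centralizer_iff.mp (h1 h2) x hx
        have h4 := hcc x hx _ (hcx y hy)
        have h5 : π z * y * (π z)⁻¹ = (π z * y * (π z)⁻¹ * y⁻¹) * y := by group
        rw [h5] at h3
        have h6 : (π z * y * (π z)⁻¹ * y⁻¹) * (x * y) = (π z * y * (π z)⁻¹ * y⁻¹) * (y * x) := by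
          calc (π z * y * (π z)⁻¹ * y⁻¹) * (x * y)
              = (π z * y * (π z)⁻¹ * y⁻¹) * x * y := (mul_assoc _ _ _).symm
            _ = x * (π z * y * (π z)⁻¹ * y⁻¹) * y := by rw [h4.eq]
            _ = x * ((π z * y * (π z)⁻¹ * y⁻¹) * y) := mul_assoc _ _ _
            _ = (π z * y * (π z)⁻¹ * y⁻¹) * y * x := h3
            _ = (π z * y * (π z)⁻¹ * y⁻¹) * (y * x) := mul_assoc _ _ _
        exact mul_left_cancel h6
      have hbot : ⁅K.map π, K.map π⁆ = ⊥ := by
        rw [Subgroup.commutator_eq_bot_iff_le_centralizer]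
        intro x hx
        rw [Subgroup.mem_centralizer_iff]
        intro y hy
        exact hab y hy x hx
      rw [hperf] at hbot
      exact hnt hbot
    -- `z̄` centralizes `K̄`
    have hcent : ∀ x ∈ K.map π, x * π z = π z * x := by
      have hle : ⁅K.map π, K.map π⁆ ≤ Subgroup.centralizer {π z} := by
        rw [Subgroup.commutator_le]
        intro x hx y hy
        rw [Subgroup.mem_centralizer_singleton_iff]
        have hcx' := hcx x hx
        have hcy' := hcx y hy
        have hkx : π z * x * (π z)⁻¹ * x⁻¹ ∈ K.map π :=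
          Subgroup.mul_mem _ (hnorm x hx) (inv_mem hx)
        have e := cl_comm_central (x := x) (y := y) (c := π z * x * (π z)⁻¹ * x⁻¹)
          (d := π z * y * (π z)⁻¹ * y⁻¹)
          (hcc x hx _ hcx') (hcc y hy _ hcx') (hcc x hx _ hcy') (hcc y hy _ hcy')
          ((hcc _ hkx _ hcy').symm)
        have e1 : π z * x * (π z)⁻¹ * x⁻¹ * x = π z * x * (π z)⁻¹ := by group
        have e2 : π z * y * (π z)⁻¹ * y⁻¹ * y = π z * y * (π z)⁻¹ := by group
        rw [e1, e2] at e
        have e3 : ⁅π z * x * (π z)⁻¹, π z * y * (π z)⁻¹⁆ = π z * ⁅x, y⁆ * (π z)⁻¹ := by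
          simp only [commutatorElement_def]; group
        rw [e3] at e
        have e4 := congrArg (fun t => t * π z) e
        simp only [inv_mul_cancel_right] at e4
        exact e4.symm
      intro x hx
      have := hle (by rw [hperf]; exact hx)
      exact Subgroup.mem_centralizer_singleton_iff.mp this
    -- lift `K̄` into `C_Y(z)`
    have hR : IsPGroup 2 (Subgroup.zpowers z) := by
      rintro ⟨g, hg⟩
      obtain ⟨n, rfl⟩ := Subgroup.mem_zpowers_iff.mp hg
      refine ⟨1, Subtype.ext ?_⟩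
      show (z ^ n) ^ 2 ^ 1 = 1
      rw [pow_one, ← zpow_natCast, ← zpow_mul, mul_comm, zpow_mul, zpow_natCast, pow_two, hz2,
        one_zpow]
    have hlift : ∀ x ∈ K.map π, ∃ h : H', π (f h) = x := by
      intro x hx
      have hl := Cfsg.Agent.Helper31.exists_lift_of_commute_map (X := Y) (p := 2) hR (ybar := x)
      rw [← hπ] at hl
      obtain ⟨y, hy1, hy2⟩ := hl (by
        intro r hr
        obtain ⟨n, rfl⟩ := Subgroup.mem_zpowers_iff.mp hr
        rw [map_zpow]
        exact ((show Commute x (π z) from hcent x hx).zpow_right n).eq)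
      have hyz : y * z = z * y := hy1 z (Subgroup.mem_zpowers z)
      obtain ⟨h, rfl⟩ := hrange y hyz
      exact ⟨h, hy2⟩
    have hψinj : Function.Injective (π.comp f) := by
      rw [injective_iff_map_eq_one]
      intro h hh
      have h1 : f h ∈ pPrimeCore 2 Y := (hπk _).mp hh
      have h2 := hinv _ h1
      have h3 := hrange' h
      have h4 : f h = (f h)⁻¹ := by
        rw [← h2, ← h3]; group
      have h5 : f h ^ 2 ^ 1 = 1 := by
        rw [pow_one, pow_two]
        have := congrArg (fun t => f h * t) h4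
        simp only [mul_inv_cancel] at this
        exact this
      have h6 : (orderOf (f h)).Coprime 2 :=
        Nat.Coprime.coprime_dvd_left (Subgroup.orderOf_dvd_natCard _ h1)
          (Cfsg.Agent.Helper34.card_pPrimeCore_coprime 2 Y)
      have h7 : f h = 1 := Cfsg.Agent.Helper54.eq_one_of_pow_of_coprime h5 h6
      exact hf (by rw [h7, map_one])
    have hK₂sn : ((K.map π).comap (π.comp f)).IsSubnormal := hKb.1.comap (π.comp f)
    have hbij : Function.Bijective ((π.comp f).subgroupComap (K.map π)) := by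
      constructor
      · intro a b hab
        apply Subtype.ext
        apply hψinj
        exact congrArg Subtype.val hab
      · rintro ⟨x, hx⟩
        obtain ⟨h, hh⟩ := hlift x hx
        exact ⟨⟨h, by show (π.comp f) h ∈ K.map π; rw [MonoidHom.comp_apply, hh]; exact hx⟩,
          Subtype.ext hh⟩
    have hK₂ : IsComponent ((K.map π).comap (π.comp f)) :=
      ⟨hK₂sn, Cfsg.Agent.Helper34.qs_of_mulEquiv hKb.2 (MulEquiv.ofBijective _ hbij).symm⟩
    have hle2 : (K.map π).comap (π.comp f) ≤ layer H' := le_sSup hK₂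
    rw [hH, le_bot_iff] at hle2
    exact (Subgroup.nontrivial_iff_ne_bot _).mp (Cfsg.Agent.Helper34.qs_nontrivial hK₂.2) hle2

/-- Ambient form of `cl_pLayer_eq_bot`: `N ≤ G`, `z ∈ N` an involution inverting `O(N)`,
`H = C_N(z)`; if `N` and `H` have no components then `N` has no `2`-components. -/
theorem cl_pLayer_eq_bot_amb {G : Type*} [Group G] [Finite G] {N H : Subgroup G} {z : G}
    (hzN : z ∈ N) (hz2 : z * z = 1) (hHN : H ≤ N) (hHz : H ≤ Subgroup.centralizer {z})
    (hNH : N ⊓ Subgroup.centralizer {z} ≤ H)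
    (hinv : ∀ a ∈ (pPrimeCore 2 ↥N).map N.subtype, z * a * z⁻¹ = a⁻¹)
    (hNl : layer ↥N = ⊥) (hHl : layer ↥H = ⊥) : pLayer 2 ↥N = ⊥ := by
  refine cl_pLayer_eq_bot (Subgroup.inclusion hHN) (Subgroup.inclusion_injective hHN) ⟨z, hzN⟩
    (Subtype.ext (by simpa using hz2)) ?_ ?_ ?_ hNl hHl
  · intro y hy
    have hy' : (y : G) * z = z * y := congrArg Subtype.val hy
    have hyH : (y : G) ∈ H := hNH ⟨y.2, Subgroup.mem_centralizer_singleton_iff.mpr hy'⟩
    exact ⟨⟨y, hyH⟩, Subtype.ext rfl⟩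
  · intro h
    apply Subtype.ext
    show (h : G) * z = z * h
    exact Subgroup.mem_centralizer_singleton_iff.mp (hHz h.2)
  · intro a ha
    apply Subtype.ext
    show z * (a : G) * z⁻¹ = (a : G)⁻¹
    exact hinv a ⟨a, ha, rfl⟩

end Cfsg.Agent.Helper55
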