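import Cfsg.Agent.Helper55.ThompsonTransfer
import Cfsg.Agent.Helper10.PCore
import Cfsg.Prelude.Def_Transfer

/-!
# Large extraspecial `2`-subgroups and transfer into `C(z) / K`

* `XS E z` : element form of "`E` is an extraspecial `2`-group with centre `{1, z}`".
* `XS.card_le`, `XS.exists_invol`, `XS.dcent`, `XS.cent_mem` : structure of such a group.
* `idxTwoHom`, `even_card_of_finprod_eq_one`, `exists_fixed_ne_of_even` : transfer tools.
* `xs_le_of_index_two` : if `O^2(G) = G`, `E = O_2(C(z))` is extraspecial of order `> 8` with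
  `C_G(E) ≤ E`, then `E` lies in every subgroup of index `2` of `C(z)`.
-/

set_option autoImplicit false

namespace Cfsg.Agent.Helper55

section xs

variable {G : Type*} [Group G]

/-- element form of "`E` is an extraspecial `2`-group with centre `{1, z}`" -/
structure XS (E : Subgroup G) (z : G) : Prop where
  zmem : z ∈ E
  zz : z * z = 1
  z1 : z ≠ 1
  zc : ∀ x ∈ E, z * x = x * z
  comm : ∀ x ∈ E, ∀ y ∈ E, x * y = y * x ∨ x * y = z * (y * x)
  cen : ∀ c ∈ E, (∀ x ∈ E, c * x = x * c) → c = 1 ∨ c = z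

variable {E : Subgroup G} {z : G}

theorem XS.anti_symm (hX : XS E z) {x y : G} (h : x * y = z * (y * x)) :
    y * x = z * (x * y) := by
  rw [h, ← mul_assoc, hX.zz, one_mul]

theorem XS.anti_ne (hX : XS E z) {x y : G} (h : x * y = z * (y * x)) : x * y ≠ y * x := by
  intro h'
  rw [h'] at h
  apply hX.z1
  have : z * (y * x) = 1 * (y * x) := by rw [one_mul]; exact h.symm
  exact mul_right_cancel this

/-- two elements anticommuting with `x` have a product commuting with `x` -/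
theorem XS.anti_mul (hX : XS E z) {a b x : G} (ha : a ∈ E) (h1 : a * x = z * (x * a))
    (h2 : b * x = z * (x * b)) : (a * b) * x = x * (a * b) := by
  calc a * b * x = a * (b * x) := by group
    _ = a * (z * (x * b)) := by rw [h2]
    _ = (a * z) * (x * b) := by group
    _ = (z * a) * (x * b) := by rw [hX.zc a ha]
    _ = z * ((a * x) * b) := by group
    _ = z * ((z * (x * a)) * b) := by rw [h1]
    _ = (z * z) * (x * (a * b)) := by group
    _ = x * (a * b) := by rw [hX.zz, one_mul]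

theorem XS.comm_anti_mul (hX : XS E z) {a b x : G} (ha : a ∈ E) (h1 : a * x = x * a)
    (h2 : b * x = z * (x * b)) : (a * b) * x = z * (x * (a * b)) := by
  calc a * b * x = a * (b * x) := by group
    _ = a * (z * (x * b)) := by rw [h2]
    _ = (a * z) * (x * b) := by group
    _ = (z * a) * (x * b) := by rw [hX.zc a ha]
    _ = z * ((a * x) * b) := by group
    _ = z * ((x * a) * b) := by rw [h1]
    _ = z * (x * (a * b)) := by group

theorem XS.anti_comm_mul (_hX : XS E z) {a b x : G} (h1 : a * x = z * (x * a))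
    (h2 : b * x = x * b) : (a * b) * x = z * (x * (a * b)) := by
  calc a * b * x = a * (b * x) := by group
    _ = a * (x * b) := by rw [h2]
    _ = (a * x) * b := by group
    _ = (z * (x * a)) * b := by rw [h1]
    _ = z * (x * (a * b)) := by group

omit [Group G] in
theorem xs_comm_mul [Group G] {a b x : G} (h1 : a * x = x * a) (h2 : b * x = x * b) :
    (a * b) * x = x * (a * b) := by
  calc a * b * x = a * (b * x) := by group
    _ = a * (x * b) := by rw [h2]
    _ = (a * x) * b := by group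
    _ = (x * a) * b := by rw [h1]
    _ = x * (a * b) := by group

/-- squares lie in the centre -/
theorem XS.sq (hX : XS E z) {x : G} (hx : x ∈ E) : x * x = 1 ∨ x * x = z := by
  apply hX.cen (x * x) (E.mul_mem hx hx)
  intro y hy
  rcases hX.comm x hx y hy with h | h
  · exact xs_comm_mul h h
  · exact hX.anti_mul hx h h

/-- square of a product of anticommuting elements -/
theorem XS.sq_mul_anti (hX : XS E z) {e f : G} (he : e ∈ E) (h : e * f = z * (f * e)) :
    (e * f) * (e * f) = z * ((e * e) * (f * f)) := by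
  have hfe : f * e = z * (e * f) := hX.anti_symm h
  calc e * f * (e * f) = e * (f * e) * f := by group
    _ = e * (z * (e * f)) * f := by rw [hfe]
    _ = (e * z) * (e * (f * f)) := by group
    _ = (z * e) * (e * (f * f)) := by rw [hX.zc e he]
    _ = z * ((e * e) * (f * f)) := by group

/-- an abelian subgroup `A` with `E = A ∪ A x⁻¹` forces `|E| ≤ 8` -/
theorem XS.card_le (hX : XS E z) (A : Subgroup G) (hAE : A ≤ E)
    (hab : ∀ a ∈ A, ∀ b ∈ A, a * b = b * a) (x : G) (hx : x ∈ E)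
    (hcov : ∀ e ∈ E, e ∈ A ∨ e * x ∈ A) : Nat.card E ≤ 8 := by
  classical
  have hcen : ∀ a ∈ A, a * x = x * a → a = 1 ∨ a = z := by
    intro a ha hax
    apply hX.cen a (hAE ha)
    intro e he
    rcases hcov e he with h | h
    · exact hab a ha e h
    · have h1 := hab a ha (e * x) h
      calc a * e = a * (e * x) * x⁻¹ := by group
        _ = e * x * a * x⁻¹ := by rw [h1]
        _ = e * (x * a) * x⁻¹ := by group
        _ = e * (a * x) * x⁻¹ := by rw [hax]
        _ = e * a := by group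
  have hA : ∃ a₁ : G, ∀ a ∈ A, a = 1 ∨ a = z ∨ a = a₁ ∨ a = a₁ * z := by
    by_cases hall : ∀ a ∈ A, a * x = x * a
    · refine ⟨1, fun a ha => ?_⟩
      rcases hcen a ha (hall a ha) with h | h
      · exact Or.inl h
      · exact Or.inr (Or.inl h)
    · push Not at hall
      obtain ⟨a₀, ha₀, hne⟩ := hall
      refine ⟨a₀⁻¹, fun a ha => ?_⟩
      by_cases hax : a * x = x * a
      · rcases hcen a ha hax with h | h
        · exact Or.inl h
        · exact Or.inr (Or.inl h)
      · have h1 : a * x = z * (x * a) := (hX.comm a (hAE ha) x hx).resolve_left hax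
        have h2 : a₀ * x = z * (x * a₀) := (hX.comm a₀ (hAE ha₀) x hx).resolve_left hne
        have h3 := hX.anti_mul (hAE ha₀) h2 h1
        rcases hcen (a₀ * a) (A.mul_mem ha₀ ha) h3 with h | h
        · right; right; left
          rw [eq_inv_mul_of_mul_eq h, mul_one]
        · right; right; right
          exact eq_inv_mul_of_mul_eq h
  obtain ⟨a₁, ha₁⟩ := hA
  have hsub : (E : Set G) ⊆
      ↑([1, z, a₁, a₁ * z, x⁻¹, z * x⁻¹, a₁ * x⁻¹, a₁ * z * x⁻¹].toFinset) := by
    intro e he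
    rw [Finset.mem_coe, List.mem_toFinset]
    rcases hcov e he with h | h
    · rcases ha₁ e h with h | h | h | h <;> simp [h]
    · have he' : e = e * x * x⁻¹ := by group
      rcases ha₁ (e * x) h with h | h | h | h <;> (rw [he', h]; simp)
  calc Nat.card E = (E : Set G).ncard := rfl
    _ ≤ (↑([1, z, a₁, a₁ * z, x⁻¹, z * x⁻¹, a₁ * x⁻¹, a₁ * z * x⁻¹].toFinset) : Set G).ncard :=
        Set.ncard_le_ncard hsub (Finset.finite_toSet _)
    _ = ([1, z, a₁, a₁ * z, x⁻¹, z * x⁻¹, a₁ * x⁻¹, a₁ * z * x⁻¹].toFinset).card :=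
        Set.ncard_coe_finset _
    _ ≤ [1, z, a₁, a₁ * z, x⁻¹, z * x⁻¹, a₁ * x⁻¹, a₁ * z * x⁻¹].length :=
        List.toFinset_card_le _
    _ = 8 := rfl

/-- a subgroup `K` with `E = (E ∩ K) ∪ (E ∩ K) x₀⁻¹`, `x₀ ∉ K`: there is an involution of `E`
outside `K` -/
theorem XS.exists_invol (hX : XS E z) (hcard : 8 < Nat.card E) (K : Subgroup G) (x₀ : G)
    (hx₀ : x₀ ∈ E) (hx₀K : x₀ ∉ K) (hcov : ∀ e ∈ E, e ∈ K ∨ e * x₀ ∈ K) :
    ∃ u ∈ E, u ∉ K ∧ u * u = 1 := by
  by_contra hno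
  push Not at hno
  have hsqz : ∀ x ∈ E, x ∉ K → x * x = z := fun x hx hxK =>
    (hX.sq hx).resolve_left (hno x hx hxK)
  have hx₀2 := hsqz x₀ hx₀ hx₀K
  have hnK : ∀ e, e ∈ K → x₀ * e ∉ K := by
    intro e heK h
    apply hx₀K
    have := K.mul_mem h (K.inv_mem heK)
    rwa [mul_inv_cancel_right] at this
  have hq1 : ∀ e ∈ E, e ∈ K → e * x₀ = x₀ * e → e * e = 1 := by
    intro e he heK hc
    have h2 := hsqz (x₀ * e) (E.mul_mem hx₀ he) (hnK e heK)
    have h3 : x₀ * e * (x₀ * e) = z * (e * e) := by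
      calc x₀ * e * (x₀ * e) = x₀ * (e * x₀) * e := by group
        _ = x₀ * (x₀ * e) * e := by rw [hc]
        _ = (x₀ * x₀) * (e * e) := by group
        _ = z * (e * e) := by rw [hx₀2]
    rw [h3] at h2
    have : z * (e * e) = z * 1 := by rw [h2, mul_one]
    exact mul_left_cancel this
  have hq2 : ∀ e ∈ E, e ∈ K → e * x₀ ≠ x₀ * e → e * e = z := by
    intro e he heK hc
    have hc' : e * x₀ = z * (x₀ * e) := (hX.comm e he x₀ hx₀).resolve_left hc
    have h2 := hsqz (x₀ * e) (E.mul_mem hx₀ he) (hnK e heK)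
    have h3 : x₀ * e * (x₀ * e) = e * e := by
      calc x₀ * e * (x₀ * e) = x₀ * (e * x₀) * e := by group
        _ = x₀ * (z * (x₀ * e)) * e := by rw [hc']
        _ = (x₀ * z) * (x₀ * (e * e)) := by group
        _ = (z * x₀) * (x₀ * (e * e)) := by rw [hX.zc x₀ hx₀]
        _ = z * ((x₀ * x₀) * (e * e)) := by group
        _ = z * (z * (e * e)) := by rw [hx₀2]
        _ = (z * z) * (e * e) := by group
        _ = e * e := by rw [hX.zz, one_mul]
    rw [h3] at h2; exact h2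
  have hab : ∀ a ∈ E ⊓ K, ∀ b ∈ E ⊓ K, a * b = b * a := by
    intro e he f hf
    by_contra hne
    have hef : e * f = z * (f * e) := (hX.comm e he.1 f hf.1).resolve_left hne
    have hsq := hX.sq_mul_anti he.1 hef
    have hefE : e * f ∈ E := E.mul_mem he.1 hf.1
    have hefK : e * f ∈ K := K.mul_mem he.2 hf.2
    by_cases hce : e * x₀ = x₀ * e <;> by_cases hcf : f * x₀ = x₀ * f
    · have h2 := hq1 _ hefE hefK (xs_comm_mul hce hcf)
      rw [hsq, hq1 e he.1 he.2 hce, hq1 f hf.1 hf.2 hcf, one_mul, mul_one] at h2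
      exact hX.z1 h2
    · have hcf' : f * x₀ = z * (x₀ * f) := (hX.comm f hf.1 x₀ hx₀).resolve_left hcf
      have h2 := hq2 _ hefE hefK (hX.anti_ne (hX.comm_anti_mul he.1 hce hcf'))
      rw [hsq, hq1 e he.1 he.2 hce, hq2 f hf.1 hf.2 hcf, one_mul, hX.zz] at h2
      exact hX.z1 h2.symm
    · have hce' : e * x₀ = z * (x₀ * e) := (hX.comm e he.1 x₀ hx₀).resolve_left hce
      have h2 := hq2 _ hefE hefK (hX.anti_ne (hX.anti_comm_mul hce' hcf))
      rw [hsq, hq2 e he.1 he.2 hce, hq1 f hf.1 hf.2 hcf, mul_one, hX.zz] at h2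
      exact hX.z1 h2.symm
    · have hce' : e * x₀ = z * (x₀ * e) := (hX.comm e he.1 x₀ hx₀).resolve_left hce
      have hcf' : f * x₀ = z * (x₀ * f) := (hX.comm f hf.1 x₀ hx₀).resolve_left hcf
      have h2 := hq1 _ hefE hefK (hX.anti_mul he.1 hce' hcf')
      rw [hsq, hq2 e he.1 he.2 hce, hq2 f hf.1 hf.2 hcf, hX.zz, mul_one] at h2
      exact hX.z1 h2
  have hle := hX.card_le (E ⊓ K) inf_le_left hab x₀ hx₀ (fun e he => by
    rcases hcov e he with h | h
    · exact Or.inl ⟨he, h⟩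
    · exact Or.inr ⟨E.mul_mem he hx₀, h⟩)
  omega

/-- `E = C_E(u) ∪ C_E(u) e₀⁻¹` -/
theorem XS.cov_cent (hX : XS E z) {u e₀ : G} (hu : u ∈ E) (he₀ : e₀ ∈ E)
    (h0 : e₀ * u ≠ u * e₀) : ∀ e ∈ E, e ∈ E ⊓ Subgroup.centralizer ({u} : Set G) ∨
      e * e₀ ∈ E ⊓ Subgroup.centralizer ({u} : Set G) := by
  intro e he
  have h0' : e₀ * u = z * (u * e₀) := (hX.comm e₀ he₀ u hu).resolve_left h0
  by_cases hc : e * u = u * e
  · exact Or.inl ⟨he, Subgroup.mem_centralizer_singleton_iff.2 hc⟩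
  · have hc' : e * u = z * (u * e) := (hX.comm e he u hu).resolve_left hc
    exact Or.inr ⟨E.mul_mem he he₀,
      Subgroup.mem_centralizer_singleton_iff.2 (hX.anti_mul he hc' h0')⟩

/-- `C_E(u)` is nonabelian when `|E| > 8` -/
theorem XS.exists_noncomm (hX : XS E z) (hcard : 8 < Nat.card E) {u e₀ : G} (hu : u ∈ E)
    (he₀ : e₀ ∈ E) (h0 : e₀ * u ≠ u * e₀) :
    ∃ a ∈ E ⊓ Subgroup.centralizer ({u} : Set G),
      ∃ b ∈ E ⊓ Subgroup.centralizer ({u} : Set G), a * b ≠ b * a := by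
  by_contra hno
  push Not at hno
  have hle := hX.card_le (E ⊓ Subgroup.centralizer ({u} : Set G)) inf_le_left hno e₀ he₀
    (hX.cov_cent hu he₀ h0)
  omega

/-- an element centralizing `C_E(u)` and `e₀` centralizes `E` -/
theorem XS.comm_of_comm (hX : XS E z) {u e₀ : G} (hu : u ∈ E) (he₀ : e₀ ∈ E)
    (h0 : e₀ * u ≠ u * e₀) {g : G}
    (hgM : ∀ m ∈ E ⊓ Subgroup.centralizer ({u} : Set G), g * m = m * g)
    (hg0 : g * e₀ = e₀ * g) : ∀ e ∈ E, g * e = e * g := by
  intro e he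
  rcases hX.cov_cent hu he₀ h0 e he with h | h
  · exact hgM e h
  · calc g * e = g * (e * e₀) * e₀⁻¹ := by group
      _ = e * e₀ * g * e₀⁻¹ := by rw [hgM _ h]
      _ = e * (e₀ * g) * e₀⁻¹ := by group
      _ = e * (g * e₀) * e₀⁻¹ := by rw [hg0]
      _ = e * g := by group

/-- the double centralizer of a non-central involution `u`: `C_E(C_E(u)) = {1, z, u, uz}` -/
theorem XS.dcent (hX : XS E z) {u e₀ : G} (hu : u ∈ E) (huu : u * u = 1) (he₀ : e₀ ∈ E)
    (h0 : e₀ * u ≠ u * e₀) {c : G} (hc : c ∈ E)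
    (hcM : ∀ m ∈ E ⊓ Subgroup.centralizer ({u} : Set G), c * m = m * c) :
    c = 1 ∨ c = z ∨ c = u ∨ c = u * z := by
  have h0' : e₀ * u = z * (u * e₀) := (hX.comm e₀ he₀ u hu).resolve_left h0
  by_cases h1 : c * e₀ = e₀ * c
  · rcases hX.cen c hc (hX.comm_of_comm hu he₀ h0 hcM h1) with h | h
    · exact Or.inl h
    · exact Or.inr (Or.inl h)
  · have h1' : c * e₀ = z * (e₀ * c) := (hX.comm c hc e₀ he₀).resolve_left h1
    have h2 : (c * u) * e₀ = e₀ * (c * u) := hX.anti_mul hc h1' (hX.anti_symm h0')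
    have h3 : ∀ m ∈ E ⊓ Subgroup.centralizer ({u} : Set G), (c * u) * m = m * (c * u) := by
      intro m hm
      have hmu : m * u = u * m := Subgroup.mem_centralizer_singleton_iff.1 hm.2
      calc c * u * m = c * (u * m) := by group
        _ = c * (m * u) := by rw [hmu]
        _ = (c * m) * u := by group
        _ = (m * c) * u := by rw [hcM m hm]
        _ = m * (c * u) := by group
    have hui : u⁻¹ = u := inv_eq_of_mul_eq_one_left huu
    rcases hX.cen (c * u) (E.mul_mem hc hu) (hX.comm_of_comm hu he₀ h0 h3 h2) with h | h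
    · right; right; left
      rw [eq_inv_of_mul_eq_one_left h, hui]
    · right; right; right
      rw [eq_mul_inv_of_mul_eq h, hui, hX.zc u hu]

/-- an element of `G` that normalizes `E` and centralizes `C_E(u)` lies in `{1, z, u, uz}` -/
theorem XS.cent_mem (hX : XS E z) {u e₀ : G} (hu : u ∈ E) (huu : u * u = 1) (he₀ : e₀ ∈ E)
    (h0 : e₀ * u ≠ u * e₀) (hcent : ∀ g : G, (∀ e ∈ E, g * e = e * g) → g ∈ E) {w : G}
    (hwE : ∀ e ∈ E, w * e * w⁻¹ ∈ E)
    (hwM : ∀ m ∈ E ⊓ Subgroup.centralizer ({u} : Set G), w * m = m * w) :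
    w = 1 ∨ w = z ∨ w = u ∨ w = u * z := by
  have h0' : e₀ * u = z * (u * e₀) := (hX.comm e₀ he₀ u hu).resolve_left h0
  have hue₀ : u * e₀ = z * (e₀ * u) := hX.anti_symm h0'
  have hzM : z ∈ E ⊓ Subgroup.centralizer ({u} : Set G) :=
    ⟨hX.zmem, Subgroup.mem_centralizer_singleton_iff.2 (hX.zc u hu)⟩
  have huM : u ∈ E ⊓ Subgroup.centralizer ({u} : Set G) :=
    ⟨hu, Subgroup.mem_centralizer_singleton_iff.2 rfl⟩
  have hconj : ∀ m ∈ E ⊓ Subgroup.centralizer ({u} : Set G), w * m * w⁻¹ = m := by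
    intro m hm
    rw [hwM m hm, mul_inv_cancel_right]
  have hdE : w * e₀ * w⁻¹ ∈ E := hwE e₀ he₀
  have hcE : e₀⁻¹ * (w * e₀ * w⁻¹) ∈ E := E.mul_mem (E.inv_mem he₀) hdE
  have hd : e₀ * (e₀⁻¹ * (w * e₀ * w⁻¹)) = w * e₀ * w⁻¹ := mul_inv_cancel_left _ _
  -- `c = e₀⁻¹ * (w e₀ w⁻¹)` centralizes `C_E(u)`
  have hcM : ∀ m ∈ E ⊓ Subgroup.centralizer ({u} : Set G),
      e₀⁻¹ * (w * e₀ * w⁻¹) * m = m * (e₀⁻¹ * (w * e₀ * w⁻¹)) := by
    intro m hm
    have hdm : w * e₀ * w⁻¹ * m = w * (e₀ * m) * w⁻¹ := by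
      calc w * e₀ * w⁻¹ * m = w * e₀ * w⁻¹ * (w * m * w⁻¹) := by rw [hconj m hm]
        _ = w * (e₀ * m) * w⁻¹ := by group
    apply mul_left_cancel (a := e₀)
    rcases hX.comm e₀ he₀ m hm.1 with h | h
    · calc e₀ * (e₀⁻¹ * (w * e₀ * w⁻¹) * m) = e₀ * (e₀⁻¹ * (w * e₀ * w⁻¹)) * m := by group
        _ = w * e₀ * w⁻¹ * m := by rw [hd]
        _ = w * (e₀ * m) * w⁻¹ := hdm
        _ = w * (m * e₀) * w⁻¹ := by rw [h]
        _ = (w * m * w⁻¹) * (w * e₀ * w⁻¹) := by group
        _ = m * (w * e₀ * w⁻¹) := by rw [hconj m hm]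
        _ = m * (e₀ * (e₀⁻¹ * (w * e₀ * w⁻¹))) := by rw [hd]
        _ = (m * e₀) * (e₀⁻¹ * (w * e₀ * w⁻¹)) := by group
        _ = (e₀ * m) * (e₀⁻¹ * (w * e₀ * w⁻¹)) := by rw [h]
        _ = e₀ * (m * (e₀⁻¹ * (w * e₀ * w⁻¹))) := by group
    · calc e₀ * (e₀⁻¹ * (w * e₀ * w⁻¹) * m) = e₀ * (e₀⁻¹ * (w * e₀ * w⁻¹)) * m := by group
        _ = w * e₀ * w⁻¹ * m := by rw [hd]
        _ = w * (e₀ * m) * w⁻¹ := hdm
        _ = w * (z * (m * e₀)) * w⁻¹ := by rw [h]
        _ = (w * z * w⁻¹) * ((w * m * w⁻¹) * (w * e₀ * w⁻¹)) := by group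
        _ = z * (m * (w * e₀ * w⁻¹)) := by rw [hconj z hzM, hconj m hm]
        _ = z * (m * (e₀ * (e₀⁻¹ * (w * e₀ * w⁻¹)))) := by rw [hd]
        _ = (z * (m * e₀)) * (e₀⁻¹ * (w * e₀ * w⁻¹)) := by group
        _ = (e₀ * m) * (e₀⁻¹ * (w * e₀ * w⁻¹)) := by rw [h]
        _ = e₀ * (m * (e₀⁻¹ * (w * e₀ * w⁻¹))) := by group
  -- squares
  have hsq : (w * e₀ * w⁻¹) * (w * e₀ * w⁻¹) = e₀ * e₀ := by
    have h1 : (w * e₀ * w⁻¹) * (w * e₀ * w⁻¹) = w * (e₀ * e₀) * w⁻¹ := by group
    rw [h1]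
    rcases hX.sq he₀ with h | h
    · rw [h]; group
    · rw [h]; exact hconj z hzM
  have hnot : ∀ c : G, e₀ * c = w * e₀ * w⁻¹ → c * c = 1 → c * e₀ = z * (e₀ * c) → False := by
    intro c hc1 hc2 hc3
    have h1 : (e₀ * c) * (e₀ * c) = z * (e₀ * e₀) := by
      calc e₀ * c * (e₀ * c) = e₀ * (c * e₀) * c := by group
        _ = e₀ * (z * (e₀ * c)) * c := by rw [hc3]
        _ = (e₀ * z) * (e₀ * (c * c)) := by group
        _ = (z * e₀) * (e₀ * (c * c)) := by rw [hX.zc e₀ he₀]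
        _ = z * (e₀ * e₀) := by rw [hc2]; group
    rw [hc1, hsq] at h1
    apply hX.z1
    have : z * (e₀ * e₀) = 1 * (e₀ * e₀) := by rw [one_mul]; exact h1.symm
    exact mul_right_cancel this
  have hfin : ∀ w' : G, (∀ e ∈ E, w' * e = e * w') → w = w' ∨ w = w' * u →
      (∀ m ∈ E ⊓ Subgroup.centralizer ({u} : Set G), w * m = m * w) →
      w = 1 ∨ w = z ∨ w = u ∨ w = u * z := by
    intro w' hw' hww hM
    have hw'E : w' ∈ E := hcent w' hw'
    have hwE' : w ∈ E := by
      rcases hww with h | h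
      · rw [h]; exact hw'E
      · rw [h]; exact E.mul_mem hw'E hu
    exact hX.dcent hu huu he₀ h0 hwE' hM
  rcases hX.dcent hu huu he₀ h0 hcE hcM with h | h | h | h
  · -- `w e₀ w⁻¹ = e₀`
    have hw0 : w * e₀ = e₀ * w := by
      have h1 : w * e₀ * w⁻¹ = e₀ := by rw [← hd, h, mul_one]
      calc w * e₀ = w * e₀ * w⁻¹ * w := by group
        _ = e₀ * w := by rw [h1]
    exact hfin w (hX.comm_of_comm hu he₀ h0 hwM hw0) (Or.inl rfl) hwM
  · -- `w e₀ w⁻¹ = e₀ z`
    have h1 : w * e₀ * w⁻¹ = e₀ * z := by rw [← hd, h]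
    have hwz : w * z = z * w := hwM z hzM
    have hw0 : (w * u) * e₀ = e₀ * (w * u) := by
      calc w * u * e₀ = w * (u * e₀) := by group
        _ = w * (z * (e₀ * u)) := by rw [hue₀]
        _ = (w * z) * (e₀ * u) := by group
        _ = (z * w) * (e₀ * u) := by rw [hwz]
        _ = z * ((w * e₀ * w⁻¹) * (w * u)) := by group
        _ = z * ((e₀ * z) * (w * u)) := by rw [h1]
        _ = (z * e₀) * (z * (w * u)) := by group
        _ = (e₀ * z) * (z * (w * u)) := by rw [hX.zc e₀ he₀]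
        _ = e₀ * ((z * z) * (w * u)) := by group
        _ = e₀ * (w * u) := by rw [hX.zz, one_mul]
    have hwuM : ∀ m ∈ E ⊓ Subgroup.centralizer ({u} : Set G), (w * u) * m = m * (w * u) := by
      intro m hm
      have hmu : m * u = u * m := Subgroup.mem_centralizer_singleton_iff.1 hm.2
      calc w * u * m = w * (u * m) := by group
        _ = w * (m * u) := by rw [hmu]
        _ = (w * m) * u := by group
        _ = (m * w) * u := by rw [hwM m hm]
        _ = m * (w * u) := by group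
    refine hfin (w * u) (hX.comm_of_comm hu he₀ h0 hwuM hw0) (Or.inr ?_) hwM
    rw [mul_assoc, huu, mul_one]
  · -- `c = u` is impossible
    exfalso
    exact hnot u (by rw [← h]; exact hd) huu hue₀
  · -- `c = u z` is impossible
    exfalso
    refine hnot (u * z) (by rw [← h]; exact hd) ?_ ?_
    · calc u * z * (u * z) = u * (z * u) * z := by group
        _ = u * (u * z) * z := by rw [hX.zc u hu]
        _ = (u * u) * (z * z) := by group
        _ = 1 := by rw [huu, hX.zz, one_mul]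
    · calc u * z * e₀ = u * (z * e₀) := by group
        _ = u * (e₀ * z) := by rw [hX.zc e₀ he₀]
        _ = (u * e₀) * z := by group
        _ = (z * (e₀ * u)) * z := by rw [hue₀]
        _ = z * (e₀ * (u * z)) := by group

end xs

section transfer

/-- the homomorphism onto `C₂` whose kernel is a given subgroup of index `2` -/
noncomputable def idxTwoHom {H : Type*} [Group H] (K : Subgroup H) (hK : K.index = 2) :
    H →* Multiplicative (ZMod 2) := by
  classical
  exact MonoidHom.mk' (fun h => if h ∈ K then 1 else Multiplicative.ofAdd 1) (by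
    intro a b
    have h := Subgroup.mul_mem_iff_of_index_two hK (a := a) (b := b)
    have h2 : Multiplicative.ofAdd (1 : ZMod 2) * Multiplicative.ofAdd (1 : ZMod 2) = 1 := by
      decide
    by_cases ha : a ∈ K <;> by_cases hb : b ∈ K <;> simp [h, ha, hb, h2])

theorem idxTwoHom_eq_one_iff {H : Type*} [Group H] (K : Subgroup H) (hK : K.index = 2) (h : H) :
    idxTwoHom K hK h = 1 ↔ h ∈ K := by
  classical
  have h2 : Multiplicative.ofAdd (1 : ZMod 2) ≠ 1 := by decide
  show (if h ∈ K then (1 : Multiplicative (ZMod 2)) else Multiplicative.ofAdd 1) = 1 ↔ h ∈ K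
  by_cases hh : h ∈ K <;> simp [hh, h2]

/-- a product of elements of `C₂` equal to `1` has an even number of nontrivial factors -/
theorem even_card_of_finprod_eq_one {α : Type*} [Finite α] (F : α → Multiplicative (ZMod 2))
    (h : ∏ᶠ q, F q = 1) : Even (Nat.card {q : α | F q ≠ 1}) := by
  classical
  let _ : Fintype α := Fintype.ofFinite α
  rw [finprod_eq_prod_of_fintype] at h
  have hσ : ∀ a : Multiplicative (ZMod 2), a ≠ 1 → a = Multiplicative.ofAdd 1 := by decide
  have hprod : ∏ q : α, F q =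
      (Multiplicative.ofAdd (1 : ZMod 2)) ^ (Nat.card {q : α | F q ≠ 1}) := by
    rw [← Finset.prod_filter_ne_one,
      Finset.prod_congr rfl (fun q hq => hσ _ (Finset.mem_filter.mp hq).2), Finset.prod_const]
    congr 1
    rw [Nat.card_eq_fintype_card, Fintype.card_subtype]
    rfl
  rw [hprod] at h
  by_contra hodd
  rw [Nat.not_even_iff_odd] at hodd
  obtain ⟨k, hk⟩ := hodd
  have h2 : (Multiplicative.ofAdd (1 : ZMod 2)) ^ 2 = 1 := by decide
  rw [hk, pow_succ, pow_mul, h2, one_pow, one_mul] at h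
  revert h
  decide

/-- a `2`-group acting on an invariant set of cosets of even size with a fixed point has a second
fixed point -/
theorem exists_fixed_ne_of_even {G : Type*} [Group G] [Finite G] {H : Subgroup G}
    (M : Subgroup G) (hM : IsPGroup 2 M) (N : Set (G ⧸ H))
    (hinv : ∀ m ∈ M, ∀ q ∈ N, (m • q : G ⧸ H) ∈ N) (heven : Even (Nat.card N))
    (q₀ : G ⧸ H) (hq₀ : q₀ ∈ N) (hfix : ∀ m ∈ M, (m • q₀ : G ⧸ H) = q₀) :
    ∃ q ∈ N, q ≠ q₀ ∧ ∀ m ∈ M, (m • q : G ⧸ H) = q := by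
  have : Fact (Nat.Prime 2) := ⟨Nat.prime_two⟩
  by_contra hno
  push Not at hno
  let N' : SubMulAction ↥M (G ⧸ H) :=
    { carrier := N, smul_mem' := fun m q hq => hinv m m.2 q hq }
  have h1 : Nat.card N' ≡ Nat.card (MulAction.fixedPoints ↥M N') [MOD 2] :=
    hM.card_modEq_card_fixedPoints N'
  have h2 : MulAction.fixedPoints ↥M N' = {⟨q₀, hq₀⟩} := by
    ext ⟨q, hq⟩
    rw [MulAction.mem_fixedPoints, Set.mem_singleton_iff]
    constructor
    · intro hfixq
      by_contra hne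
      have hne' : q ≠ q₀ := fun h => hne (Subtype.ext h)
      obtain ⟨m, hm, hmq⟩ := hno q hq hne'
      exact hmq (congrArg Subtype.val (hfixq ⟨m, hm⟩))
    · intro h m
      have hqq : q = q₀ := congrArg Subtype.val h
      apply Subtype.ext
      show (m : G) • q = q
      rw [hqq]
      exact hfix m m.2
  rw [h2] at h1
  have h3 : Nat.card ({⟨q₀, hq₀⟩} : Set N') = 1 := by simp
  have h4 : Nat.card N = Nat.card N' := rfl
  rw [h3] at h1
  obtain ⟨k, hk⟩ := heven
  have h5 : Nat.card N' % 2 = 1 % 2 := h1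
  omega

end transfer

section main

open scoped commutatorElement

variable {G : Type*} [Group G] [Finite G]

omit [Finite G] in
theorem XS.of_extraspecial (z : G) (hz : orderOf z = 2) (E : Subgroup G)
    (hE : E = (Cfsg.pCore 2 ↥(Subgroup.centralizer ({z} : Set G))).map
      (Subgroup.centralizer ({z} : Set G)).subtype)
    (hext : Cfsg.IsExtraspecial 2 ↥E) : XS E z := by
  have hzz : z * z = 1 := by
    have := pow_orderOf_eq_one z
    rwa [hz, pow_two] at this
  have hz1 : z ≠ 1 := by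
    intro h
    rw [h, orderOf_one] at hz
    omega
  have hEH : E ≤ Subgroup.centralizer ({z} : Set G) := by
    rw [hE]; exact Subgroup.map_subtype_le _
  have hzc : ∀ x ∈ E, z * x = x * z := fun x hx =>
    (Subgroup.mem_centralizer_singleton_iff.1 (hEH hx)).symm
  have hzH : z ∈ Subgroup.centralizer ({z} : Set G) :=
    Subgroup.mem_centralizer_singleton_iff.2 rfl
  have hzE : z ∈ E := by
    have hNn : (Subgroup.zpowers (⟨z, hzH⟩ : Subgroup.centralizer ({z} : Set G))).Normal := by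
      constructor
      intro n hn g
      have hcomm : g * n = n * g := by
        obtain ⟨i, rfl⟩ := Subgroup.mem_zpowers_iff.1 hn
        have hc : Commute g (⟨z, hzH⟩ : Subgroup.centralizer ({z} : Set G)) :=
          Subtype.ext (Subgroup.mem_centralizer_singleton_iff.1 g.2)
        exact (hc.zpow_right i).eq
      rw [hcomm, mul_inv_cancel_right]; exact hn
    have hN2 : IsPGroup 2 (Subgroup.zpowers (⟨z, hzH⟩ : Subgroup.centralizer ({z} : Set G))) := by
      apply IsPGroup.of_card (n := 1)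
      rw [Nat.card_zpowers, Subgroup.orderOf_mk, hz, pow_one]
    have hle := Helper10.le_pCore _ hNn hN2
    rw [hE]
    exact ⟨⟨z, hzH⟩, hle (Subgroup.mem_zpowers _), rfl⟩
  have hcenter : ∀ c : ↥E, c ∈ Subgroup.center ↥E → c = 1 ∨ c = ⟨z, hzE⟩ := by
    intro c hc
    have hzcen : (⟨z, hzE⟩ : ↥E) ∈ Subgroup.center ↥E := by
      rw [Subgroup.mem_center_iff]
      intro g
      exact Subtype.ext (hzc g g.2).symm
    obtain ⟨y, hy, hyu⟩ := (Nat.card_eq_two_iff' (1 : Subgroup.center ↥E)).1 hext.2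
    by_cases hc1 : c = 1
    · exact Or.inl hc1
    · right
      have h1 : (⟨c, hc⟩ : Subgroup.center ↥E) = y :=
        hyu _ (fun h => hc1 (congrArg Subtype.val h))
      have h2 : (⟨⟨z, hzE⟩, hzcen⟩ : Subgroup.center ↥E) = y :=
        hyu _ (fun h => hz1 (congrArg Subtype.val (congrArg Subtype.val h)))
      exact congrArg Subtype.val (h1.trans h2.symm)
  refine ⟨hzE, hzz, hz1, hzc, ?_, ?_⟩
  · intro x hx y hy
    have hmem : ⁅(⟨x, hx⟩ : ↥E), ⟨y, hy⟩⁆ ∈ Subgroup.center ↥E := by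
      rw [← hext.1.2.2]
      exact Subgroup.commutator_mem_commutator (Subgroup.mem_top _) (Subgroup.mem_top _)
    rcases hcenter _ hmem with h | h
    · left
      have h1 : x * y * x⁻¹ * y⁻¹ = 1 := congrArg Subtype.val h
      calc x * y = (x * y * x⁻¹ * y⁻¹) * (y * x) := by group
        _ = y * x := by rw [h1, one_mul]
    · right
      have h1 : x * y * x⁻¹ * y⁻¹ = z := congrArg Subtype.val h
      calc x * y = (x * y * x⁻¹ * y⁻¹) * (y * x) := by group
        _ = z * (y * x) := by rw [h1]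
  · intro c hc hcx
    have hmem : (⟨c, hc⟩ : ↥E) ∈ Subgroup.center ↥E := by
      rw [Subgroup.mem_center_iff]
      intro g
      exact Subtype.ext (hcx g g.2).symm
    rcases hcenter _ hmem with h | h
    · exact Or.inl (congrArg Subtype.val h)
    · exact Or.inr (congrArg Subtype.val h)

/-- **Large extraspecial subgroups and subgroups of index 2**: if `O^2(G) = G`, `z` is an
involution, `E = O_2(C(z))` is extraspecial of order `> 8` and `C_G(E) ≤ E`, then `E` lies in every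
subgroup of index `2` of `C(z)`. -/
theorem xs_le_of_index_two (hres : Cfsg.pResidual 2 G = ⊤) (z : G) (hz : orderOf z = 2)
    (E : Subgroup G)
    (hE : E = (Cfsg.pCore 2 ↥(Subgroup.centralizer ({z} : Set G))).map
      (Subgroup.centralizer ({z} : Set G)).subtype)
    (hext : Cfsg.IsExtraspecial 2 ↥E) (hcent : Subgroup.centralizer (E : Set G) ≤ E)
    (hcard : 8 < Nat.card ↥E) (K : Subgroup G)
    (hKi : K.relIndex (Subgroup.centralizer ({z} : Set G)) = 2) : E ≤ K := by
  classical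
  have hX := XS.of_extraspecial z hz E hE hext
  have hEH : E ≤ Subgroup.centralizer ({z} : Set G) := by
    rw [hE]; exact Subgroup.map_subtype_le _
  have hzH : z ∈ Subgroup.centralizer ({z} : Set G) :=
    Subgroup.mem_centralizer_singleton_iff.2 rfl
  have hnormE : ∀ h ∈ Subgroup.centralizer ({z} : Set G), ∀ e ∈ E, h * e * h⁻¹ ∈ E := by
    intro h hh e he
    rw [hE] at he ⊢
    obtain ⟨e', he', rfl⟩ := he
    exact ⟨⟨h, hh⟩ * e' * ⟨h, hh⟩⁻¹, (Helper10.pCore_normal 2 _).conj_mem e' he' ⟨h, hh⟩, rfl⟩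
  have hϕ : ∀ h : ↥(Subgroup.centralizer ({z} : Set G)),
      idxTwoHom (K.subgroupOf (Subgroup.centralizer ({z} : Set G))) hKi h = 1 ↔ (h : G) ∈ K :=
    fun h => (idxTwoHom_eq_one_iff _ hKi h).trans Subgroup.mem_subgroupOf
  -- commutators of `C(z)` lie in `K`
  have hKC : ∀ a ∈ Subgroup.centralizer ({z} : Set G), ∀ b ∈ Subgroup.centralizer ({z} : Set G),
      ∀ c ∈ Subgroup.centralizer ({z} : Set G), a * b = c * (b * a) → c ∈ K := by
    intro a ha b hb c hc h
    have h1 : (⟨a, ha⟩ * ⟨b, hb⟩ : ↥(Subgroup.centralizer ({z} : Set G))) =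
        ⟨c, hc⟩ * (⟨b, hb⟩ * ⟨a, ha⟩) := Subtype.ext h
    have h2 := congrArg (idxTwoHom (K.subgroupOf (Subgroup.centralizer ({z} : Set G))) hKi) h1
    rw [map_mul, map_mul, map_mul, mul_comm (idxTwoHom _ hKi ⟨b, hb⟩)] at h2
    have h3 : idxTwoHom (K.subgroupOf (Subgroup.centralizer ({z} : Set G))) hKi ⟨c, hc⟩ = 1 := by
      have h4 : idxTwoHom (K.subgroupOf (Subgroup.centralizer ({z} : Set G))) hKi ⟨c, hc⟩ *
          (idxTwoHom _ hKi ⟨a, ha⟩ * idxTwoHom _ hKi ⟨b, hb⟩) =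
          1 * (idxTwoHom _ hKi ⟨a, ha⟩ * idxTwoHom _ hKi ⟨b, hb⟩) := by
        rw [one_mul]; exact h2.symm
      exact mul_right_cancel h4
    exact (hϕ ⟨c, hc⟩).1 h3
  by_contra hEK
  obtain ⟨x₀, hx₀E, hx₀K⟩ := SetLike.not_le_iff_exists.1 hEK
  have hmm : ∀ a b : Multiplicative (ZMod 2), a ≠ 1 → b ≠ 1 → a * b = 1 := by decide
  have hcov : ∀ e ∈ E, e ∈ K ∨ e * x₀ ∈ K := by
    intro e he
    by_cases heK : e ∈ K
    · exact Or.inl heK
    · right
      have h1 : idxTwoHom (K.subgroupOf (Subgroup.centralizer ({z} : Set G))) hKi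
          ⟨e, hEH he⟩ ≠ 1 := fun h => heK ((hϕ ⟨e, hEH he⟩).1 h)
      have h2 : idxTwoHom (K.subgroupOf (Subgroup.centralizer ({z} : Set G))) hKi
          ⟨x₀, hEH hx₀E⟩ ≠ 1 := fun h => hx₀K ((hϕ ⟨x₀, hEH hx₀E⟩).1 h)
      have h3 := hmm _ _ h1 h2
      rw [← map_mul] at h3
      exact (hϕ _).1 h3
  obtain ⟨u, huE, huK, huu⟩ := hX.exists_invol hcard K x₀ hx₀E hx₀K hcov
  obtain ⟨a₁, ha₁E, b₁, hb₁E, hab₁⟩ : ∃ a ∈ E, ∃ b ∈ E, a * b ≠ b * a := by
    by_contra hno
    push Not at hno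
    have := hX.card_le E le_rfl hno 1 E.one_mem (fun e he => Or.inl he)
    omega
  have hzK : z ∈ K := hKC a₁ (hEH ha₁E) b₁ (hEH hb₁E) z hzH
    ((hX.comm a₁ ha₁E b₁ hb₁E).resolve_left hab₁)
  have hu1 : u ≠ 1 := fun h => huK (h ▸ K.one_mem)
  have huz : u ≠ z := fun h => huK (h ▸ hzK)
  obtain ⟨e₀, he₀, h0⟩ : ∃ e₀ ∈ E, e₀ * u ≠ u * e₀ := by
    by_contra hno
    push Not at hno
    rcases hX.cen u huE (fun x hx => (hno x hx).symm) with h | h
    · exact hu1 h
    · exact huz h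
  obtain ⟨a, haM, b, hbM, hab⟩ := hX.exists_noncomm hcard huE he₀ h0
  have habz : a * b = z * (b * a) := (hX.comm a haM.1 b hbM.1).resolve_left hab
  have hzM : z ∈ E ⊓ Subgroup.centralizer ({u} : Set G) :=
    ⟨hX.zmem, Subgroup.mem_centralizer_singleton_iff.2 (hX.zc u huE)⟩
  have hM2 : IsPGroup 2 ↥(E ⊓ Subgroup.centralizer ({u} : Set G)) :=
    IsPGroup.to_le hext.1.1 inf_le_left
  -- the transfer
  have htr : MonoidHom.transfer
      (idxTwoHom (K.subgroupOf (Subgroup.centralizer ({z} : Set G))) hKi) u = 1 :=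
    hom_eq_one_of_closure_odd_eq_top hres _ u
  rw [transfer_involution _ u huu] at htr
  have heven := even_card_of_finprod_eq_one _ htr
  have hN : ∀ g : G, ((g : G ⧸ Subgroup.centralizer ({z} : Set G)) ∈
      {q : G ⧸ Subgroup.centralizer ({z} : Set G) |
        extOne (idxTwoHom (K.subgroupOf (Subgroup.centralizer ({z} : Set G))) hKi)
          (q.out⁻¹ * u * q.out) ≠ 1}) ↔
      (g⁻¹ * u * g ∈ Subgroup.centralizer ({z} : Set G) ∧ g⁻¹ * u * g ∉ K) := by
    intro g
    obtain ⟨h, hh⟩ := QuotientGroup.mk_out_eq_mul (Subgroup.centralizer ({z} : Set G)) g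
    rw [Set.mem_ofPred_eq, hh]
    have e1 : (g * (h : G))⁻¹ * u * (g * h) = (h : G)⁻¹ * (g⁻¹ * u * g) * h := by group
    rw [e1]
    constructor
    · intro hne
      have hmem : g⁻¹ * u * g ∈ Subgroup.centralizer ({z} : Set G) := by
        by_contra hnm
        apply hne
        apply extOne_of_not_mem
        intro hm
        apply hnm
        have h5 := Subgroup.mul_mem _ (Subgroup.mul_mem _ h.2 hm) (Subgroup.inv_mem _ h.2)
        have e2 : (h : G) * ((h : G)⁻¹ * (g⁻¹ * u * g) * h) * (h : G)⁻¹ = g⁻¹ * u * g := by group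
        rwa [e2] at h5
      refine ⟨hmem, fun hK' => hne ?_⟩
      rw [extOne_conj _ hmem h.2, extOne_of_mem _ hmem]
      exact (hϕ _).2 hK'
    · rintro ⟨hmem, hnK⟩
      rw [extOne_conj _ hmem h.2, extOne_of_mem _ hmem]
      exact fun h1 => hnK ((hϕ _).1 h1)
  have hinv : ∀ m ∈ E ⊓ Subgroup.centralizer ({u} : Set G),
      ∀ q ∈ {q : G ⧸ Subgroup.centralizer ({z} : Set G) |
        extOne (idxTwoHom (K.subgroupOf (Subgroup.centralizer ({z} : Set G))) hKi)
          (q.out⁻¹ * u * q.out) ≠ 1},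
      (m • q : G ⧸ Subgroup.centralizer ({z} : Set G)) ∈
        {q : G ⧸ Subgroup.centralizer ({z} : Set G) |
          extOne (idxTwoHom (K.subgroupOf (Subgroup.centralizer ({z} : Set G))) hKi)
            (q.out⁻¹ * u * q.out) ≠ 1} := by
    intro m hm q hq
    obtain ⟨g, rfl⟩ := QuotientGroup.mk_surjective q
    have hmu : m * u = u * m := Subgroup.mem_centralizer_singleton_iff.1 hm.2
    have e1 : (m * g)⁻¹ * u * (m * g) = g⁻¹ * u * g := by
      calc (m * g)⁻¹ * u * (m * g) = g⁻¹ * (m⁻¹ * (u * m)) * g := by group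
        _ = g⁻¹ * (m⁻¹ * (m * u)) * g := by rw [hmu]
        _ = g⁻¹ * u * g := by group
    show ((m * g : G) : G ⧸ Subgroup.centralizer ({z} : Set G)) ∈ _
    rw [hN, e1]
    exact (hN g).1 hq
  have hq₀ : ((1 : G) : G ⧸ Subgroup.centralizer ({z} : Set G)) ∈
      {q : G ⧸ Subgroup.centralizer ({z} : Set G) |
        extOne (idxTwoHom (K.subgroupOf (Subgroup.centralizer ({z} : Set G))) hKi)
          (q.out⁻¹ * u * q.out) ≠ 1} := by
    rw [hN]
    have e1 : (1 : G)⁻¹ * u * 1 = u := by group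
    rw [e1]
    exact ⟨hEH huE, huK⟩
  have hfix : ∀ m ∈ E ⊓ Subgroup.centralizer ({u} : Set G),
      (m • ((1 : G) : G ⧸ Subgroup.centralizer ({z} : Set G)) :
        G ⧸ Subgroup.centralizer ({z} : Set G)) = ((1 : G) : G ⧸ Subgroup.centralizer ({z} : Set G)) := by
    intro m hm
    show ((m * 1 : G) : G ⧸ Subgroup.centralizer ({z} : Set G)) = _
    rw [QuotientGroup.eq]
    have e1 : (m * 1)⁻¹ * 1 = m⁻¹ := by group
    rw [e1]
    exact Subgroup.inv_mem _ (hEH hm.1)
  obtain ⟨q, hqN, hqne, hqfix⟩ := exists_fixed_ne_of_even _ hM2 _ hinv heven _ hq₀ hfix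
  obtain ⟨g, rfl⟩ := QuotientGroup.mk_surjective q
  have hgH : g ∉ Subgroup.centralizer ({z} : Set G) := by
    intro hg
    apply hqne
    rw [QuotientGroup.eq]
    have e1 : g⁻¹ * 1 = g⁻¹ := by group
    rw [e1]
    exact Subgroup.inv_mem _ hg
  have hgM : ∀ m ∈ E ⊓ Subgroup.centralizer ({u} : Set G),
      g⁻¹ * m * g ∈ Subgroup.centralizer ({z} : Set G) := by
    intro m hm
    have h1 : ((m * g : G) : G ⧸ Subgroup.centralizer ({z} : Set G)) = (g : G ⧸ _) := hqfix m hm
    rw [QuotientGroup.eq] at h1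
    have h2 := Subgroup.inv_mem _ h1
    have e1 : ((m * g)⁻¹ * g)⁻¹ = g⁻¹ * m * g := by group
    rwa [e1] at h2
  have hwM : ∀ m ∈ E ⊓ Subgroup.centralizer ({u} : Set G),
      (g * z * g⁻¹) * m = m * (g * z * g⁻¹) := by
    intro m hm
    have h1 : g⁻¹ * m * g * z = z * (g⁻¹ * m * g) :=
      Subgroup.mem_centralizer_singleton_iff.1 (hgM m hm)
    calc g * z * g⁻¹ * m = g * (z * (g⁻¹ * m * g)) * g⁻¹ := by group
      _ = g * (g⁻¹ * m * g * z) * g⁻¹ := by rw [h1]
      _ = m * (g * z * g⁻¹) := by group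
  have hwH : g * z * g⁻¹ ∈ Subgroup.centralizer ({z} : Set G) :=
    Subgroup.mem_centralizer_singleton_iff.2 (hwM z hzM)
  have hcent' : ∀ g' : G, (∀ e ∈ E, g' * e = e * g') → g' ∈ E := fun g' hg' =>
    hcent (Subgroup.mem_centralizer_iff.2 (fun e he => (hg' e he).symm))
  have hv := (hN g).1 hqN
  rcases hX.cent_mem huE huu he₀ h0 hcent' (hnormE _ hwH) hwM with h | h | h | h
  · apply hX.z1
    have e1 : z = g⁻¹ * (g * z * g⁻¹) * g := by group
    rw [e1, h]; group
  · apply hgH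
    apply Subgroup.mem_centralizer_singleton_iff.2
    calc g * z = (g * z * g⁻¹) * g := by group
      _ = z * g := by rw [h]
  · apply hv.2
    have e1 : g⁻¹ * u * g = z := by rw [← h]; group
    rw [e1]; exact hzK
  · apply hv.2
    have h1 : g⁻¹ * u * g = z * (g⁻¹ * z * g)⁻¹ := by
      have h2 : g⁻¹ * (g * z * g⁻¹) * g = g⁻¹ * (u * z) * g := by rw [h]
      have e1 : g⁻¹ * (g * z * g⁻¹) * g = z := by group
      have e2 : g⁻¹ * (u * z) * g = (g⁻¹ * u * g) * (g⁻¹ * z * g) := by group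
      rw [e1, e2] at h2
      exact eq_mul_inv_of_mul_eq h2.symm
    have h3 : g⁻¹ * z * g ∈ K := by
      apply hKC (g⁻¹ * a * g) (hgM a haM) (g⁻¹ * b * g) (hgM b hbM) (g⁻¹ * z * g) (hgM z hzM)
      calc g⁻¹ * a * g * (g⁻¹ * b * g) = g⁻¹ * (a * b) * g := by group
        _ = g⁻¹ * (z * (b * a)) * g := by rw [habz]
        _ = _ := by group
    rw [h1]
    exact K.mul_mem hzK (K.inv_mem h3)

end main

end Cfsg.Agent.Helper55
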