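import Cfsg.Agent.Helper63.N14Defs

set_option autoImplicit false

namespace Cfsg.Agent.Helper55.N14

open Cfsg.Agent.Helper63.N14

/-- D2. The centralizer `N₁` of `A / K` in `N_{S₂ S_q}(K)` (`hcomm` is D2a, `h2grp` is D2b). -/
theorem n1_group {S : Type*} [Group S] [Finite S] (A : Subgroup S) (hAN : A.Normal)
    (S₂ Sq : Subgroup S) (K : Subgroup S) (hKA : K ≤ A)
    (hKq : ∀ x ∈ Sq, ∀ k ∈ K, x * k * x⁻¹ ∈ K)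
    (hcomm : ∀ x t : S, (∀ k ∈ K, x * k * x⁻¹ ∈ K) → (∀ k ∈ K, t * k * t⁻¹ ∈ K) →
      ∀ a ∈ A, (x * t * x⁻¹ * t⁻¹) * a * (x * t * x⁻¹ * t⁻¹)⁻¹ * a⁻¹ ∈ K)
    (h2grp : ∀ N₁ : Subgroup S, N₁ ≤ S₂ ⊔ Sq → (∀ n ∈ N₁, ∀ a ∈ A, n * a * n⁻¹ * a⁻¹ ∈ K) →
      IsPGroup 2 N₁) :
    ∃ N₁ : Subgroup S, IsPGroup 2 N₁ ∧
      (∀ n ∈ N₁, (∀ k ∈ K, n * k * n⁻¹ ∈ K) ∧ ∀ a ∈ A, n * a * n⁻¹ * a⁻¹ ∈ K) ∧
      (∀ x ∈ Sq, ∀ n ∈ N₁, x * n * x⁻¹ ∈ N₁) ∧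
      (∀ t ∈ S₂, (∀ k ∈ K, t * k * t⁻¹ ∈ K) → ∀ n ∈ N₁, t * n * t⁻¹ ∈ N₁) ∧
      (∀ x ∈ Sq, ∀ t ∈ S₂, (∀ k ∈ K, t * k * t⁻¹ ∈ K) → x * t * x⁻¹ * t⁻¹ ∈ N₁) := by
  have hnI : ∀ y : S, (∀ k ∈ K, y * k * y⁻¹ ∈ K) → ∀ k ∈ K, y⁻¹ * k * y⁻¹⁻¹ ∈ K := by
    intro y hy k hk
    rw [inv_inv]
    exact conj_inv_mem K y hy k hk
  have hnM : ∀ y z : S, (∀ k ∈ K, y * k * y⁻¹ ∈ K) → (∀ k ∈ K, z * k * z⁻¹ ∈ K) →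
      ∀ k ∈ K, (y * z) * k * (y * z)⁻¹ ∈ K := by
    intro y z hy hz k hk
    have h1 : (y * z) * k * (y * z)⁻¹ = y * (z * k * z⁻¹) * y⁻¹ := by group
    rw [h1]
    exact hy _ (hz k hk)
  obtain ⟨N₁, hmem⟩ : ∃ N₁ : Subgroup S, ∀ n, n ∈ N₁ ↔
      n ∈ S₂ ⊔ Sq ∧ (∀ k ∈ K, n * k * n⁻¹ ∈ K) ∧ ∀ a ∈ A, n * a * n⁻¹ * a⁻¹ ∈ K := by
    refine ⟨{ carrier := {n | n ∈ S₂ ⊔ Sq ∧ (∀ k ∈ K, n * k * n⁻¹ ∈ K) ∧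
                ∀ a ∈ A, n * a * n⁻¹ * a⁻¹ ∈ K}
              mul_mem' := ?_
              one_mem' := ?_
              inv_mem' := ?_ }, fun n => Iff.rfl⟩
    · rintro n m ⟨hn1, hn2, hn3⟩ ⟨hm1, hm2, hm3⟩
      refine ⟨mul_mem hn1 hm1, hnM n m hn2 hm2, fun a ha => ?_⟩
      have h1 : (n * m) * a * (n * m)⁻¹ * a⁻¹ =
          (n * (m * a * m⁻¹ * a⁻¹) * n⁻¹) * (n * a * n⁻¹ * a⁻¹) := by group
      rw [h1]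
      exact K.mul_mem (hn2 _ (hm3 a ha)) (hn3 a ha)
    · refine ⟨one_mem _, fun k hk => ?_, fun a _ => ?_⟩
      · have h1 : (1 : S) * k * (1 : S)⁻¹ = k := by group
        rw [h1]
        exact hk
      · have h1 : (1 : S) * a * (1 : S)⁻¹ * a⁻¹ = 1 := by group
        rw [h1]
        exact K.one_mem
    · rintro n ⟨hn1, hn2, hn3⟩
      refine ⟨inv_mem hn1, hnI n hn2, fun a ha => ?_⟩
      have h1 : n⁻¹ * a * n⁻¹⁻¹ * a⁻¹ = n⁻¹ * (n * a * n⁻¹ * a⁻¹)⁻¹ * n⁻¹⁻¹ := by group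
      rw [h1]
      exact hnI n hn2 _ (K.inv_mem (hn3 a ha))
  have hconj : ∀ y ∈ S₂ ⊔ Sq, (∀ k ∈ K, y * k * y⁻¹ ∈ K) → ∀ n ∈ N₁, y * n * y⁻¹ ∈ N₁ := by
    intro y hy hyK n hn
    obtain ⟨hn1, hn2, hn3⟩ := (hmem n).mp hn
    refine (hmem _).mpr ⟨mul_mem (mul_mem hy hn1) (inv_mem hy), ?_, ?_⟩
    · exact hnM _ _ (hnM _ _ hyK hn2) (hnI y hyK)
    · intro a ha
      have ha' : y⁻¹ * a * y ∈ A := by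
        have h1 := hAN.conj_mem a ha y⁻¹
        rw [inv_inv] at h1
        exact h1
      have h2 : (y * n * y⁻¹) * a * (y * n * y⁻¹)⁻¹ * a⁻¹ =
          y * (n * (y⁻¹ * a * y) * n⁻¹ * (y⁻¹ * a * y)⁻¹) * y⁻¹ := by group
      rw [h2]
      exact hyK _ (hn3 _ ha')
  refine ⟨N₁, ?_, ?_, ?_, ?_, ?_⟩
  · exact h2grp N₁ (fun n hn => ((hmem n).mp hn).1) (fun n hn => ((hmem n).mp hn).2.2)
  · intro n hn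
    exact ((hmem n).mp hn).2
  · intro x hx n hn
    exact hconj x (Subgroup.mem_sup_right hx) (hKq x hx) n hn
  · intro t ht htK n hn
    exact hconj t (Subgroup.mem_sup_left ht) htK n hn
  · intro x hx t ht htK
    have hxK := hKq x hx
    refine (hmem _).mpr ⟨?_, ?_, hcomm x t hxK htK⟩
    · exact mul_mem (mul_mem (mul_mem (Subgroup.mem_sup_right hx) (Subgroup.mem_sup_left ht))
        (inv_mem (Subgroup.mem_sup_right hx))) (inv_mem (Subgroup.mem_sup_left ht))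
    · exact hnM _ _ (hnM _ _ (hnM _ _ hxK htK) (hnI x hxK)) (hnI t htK)

end Cfsg.Agent.Helper55.N14
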