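import Cfsg.Agent.Helper55.N9Defs

/-!
# S4409, piece Q2: a 2-group `N ≥ D ≅ Q₈` normalizing `D` with `C_N(D) ≤ D` has `|N : D| ≤ 2`.
-/

set_option autoImplicit false

namespace Cfsg.Agent.Helper55.N9

open Subgroup
open scoped Pointwise

set_option maxRecDepth 100000 in
theorem q8m_f1 : ∀ x w : QuaternionGroup 2, x ^ 2 ≠ 1 → w ^ 2 ≠ 1 → w * x = x * w →
    w = x ∨ w = x⁻¹ := by
  decide +kernel

set_option maxRecDepth 100000 in
theorem q8m_f2 : ∀ x y w : QuaternionGroup 2, x ^ 2 ≠ 1 → y * x ≠ x * y → w * x ≠ x * w →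
    w = y ∨ w = y * x ∨ w = y * x ^ 2 ∨ w = y * x ^ 3 := by
  decide +kernel

set_option maxRecDepth 100000 in
theorem q8m_f3 : ∀ x y d : QuaternionGroup 2, x ^ 2 ≠ 1 → y * x ≠ x * y →
    (d = 1 ∨ d = x ∨ d = x ^ 2 ∨ d = x ^ 3) ∨ (d = y ∨ d = y * x ∨ d = y * x ^ 2 ∨ d = y * x ^ 3) := by
  decide +kernel

set_option maxRecDepth 100000 in
theorem q8m_f4 : ∀ x c : QuaternionGroup 2, x ^ 2 ≠ 1 →
    (∀ d : QuaternionGroup 2, c * d = d * c) → c = 1 ∨ c = x ^ 2 := by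
  decide +kernel

set_option maxRecDepth 100000 in
theorem q8m_ex : ∀ x : QuaternionGroup 2, x ^ 2 ≠ 1 → ∃ y : QuaternionGroup 2, y * x ≠ x * y := by
  decide +kernel

set_option maxRecDepth 100000 in
theorem q8m_six : ∀ q : QuaternionGroup 2, q ^ 2 ≠ 1 →
    q = QuaternionGroup.a 1 ∨ q = (QuaternionGroup.a 1)⁻¹ ∨ q = QuaternionGroup.xa 0 ∨
    q = (QuaternionGroup.xa 0)⁻¹ ∨ q = QuaternionGroup.xa 1 ∨ q = (QuaternionGroup.xa 1)⁻¹ := by
  decide +kernel

set_option maxRecDepth 100000 in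
theorem q8m_three : (QuaternionGroup.a 1 : QuaternionGroup 2) ^ 2 ≠ 1 ∧
    (QuaternionGroup.xa 0 : QuaternionGroup 2) ^ 2 ≠ 1 ∧
    (QuaternionGroup.xa 1 : QuaternionGroup 2) ^ 2 ≠ 1 ∧
    (QuaternionGroup.a 1 : QuaternionGroup 2) * QuaternionGroup.xa 0 ≠
      QuaternionGroup.xa 0 * QuaternionGroup.a 1 ∧
    (QuaternionGroup.a 1 : QuaternionGroup 2) * QuaternionGroup.xa 1 ≠
      QuaternionGroup.xa 1 * QuaternionGroup.a 1 ∧
    (QuaternionGroup.xa 0 : QuaternionGroup 2) * QuaternionGroup.xa 1 ≠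
      QuaternionGroup.xa 1 * QuaternionGroup.xa 0 := by
  decide +kernel

variable {G : Type*} [Group G] [Finite G]

theorem zpowers_ne_of_not_comm {g h : G} (hgh : g * h ≠ h * g) :
    (zpowers g : Subgroup G) ≠ zpowers h := by
  intro heq
  have hmem : g ∈ zpowers h := heq ▸ mem_zpowers g
  obtain ⟨k, rfl⟩ := mem_zpowers_iff.mp hmem
  exact hgh ((Commute.refl h).zpow_left k).eq

/-- A 2-group normalizing `D ≅ Q₈` normalizes one of its cyclic subgroups of order 4. -/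
theorem q8_exists_inv_cyclic (D N : Subgroup G) (hN : IsPGroup 2 N)
    (e : ↥D ≃* QuaternionGroup 2) (hn : N ≤ normalizer (D : Set G)) :
    ∃ x ∈ D, x ^ 2 ≠ 1 ∧ N ≤ normalizer ((zpowers x : Subgroup G) : Set G) := by
  classical
  haveI : Fact (Nat.Prime 2) := ⟨Nat.prime_two⟩
  letI act : MulAction ↥N (Subgroup G) :=
    MulAction.compHom (Subgroup G) ((MulAut.conj : G →* MulAut G).comp N.subtype)
  have hsmul : ∀ (n : ↥N) (A : Subgroup G), n • A = MulAut.conj (n : G) • A := fun n A => rfl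
  have hconjz : ∀ (g x : G), MulAut.conj g • (zpowers x : Subgroup G) = zpowers (g * x * g⁻¹) := by
    intro g x
    show (zpowers x).map ((MulAut.conj g).toMonoidHom) = _
    rw [MonoidHom.map_zpowers]
    rfl
  let T : SubMulAction ↥N (Subgroup G) :=
    { carrier := {A | ∃ x ∈ D, x ^ 2 ≠ 1 ∧ A = zpowers x}
      smul_mem' := by
        rintro n A ⟨x, hx, hx2, rfl⟩
        refine ⟨(n : G) * x * (n : G)⁻¹, (mem_normalizer_iff.mp (hn n.2) x).mp hx, ?_, ?_⟩
        · intro h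
          apply hx2
          have h2 : ((n : G) * x * (n : G)⁻¹) ^ 2 = (n : G) * x ^ 2 * (n : G)⁻¹ := by
            rw [conj_pow]
          rw [h2] at h
          have h3 : x ^ 2 = (n : G)⁻¹ * ((n : G) * x ^ 2 * (n : G)⁻¹) * (n : G) := by group
          rw [h3, h]; group
        · rw [hsmul, hconjz] }
  -- the three cyclic subgroups
  set g₁ : G := ((e.symm (QuaternionGroup.a 1) : ↥D) : G) with hg₁
  set g₂ : G := ((e.symm (QuaternionGroup.xa 0) : ↥D) : G) with hg₂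
  set g₃ : G := ((e.symm (QuaternionGroup.xa 1) : ↥D) : G) with hg₃
  obtain ⟨s1, s2, s3, c12, c13, c23⟩ := q8m_three
  have tr_ne : ∀ q : QuaternionGroup 2, q ^ 2 ≠ 1 → ((e.symm q : ↥D) : G) ^ 2 ≠ 1 := by
    intro q hq h
    apply hq
    have : (e.symm q) ^ 2 = 1 := Subtype.ext (by simpa using h)
    have h2 := congrArg e this
    simpa using h2
  have tr_nc : ∀ q r : QuaternionGroup 2, q * r ≠ r * q →
      ((e.symm q : ↥D) : G) * ((e.symm r : ↥D) : G) ≠ ((e.symm r : ↥D) : G) * ((e.symm q : ↥D) : G) := by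
    intro q r hqr h
    apply hqr
    have : e.symm q * e.symm r = e.symm r * e.symm q := Subtype.ext (by simpa using h)
    have h2 := congrArg e this
    simpa using h2
  have hTset : (T : Set (Subgroup G)) = {zpowers g₁, zpowers g₂, zpowers g₃} := by
    ext A
    constructor
    · rintro ⟨x, hx, hx2, rfl⟩
      have hq : (e ⟨x, hx⟩) ^ 2 ≠ 1 := by
        intro h
        apply hx2
        have h2 : (⟨x, hx⟩ : ↥D) ^ 2 = 1 := by
          apply e.injective
          rw [map_pow, map_one]; exact h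
        exact congrArg Subtype.val h2
      have hxe : x = ((e.symm (e ⟨x, hx⟩) : ↥D) : G) := by simp
      rcases q8m_six _ hq with h | h | h | h | h | h
      · left; rw [hxe, h]
      · left; rw [hxe, h, map_inv, Subgroup.coe_inv, zpowers_inv]
      · right; left; rw [hxe, h]
      · right; left; rw [hxe, h, map_inv, Subgroup.coe_inv, zpowers_inv]
      · right; right; rw [hxe, h]; rfl
      · right; right; rw [hxe, h, map_inv, Subgroup.coe_inv, zpowers_inv]; rfl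
    · rintro (rfl | rfl | rfl)
      · exact ⟨g₁, (e.symm _).2, tr_ne _ s1, rfl⟩
      · exact ⟨g₂, (e.symm _).2, tr_ne _ s2, rfl⟩
      · exact ⟨g₃, (e.symm _).2, tr_ne _ s3, rfl⟩
  have hcard : Nat.card T = 3 := by
    have h1 : Nat.card T = (T : Set (Subgroup G)).ncard := Nat.card_coe_set_eq _
    rw [h1, Set.ncard_eq_three]
    exact ⟨_, _, _, zpowers_ne_of_not_comm (tr_nc _ _ c12), zpowers_ne_of_not_comm (tr_nc _ _ c13),
      zpowers_ne_of_not_comm (tr_nc _ _ c23), hTset⟩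
  obtain ⟨⟨A, x, hx, hx2, rfl⟩, hfix⟩ :=
    hN.nonempty_fixed_point_of_prime_not_dvd_card T (by rw [hcard]; norm_num)
  refine ⟨x, hx, hx2, ?_⟩
  intro n hnN
  have h1 := hfix ⟨n, hnN⟩
  have h2 : (⟨n, hnN⟩ : ↥N) • (zpowers x : Subgroup G) = zpowers x := congrArg Subtype.val h1
  rw [hsmul] at h2
  rw [mem_normalizer_iff]
  intro h
  have h3 : MulAut.conj n • h ∈ MulAut.conj n • (zpowers x : Subgroup G) ↔ h ∈ zpowers x :=
    Subgroup.smul_mem_pointwise_smul_iff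
  rw [h2] at h3
  exact h3.symm

-- Q2
theorem n9_autQ8 (D N : Subgroup G) (hN : IsPGroup 2 N) (hD : IsQ8 D) (hDN : D ≤ N)
    (hn : N ≤ normalizer (D : Set G)) (hc : N ⊓ centralizer (D : Set G) ≤ D) :
    D.relIndex N ≤ 2 := by
  classical
  obtain ⟨e⟩ := hD
  obtain ⟨x, hx, hx2, hxn⟩ := q8_exists_inv_cyclic D N hN e hn
  have key : ∀ u v : ↥D, e u = e v → (u : G) = v := fun u v h => congrArg Subtype.val (e.injective h)
  have key2 : ∀ u v : ↥D, (u : G) = v → e u = e v := fun u v h => congrArg e (Subtype.ext h)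
  have hq : (e ⟨x, hx⟩) ^ 2 ≠ 1 := by
    intro h
    apply hx2
    exact key (⟨x, hx⟩ ^ 2) 1 (by rw [map_pow, map_one]; exact h)
  obtain ⟨q, hq'⟩ := q8m_ex _ hq
  obtain ⟨y', rfl⟩ := e.surjective q
  obtain ⟨y, hyD⟩ := y'
  have hyx : y * x ≠ x * y := by
    intro h
    apply hq'
    have := key2 (⟨y, hyD⟩ * ⟨x, hx⟩) (⟨x, hx⟩ * ⟨y, hyD⟩) h
    rwa [map_mul, map_mul] at this
  have F1 : ∀ w ∈ D, w ^ 2 ≠ 1 → w * x = x * w → w = x ∨ w = x⁻¹ := by
    intro w hw hw2 hwx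
    have h1 : (e ⟨w, hw⟩) ^ 2 ≠ 1 := by
      intro h
      apply hw2
      exact key (⟨w, hw⟩ ^ 2) 1 (by rw [map_pow, map_one]; exact h)
    have h2 : e ⟨w, hw⟩ * e ⟨x, hx⟩ = e ⟨x, hx⟩ * e ⟨w, hw⟩ := by
      have := key2 (⟨w, hw⟩ * ⟨x, hx⟩) (⟨x, hx⟩ * ⟨w, hw⟩) hwx
      rwa [map_mul, map_mul] at this
    rcases q8m_f1 _ _ hq h1 h2 with h | h
    · left; exact key ⟨w, hw⟩ ⟨x, hx⟩ h
    · right; exact key ⟨w, hw⟩ (⟨x, hx⟩⁻¹) (by rw [map_inv]; exact h)
  have F2 : ∀ w ∈ D, w * x ≠ x * w → w = y ∨ w = y * x ∨ w = y * x ^ 2 ∨ w = y * x ^ 3 := by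
    intro w hw hwx
    have h2 : e ⟨w, hw⟩ * e ⟨x, hx⟩ ≠ e ⟨x, hx⟩ * e ⟨w, hw⟩ := by
      intro h
      apply hwx
      exact key (⟨w, hw⟩ * ⟨x, hx⟩) (⟨x, hx⟩ * ⟨w, hw⟩) (by rw [map_mul, map_mul]; exact h)
    rcases q8m_f2 _ _ _ hq hq' h2 with h | h | h | h
    · left; exact key ⟨w, hw⟩ ⟨y, hyD⟩ h
    · right; left; exact key ⟨w, hw⟩ (⟨y, hyD⟩ * ⟨x, hx⟩) (by rw [map_mul]; exact h)
    · right; right; left
      exact key ⟨w, hw⟩ (⟨y, hyD⟩ * ⟨x, hx⟩ ^ 2) (by rw [map_mul, map_pow]; exact h)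
    · right; right; right
      exact key ⟨w, hw⟩ (⟨y, hyD⟩ * ⟨x, hx⟩ ^ 3) (by rw [map_mul, map_pow]; exact h)
  have F3 : ∀ d ∈ D, (d = 1 ∨ d = x ∨ d = x ^ 2 ∨ d = x ^ 3) ∨
      (d = y ∨ d = y * x ∨ d = y * x ^ 2 ∨ d = y * x ^ 3) := by
    intro d hd
    rcases q8m_f3 _ _ (e ⟨d, hd⟩) hq hq' with (h | h | h | h) | (h | h | h | h)
    · left; left; exact key ⟨d, hd⟩ 1 (by rw [map_one]; exact h)
    · left; right; left; exact key ⟨d, hd⟩ ⟨x, hx⟩ h
    · left; right; right; left; exact key ⟨d, hd⟩ (⟨x, hx⟩ ^ 2) (by rw [map_pow]; exact h)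
    · left; right; right; right; exact key ⟨d, hd⟩ (⟨x, hx⟩ ^ 3) (by rw [map_pow]; exact h)
    · right; left; exact key ⟨d, hd⟩ ⟨y, hyD⟩ h
    · right; right; left; exact key ⟨d, hd⟩ (⟨y, hyD⟩ * ⟨x, hx⟩) (by rw [map_mul]; exact h)
    · right; right; right; left
      exact key ⟨d, hd⟩ (⟨y, hyD⟩ * ⟨x, hx⟩ ^ 2) (by rw [map_mul, map_pow]; exact h)
    · right; right; right; right
      exact key ⟨d, hd⟩ (⟨y, hyD⟩ * ⟨x, hx⟩ ^ 3) (by rw [map_mul, map_pow]; exact h)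
  have F4 : ∀ c ∈ D, (∀ d ∈ D, c * d = d * c) → c = 1 ∨ c = x ^ 2 := by
    intro c hcD hcc
    have h1 : ∀ d : QuaternionGroup 2, e ⟨c, hcD⟩ * d = d * e ⟨c, hcD⟩ := by
      intro d
      obtain ⟨d', rfl⟩ := e.surjective d
      have := key2 (⟨c, hcD⟩ * d') (d' * ⟨c, hcD⟩) (hcc d' d'.2)
      rwa [map_mul, map_mul] at this
    rcases q8m_f4 _ _ hq h1 with h | h
    · left; exact key ⟨c, hcD⟩ 1 (by rw [map_one]; exact h)
    · right; exact key ⟨c, hcD⟩ (⟨x, hx⟩ ^ 2) (by rw [map_pow]; exact h)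
  -- conjugates of `x` by elements of `N`
  have hNx : ∀ n ∈ N, n * x * n⁻¹ = x ∨ n * x * n⁻¹ = x⁻¹ := by
    intro n hnN
    have h1 : n * x * n⁻¹ ∈ zpowers x := (mem_normalizer_iff.mp (hxn hnN) x).mp (mem_zpowers x)
    have h2 : n * x * n⁻¹ ∈ D := (mem_normalizer_iff.mp (hn hnN) x).mp hx
    have h3 : (n * x * n⁻¹) ^ 2 ≠ 1 := by
      intro h
      apply hx2
      rw [conj_pow] at h
      have h3 : x ^ 2 = n⁻¹ * (n * x ^ 2 * n⁻¹) * n := by group
      rw [h3, h]; group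
    obtain ⟨k, hk⟩ := mem_zpowers_iff.mp h1
    have h4 : n * x * n⁻¹ * x = x * (n * x * n⁻¹) := by
      rw [← hk]
      exact ((Commute.refl x).zpow_left k).eq
    exact F1 _ h2 h3 h4
  have hNy : ∀ n ∈ N, n * y * n⁻¹ = y ∨ n * y * n⁻¹ = y * x ∨ n * y * n⁻¹ = y * x ^ 2 ∨
      n * y * n⁻¹ = y * x ^ 3 := by
    intro n hnN
    have h2 : n * y * n⁻¹ ∈ D := (mem_normalizer_iff.mp (hn hnN) y).mp hyD
    apply F2 _ h2
    intro h
    apply hyx
    have h5 : n⁻¹ * x * n = x ∨ n⁻¹ * x * n = x⁻¹ := by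
      have := hNx n⁻¹ (N.inv_mem hnN)
      rwa [inv_inv] at this
    have h6 : y * (n⁻¹ * x * n) = (n⁻¹ * x * n) * y := by
      have e1 : y * (n⁻¹ * x * n) = n⁻¹ * ((n * y * n⁻¹) * x) * n := by group
      have e2 : (n⁻¹ * x * n) * y = n⁻¹ * (x * (n * y * n⁻¹)) * n := by group
      rw [e1, e2, h]
    rcases h5 with h5 | h5
    · rw [h5] at h6; exact h6
    · rw [h5] at h6
      have e3 : y * x = x * (x⁻¹ * y) * x := by group
      rw [e3, ← h6]; group
  have hcardD : Nat.card D = 8 := by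
    rw [Nat.card_congr e.toEquiv, Nat.card_eq_fintype_card, QuaternionGroup.card]
  haveI : Fintype G := Fintype.ofFinite G
  let f : G → G × G := fun n => (n * x * n⁻¹, n * y * n⁻¹)
  let B : Finset (G × G) := ({x, x⁻¹} : Finset G) ×ˢ ({y, y * x, y * x ^ 2, y * x ^ 3} : Finset G)
  let s : Finset G := Finset.univ.filter (fun n => n ∈ N)
  have hs : Nat.card N = s.card := by
    rw [Nat.card_eq_fintype_card, Fintype.card_subtype]
  have hmaps : ∀ n ∈ s, f n ∈ B := by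
    intro n hns
    have hnN : n ∈ N := (Finset.mem_filter.mp hns).2
    simp only [f, B, Finset.mem_product, Finset.mem_insert, Finset.mem_singleton]
    exact ⟨hNx n hnN, hNy n hnN⟩
  have hfib : ∀ b ∈ B, (s.filter (fun n => f n = b)).card ≤ 2 := by
    intro b _
    by_cases hemp : s.filter (fun n => f n = b) = ∅
    · rw [hemp]; simp
    obtain ⟨n₀, hn₀⟩ := Finset.nonempty_iff_ne_empty.mpr hemp
    have hn₀N : n₀ ∈ N := (Finset.mem_filter.mp (Finset.mem_filter.mp hn₀).1).2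
    have hn₀b : f n₀ = b := (Finset.mem_filter.mp hn₀).2
    have hsub : s.filter (fun n => f n = b) ⊆ {n₀, n₀ * x ^ 2} := by
      intro n hnf
      have hnN : n ∈ N := (Finset.mem_filter.mp (Finset.mem_filter.mp hnf).1).2
      have hnb : f n = f n₀ := ((Finset.mem_filter.mp hnf).2).trans hn₀b.symm
      have hx' : n * x * n⁻¹ = n₀ * x * n₀⁻¹ := congrArg Prod.fst hnb
      have hy' : n * y * n⁻¹ = n₀ * y * n₀⁻¹ := congrArg Prod.snd hnb
      set c := n₀⁻¹ * n with hcdef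
      have hcx : c * x = x * c := by
        have e1 : c * x = n₀⁻¹ * (n * x * n⁻¹) * n := by rw [hcdef]; group
        rw [e1, hx', hcdef]; group
      have hcy : c * y = y * c := by
        have e1 : c * y = n₀⁻¹ * (n * y * n⁻¹) * n := by rw [hcdef]; group
        rw [e1, hy', hcdef]; group
      have hcx2 : c * x ^ 2 = x ^ 2 * c := by
        rw [pow_two, ← mul_assoc, hcx, mul_assoc, hcx, mul_assoc]
      have hcx3 : c * x ^ 3 = x ^ 3 * c := by
        rw [pow_succ, ← mul_assoc, hcx2, mul_assoc, hcx, mul_assoc]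
      have hcD : ∀ d ∈ D, c * d = d * c := by
        intro d hd
        rcases F3 d hd with (h | h | h | h) | (h | h | h | h)
        · rw [h]; simp
        · rw [h]; exact hcx
        · rw [h]; exact hcx2
        · rw [h]; exact hcx3
        · rw [h]; exact hcy
        · rw [h, ← mul_assoc, hcy, mul_assoc, hcx, mul_assoc]
        · rw [h, ← mul_assoc, hcy, mul_assoc, hcx2, mul_assoc]
        · rw [h, ← mul_assoc, hcy, mul_assoc, hcx3, mul_assoc]
      have hcN : c ∈ N := N.mul_mem (N.inv_mem hn₀N) hnN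
      have hcC : c ∈ centralizer (D : Set G) := by
        rw [mem_centralizer_iff]
        intro d hd
        exact (hcD d hd).symm
      have hcDm : c ∈ D := hc ⟨hcN, hcC⟩
      have hn : n = n₀ * c := by rw [hcdef]; group
      rcases F4 c hcDm hcD with h | h
      · rw [Finset.mem_insert]; left; rw [hn, h, mul_one]
      · rw [Finset.mem_insert, Finset.mem_singleton]; right; rw [hn, h]
    exact (Finset.card_le_card hsub).trans Finset.card_le_two
  have h16 : s.card ≤ 2 * B.card := Finset.card_le_mul_card_image_of_maps_to hmaps 2 hfib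
  have hB : B.card ≤ 8 := by
    have h1 : B.card = ({x, x⁻¹} : Finset G).card * ({y, y * x, y * x ^ 2, y * x ^ 3} : Finset G).card :=
      Finset.card_product _ _
    have h2 : ({x, x⁻¹} : Finset G).card ≤ 2 := Finset.card_le_two
    have h3 : ({y, y * x, y * x ^ 2, y * x ^ 3} : Finset G).card ≤ 4 := Finset.card_le_four
    rw [h1]
    calc _ ≤ 2 * 4 := Nat.mul_le_mul h2 h3
      _ = 8 := by norm_num
  have hNcard : Nat.card N ≤ 16 := by
    rw [hs]; omega
  have hmul := relIndex_mul_relIndex (H := (⊥ : Subgroup G)) (K := D) (L := N) bot_le hDN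
  rw [relIndex_bot_left, relIndex_bot_left, hcardD] at hmul
  omega

end Cfsg.Agent.Helper55.N9
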