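import Cfsg.Agent.Helper55.N9Defs
import Cfsg.Prelude.Def_Solvable
import Cfsg.Prelude.Def_Transfer
import Cfsg.Agent.Helper10.N9C1b
import Cfsg.Agent.Helper12.N9A3
import Cfsg.Agent.Helper24.N9T4
import Cfsg.Agent.Helper39.N9C2c
import Cfsg.Agent.Helper4.N9M5a
import Cfsg.Agent.Helper42.N9C1c
import Cfsg.Agent.Helper42.N9Q1
import Cfsg.Agent.Helper47.N9C2b
import Cfsg.Agent.Helper50.N9A1
import Cfsg.Agent.Helper50.N9M5d
import Cfsg.Agent.Helper51.N9LA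
import Cfsg.Agent.Helper51.N9M1
import Cfsg.Agent.Helper51.N9T2
import Cfsg.Agent.Helper52.N9C2a
import Cfsg.Agent.Helper52.N9M4
import Cfsg.Agent.Helper53.N9C1a
import Cfsg.Agent.Helper53.N9F1b
import Cfsg.Agent.Helper55.N9Q2
import Cfsg.Agent.Helper67.N9M5b
import Cfsg.Agent.Helper72.N9F1a
import Cfsg.Agent.Helper72.N9F1c
import Cfsg.Agent.Helper72.N9IDX
import Cfsg.Agent.Helper72.N9T5
import Cfsg.Agent.Helper72.N9T6
import Cfsg.Agent.Helper77.N9R3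
import Cfsg.Agent.Helper77.N9R4
import Cfsg.Agent.Helper80.N9HP
import Cfsg.Agent.Helper80.N9NH
import Cfsg.Agent.Helper82.N9R2
import Cfsg.Agent.Helper84.N9TR2
import Cfsg.Agent.Helper87.N9C2d
import Cfsg.Agent.Helper87.N9M5c
import Cfsg.Agent.Helper9.N9Q4
import Cfsg.Agent.Helper35.CoprimeAbelian
import Cfsg.Agent.Helper24.HallHigman

set_option autoImplicit false

namespace Cfsg.Agent.Helper55.N9A

open Subgroup Cfsg.Agent.Helper55.N9

variable {G : Type*} [Group G] [Finite G]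

theorem n9_tools : Tools G :=
  ⟨Cfsg.Agent.Helper51.N9.n9_decomp, Cfsg.Agent.Helper72.N9.n9_idx, Cfsg.Agent.Helper24.N9.n9_norm_trick, Cfsg.Agent.Helper72.N9.n9_star, Cfsg.Agent.Helper72.N9.n9_comm_inv, Cfsg.Agent.Helper80.N9.n9_hyperplane, Cfsg.Agent.Helper50.N9.n9_ab8, Cfsg.Agent.Helper12.N9.n9_cent_a8,
    Cfsg.Agent.Helper42.N9.n9_autV4, Cfsg.Agent.Helper55.N9.n9_autQ8, Cfsg.Agent.Helper9.N9.n9_q8_not_sqs⟩

theorem n9_noidx2_of_comm (X K : Subgroup G) (hinv : K ≤ normalizer (X : Set G))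
    (hXK : ⁅X, K⁆ = X) : NoIdx2 K X := by
  intro M hM hidx hMK
  have hle : X ≤ M := by
    have := Cfsg.Agent.Helper72.N9.n9_idx X K M hinv hM hidx hMK
    rwa [hXK] at this
  have hMX : M = X := le_antisymm hM hle
  rw [hMX, Subgroup.relIndex_self] at hidx
  exact absurd hidx (by norm_num)

theorem n9_minfacts (K D : Subgroup G) (h : MinCfg K D) (hD : IsPGroup 2 D)
    (hK : Odd (Nat.card K)) : MinFacts K D := by
  have hc := Cfsg.Agent.Helper51.N9.n9_min_comm n9_tools K D h hD hK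
  have hni : NoIdx2 K D := n9_noidx2_of_comm D K h.inv hc
  have hM3 : ∀ E : Subgroup G, E ≤ D → E ≠ D → D ≤ normalizer (E : Set G) →
      K ≤ normalizer (E : Set G) → E ≤ centralizer (D : Set G) :=
    fun E hE hne hEn hEK => Cfsg.Agent.Helper72.N9.n9_star D K E hc hE hEn (h.min E hE hne hEK)
  exact ⟨hc, hni, hM3, fun C hC hCn hCK => Cfsg.Agent.Helper51.N9.n9_min_cent n9_tools K D h hD hK hc C hC hCn hCK,
    fun hna => Cfsg.Agent.Helper52.N9.n9_min_sq n9_tools K D h hD hK hM3 hna⟩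

theorem n9_struct (Y K : Subgroup G) (hY : IsPGroup 2 Y) (hK : Odd (Nat.card K))
    (hinv : K ≤ normalizer (Y : Set G)) (hN : NoA8 Y) (hnt : ¬ Y ≤ centralizer (K : Set G)) :
    MinCfg K Y ∧ (IsV4 Y ∨ IsQ8 Y) := by
  obtain ⟨D, hDY, hmin⟩ := Cfsg.Agent.Helper72.N9.n9_exists_min Y K hinv hnt
  have hD : IsPGroup 2 D := hY.to_le hDY
  have hND : NoA8 D := hN.mono hDY
  have mf := n9_minfacts K D hmin hD hK
  have hV : IsV4 D ∨ IsQ8 D := by
    by_cases hab : ∀ a ∈ D, ∀ b ∈ D, a * b = b * a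
    · exact Or.inl (Cfsg.Agent.Helper4.N9.n9_min_abelian K D hmin hD hK hab hND)
    · have hz := Cfsg.Agent.Helper67.N9.n9_min_center2 n9_tools K D hmin mf hD hK hab hND
      have h8 := Cfsg.Agent.Helper87.N9.n9_min_card8 n9_tools K D hmin mf hD hK hab hND hz
      exact Or.inr (Cfsg.Agent.Helper50.N9.n9_min_q8 n9_tools K D hmin mf hD hK hab h8)
  have hle := Cfsg.Agent.Helper53.N9.n9_norm_le n9_tools Y K D hY hK hinv hN hDY hmin mf hV
  have heq := Cfsg.Agent.Helper72.N9.n9_normalizer_cond D Y hY hDY hle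
  subst heq
  exact ⟨hmin, hV⟩

theorem n9_card32 (X : Subgroup G) (hX : IsPGroup 2 X) (ha8 : ¬ NoA8 X)
    (hab : ¬ ∀ a ∈ X, ∀ b ∈ X, a * b = b * a) (h16 : Nat.card X ≠ 16) : 32 ≤ Nat.card X := by
  obtain ⟨n, hn⟩ := IsPGroup.iff_card.mp hX
  unfold NoA8 at ha8
  push_neg at ha8
  obtain ⟨A, hAX, hAc, -, hA8⟩ := ha8
  have hdvd : Nat.card A ∣ Nat.card X := Subgroup.card_dvd_of_le hAX
  rw [hA8, hn] at hdvd
  have h3 : 3 ≤ n := by
    have h8 : (8 : ℕ) = 2 ^ 3 := by norm_num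
    rw [h8] at hdvd
    exact (Nat.pow_dvd_pow_iff_le_right (by norm_num)).mp hdvd
  have hn3 : n ≠ 3 := by
    rintro rfl
    apply hab
    have hAX' : A = X := Subgroup.eq_of_le_of_card_ge hAX (by rw [hA8, hn]; norm_num)
    subst hAX'
    intro a ha b hb
    have := mul_comm' (⟨a, ha⟩ : A) ⟨b, hb⟩
    exact congrArg Subtype.val this
  have hn4 : n ≠ 4 := by
    rintro rfl
    apply h16
    rw [hn]; norm_num
  have h5 : 5 ≤ n := by omega
  rw [hn]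
  calc 32 = 2 ^ 5 := by norm_num
    _ ≤ 2 ^ n := Nat.pow_le_pow_right (by norm_num) h5

theorem n9_core (X K : Subgroup G) (c : Core X K) : Alt X := by
  by_cases hcent : X ≤ centralizer (K : Set G)
  · exact Or.inl (Cfsg.Agent.Helper42.N9.n9_case_triv X K c hcent)
  obtain ⟨h1, h2, h3⟩ := Cfsg.Agent.Helper72.N9.n9_comm_inv X K c.inv
  have hcop : (Nat.card K).Coprime (Nat.card X) := by
    obtain ⟨n, hn⟩ := IsPGroup.iff_card.mp c.pX
    rw [hn]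
    exact Nat.Coprime.pow_right n (Nat.coprime_two_right.mpr c.odd)
  have hsolv : Group.IsSolvable K ∨ Group.IsSolvable X := by
    right
    haveI := c.pX.isNilpotent
    infer_instance
  have hcc : ⁅⁅X, K⁆, K⁆ = ⁅X, K⁆ :=
    Cfsg.Agent.Helper35.commutator_commutator_eq_of_coprime c.inv hcop hsolv
  have hX1nt : ¬ ⁅X, K⁆ ≤ centralizer (K : Set G) := by
    intro hle
    have hbot : ⁅⁅X, K⁆, K⁆ = ⊥ := by
      rw [Subgroup.commutator_eq_bot_iff_le_centralizer]; exact hle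
    rw [hbot] at hcc
    apply hcent
    rw [← Subgroup.commutator_eq_bot_iff_le_centralizer]; exact hcc.symm
  have hs : ∀ Y : Subgroup G, Y ≤ X → Y ≠ X → K ≤ normalizer (Y : Set G) →
      ¬ Y ≤ centralizer (K : Set G) → MinCfg K Y ∧ (IsV4 Y ∨ IsQ8 Y) :=
    fun Y hY hne hYK hnt =>
      n9_struct Y K (c.pX.to_le hY) c.odd hYK (c.hyp Y hY hne hYK) hnt
  have hmf : ∀ Y : Subgroup G, Y ≤ X → MinCfg K Y → MinFacts K Y :=
    fun Y hY hm => n9_minfacts K Y hm (c.pX.to_le hY) c.odd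
  by_cases hXK : ⁅X, K⁆ = X
  · by_cases hab : ∀ a ∈ X, ∀ b ∈ X, a * b = b * a
    · exact Or.inl hab
    have hni : NoIdx2 K X := n9_noidx2_of_comm X K c.inv hXK
    have hsq := Cfsg.Agent.Helper52.N9.n9_case2_sq n9_tools X K c hXK hni hs
    have hfrat := Cfsg.Agent.Helper47.N9.n9_case2_frat n9_tools X K c hXK hni hab hs hmf hsq
    obtain ⟨hz, hcomm⟩ := Cfsg.Agent.Helper39.N9.n9_case2_center n9_tools X K c hXK hni hab hsq hfrat
      (fun W hW hidx hWK hcomm => Cfsg.Agent.Helper80.N9.n9_no_hyper n9_tools X K c hXK hni hsq hfrat W hW hidx hWK hcomm)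
    have hsd : SpecialData X := ⟨hsq, hcomm, hfrat⟩
    rcases hz with hz | hz
    · right; left
      exact ⟨hsd, hz, n9_card32 X c.pX c.a8 hab (Cfsg.Agent.Helper87.N9.n9_ord16 X c.pX hsd hz)⟩
    · right; right; right
      exact ⟨hsd, hz⟩
  · have hNo : NoA8 ⁅X, K⁆ := c.hyp _ h1 hXK h3
    obtain ⟨hmin, hV⟩ := n9_struct ⁅X, K⁆ K (c.pX.to_le h1) c.odd h3 hNo hX1nt
    have mf := hmf _ h1 hmin
    rcases hV with hV | hQ
    · exact Or.inl (Cfsg.Agent.Helper53.N9.n9_case1_v4 n9_tools X K c hmin mf hV)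
    · obtain ⟨hidx, hsup⟩ := Cfsg.Agent.Helper10.N9.n9_case1_q8 n9_tools X K c hmin mf hQ hXK
      exact Or.inr (Or.inr (Or.inl ⟨⁅X, K⁆, h1, hidx, hQ, hsup⟩))

theorem n9_hh {S : Type*} [Group S] [Finite S] [Group.IsSolvable S]
    (hO : Cfsg.pPrimeCore 2 S = ⊥) :
    centralizer ((Cfsg.pCore 2 S : Subgroup S) : Set S) ≤ Cfsg.pCore 2 S := by
  haveI : Fact (Nat.Prime 2) := ⟨Nat.prime_two⟩
  apply Cfsg.Agent.Helper24.centralizer_pCore_le 2
  intro D hDn hcop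
  have hle : D ≤ Cfsg.pPrimeCore 2 S := le_sSup ⟨hDn, hcop⟩
  rw [hO] at hle
  exact le_bot_iff.mp hle

theorem n9_main {S : Type*} [Group S] [Finite S]
    [Group.IsSolvable S] (hO : Cfsg.pPrimeCore 2 S = ⊥)
    (h8 : ∃ A : Subgroup S, IsMulCommutative ↥A ∧ ¬ IsCyclic ↥A ∧ Nat.card ↥A = 8)
    (hmin : ∀ R : Subgroup S, R ≠ ⊤ → (∃ k : ℕ, R.index = 2 ^ k) →
      ¬ ∃ A : Subgroup S, A ≤ R ∧ IsMulCommutative ↥A ∧ ¬ IsCyclic ↥A ∧ Nat.card ↥A = 8)
    (X : Sylow 2 S) :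
    (X : Subgroup S).Normal ∧
      (IsMulCommutative ↥X ∨
        (Cfsg.IsExtraspecial 2 ↥X ∧ 32 ≤ Nat.card ↥X) ∨
        (∃ (X₀ : Subgroup S) (k : ℕ), X₀ ≤ (X : Subgroup S) ∧ X₀.relIndex (X : Subgroup S) = 2 ∧
          Nonempty (↥X₀ ≃* QuaternionGroup (2 ^ (k + 1))) ∧ X₀ ⊔ ((X : Subgroup S) ⊓ Subgroup.centralizer (X₀ : Set S)) = (X : Subgroup S)) ∨
        (Cfsg.IsSpecial 2 ↥X ∧ Nat.card ↥(Subgroup.center ↥X) = 4)) := by
  have hhh := n9_hh hO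
  have hXn := Cfsg.Agent.Helper77.N9.n9_sylow_normal h8 hmin hhh
    (fun Y K hY hK hinv hN hnt => n9_struct Y K hY hK hinv hN hnt)
    (fun Q hQn hQ hc A hab hnc h8 => Cfsg.Agent.Helper82.N9.n9_smallQ n9_tools Q hQn hQ hc A hab hnc h8) X
  refine ⟨hXn, ?_⟩
  obtain ⟨K, c⟩ := Cfsg.Agent.Helper77.N9.n9_core_setting h8 hmin hhh X hXn
  have halt := n9_core (X : Subgroup S) K c
  rcases halt with h | ⟨hsd, hz, h32⟩ | ⟨X₀, hX₀, hidx, hQ, hsup⟩ | ⟨hsd, hz⟩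
  · left
    exact ⟨⟨fun a b => Subtype.ext (h a a.2 b b.2)⟩⟩
  · right; left
    obtain ⟨hsp, hcard⟩ := Cfsg.Agent.Helper84.N9.n9_tr_special n9_tools (X : Subgroup S) X.isPGroup' hsd
    exact ⟨⟨hsp, hcard.trans hz⟩, h32⟩
  · right; right; left
    exact ⟨X₀, 0, hX₀, hidx, hQ, hsup⟩
  · right; right; right
    obtain ⟨hsp, hcard⟩ := Cfsg.Agent.Helper84.N9.n9_tr_special n9_tools (X : Subgroup S) X.isPGroup' hsd
    exact ⟨hsp, hcard.trans hz⟩

end Cfsg.Agent.Helper55.N9A
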