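import Mathlib
import Cfsg.Agent.Helper9.OrdTools

set_option autoImplicit false

/-! PIECE F1 of CALL S0977 (helper52): a Sylow 3-subgroup of a simple group of order 4320 fixes
exactly one of the 10 cosets of a subgroup of index 10. -/

namespace Cfsg.Agent.Helper55

variable {G : Type*} [Group G] [Finite G]

theorem o4320_sylow3_fix_one [IsSimpleGroup G] (hG : Nat.card G = 4320)
    (M : Subgroup G) (hM : M.index = 10) (Q : Sylow 3 G) :
    ∃ a : G ⧸ M, (∀ q ∈ (Q : Subgroup G), q • a = a) ∧
      ∀ x : G ⧸ M, (∀ q ∈ (Q : Subgroup G), q • x = x) → x = a := by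
  classical
  haveI : Fact (Nat.Prime 3) := ⟨by norm_num⟩
  have hQcard : Nat.card (Q : Subgroup G) = 27 := by
    have := Cfsg.Agent.Helper9.OrdTools.sylow_card (p := 3) 3 160 (by rw [hG]; norm_num) (by norm_num) Q
    simpa using this
  have hMtop : M ≠ ⊤ := by
    intro h
    rw [h, Subgroup.index_top] at hM
    omega
  have hinj := Cfsg.Agent.Helper9.OrdTools.toPermHom_injective M hMtop
  have hcard10 : Nat.card (G ⧸ M) = 10 := hM
  have hmod := Q.2.card_modEq_card_fixedPoints (G ⧸ M)
  obtain ⟨F, hF⟩ : ∃ F : Set (G ⧸ M), F = MulAction.fixedPoints (↥(Q : Subgroup G)) (G ⧸ M) :=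
    ⟨_, rfl⟩
  rw [← hF] at hmod
  have hFmem : ∀ x : G ⧸ M, x ∈ F ↔ ∀ q : ↥(Q : Subgroup G), q • x = x := by
    intro x
    rw [hF]
    exact MulAction.mem_fixedPoints
  have hsum : F.ncard + Fᶜ.ncard = 10 := by
    rw [Set.ncard_add_ncard_compl, hcard10]
  have hlt : Nat.card F < 4 := by
    by_contra hge
    push Not at hge
    rw [Nat.card_coe_set_eq] at hge
    let S : SubMulAction ↥(Q : Subgroup G) (G ⧸ M) :=
      { carrier := Fᶜ
        smul_mem' := by
          intro c x hx hcx
          apply hx
          have h1 : c⁻¹ • (c • x) = c • x := (hFmem _).1 hcx c⁻¹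
          rw [inv_smul_smul] at h1
          rw [h1]
          exact hcx }
    have hScard : Nat.card S ≤ 6 := by
      have : Nat.card S = Fᶜ.ncard := Nat.card_coe_set_eq Fᶜ
      omega
    have hSinj : Function.Injective (MulAction.toPermHom ↥(Q : Subgroup G) S) := by
      rw [injective_iff_map_eq_one]
      intro q hq
      have hall : ∀ x : G ⧸ M, (q : G) • x = x := by
        intro x
        by_cases hx : x ∈ F
        · exact (hFmem x).1 hx q
        · have h3 := congrArg (fun σ : Equiv.Perm S => ((σ ⟨x, hx⟩ : S) : G ⧸ M)) hq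
          have h4 : q • x = x := by simpa using h3
          exact h4
      have h1 : MulAction.toPermHom G (G ⧸ M) (q : G) = 1 := by
        ext x
        simpa using hall x
      have h2 := hinj (h1.trans (map_one _).symm)
      exact Subtype.ext h2
    have hdvd : Nat.card (Q : Subgroup G) ∣ (Nat.card S).factorial := by
      have h1 : Nat.card (Q : Subgroup G) =
          Nat.card (MulAction.toPermHom ↥(Q : Subgroup G) S).range :=
        Nat.card_congr (MonoidHom.ofInjective hSinj).toEquiv
      rw [h1, ← Nat.card_perm]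
      exact Subgroup.card_subgroup_dvd_card _
    rw [hQcard] at hdvd
    have hno : ∀ k ≤ 6, ¬ 27 ∣ k.factorial := by decide
    exact hno _ hScard hdvd
  have hF1 : Nat.card F = 1 := by
    rw [hcard10] at hmod
    unfold Nat.ModEq at hmod
    omega
  obtain ⟨a, ha⟩ := Nat.card_eq_one_iff_exists.mp hF1
  refine ⟨a.1, fun q hq => (hFmem _).1 a.2 ⟨q, hq⟩, fun x hx => ?_⟩
  have hxF : x ∈ F := (hFmem x).2 (fun q => hx q.1 q.2)
  exact congrArg Subtype.val (ha ⟨x, hxF⟩)

end Cfsg.Agent.Helper55
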