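import Mathlib
import Cfsg.Agent.Helper9.OrdTools

set_option autoImplicit false

/-! PIECE J of CALL S0977 (helper52): in a simple group of order 4320 without proper subgroups
of index less than 9, no element acts as a 3-cycle on the 10 cosets of a subgroup of index 10
(Jordan). -/

namespace Cfsg.Agent.Helper55

variable {G : Type*} [Group G] [Finite G]

theorem o4320_no_three_cycle [IsSimpleGroup G] (hG : Nat.card G = 4320)
    (hidx : ∀ H : Subgroup G, H ≠ ⊤ → 9 ≤ H.index)
    (M : Subgroup G) (hM : M.index = 10) (g : G) :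
    Nat.card (MulAction.fixedBy (G ⧸ M) g) ≠ 7 := by
  classical
  intro h7
  haveI : Fintype (G ⧸ M) := Fintype.ofFinite _
  have hMtop : M ≠ ⊤ := by
    intro h
    rw [h, Subgroup.index_top] at hM
    omega
  have hinj := Cfsg.Agent.Helper9.OrdTools.toPermHom_injective M hMtop
  have hcard10 : Nat.card (G ⧸ M) = 10 := hM
  have hcardF : Fintype.card (G ⧸ M) = 10 := by
    rw [← Nat.card_eq_fintype_card]; exact hcard10
  haveI : Nontrivial (G ⧸ M) := by
    rw [← Finite.one_lt_card_iff_nontrivial, hcard10]; norm_num
  -- `M` is a maximal subgroup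
  have hmax : IsCoatom M := by
    refine ⟨hMtop, fun K hK => ?_⟩
    by_contra hKtop
    have h9 := hidx K hKtop
    have hdvd : K.index ∣ 10 := by
      rw [← hM]; exact Subgroup.index_dvd_of_le hK.le
    have hK10 : K.index = 10 := by
      have hle : K.index ≤ 10 := Nat.le_of_dvd (by norm_num) hdvd
      have h910 : K.index = 9 ∨ K.index = 10 := by omega
      rcases h910 with h | h
      · rw [h] at hdvd; omega
      · exact h
    have h1 := Subgroup.card_mul_index M
    have h2 := Subgroup.card_mul_index K
    rw [hM] at h1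
    rw [hK10] at h2
    have h3 : Nat.card K ≤ Nat.card M := by omega
    exact hK.ne (Subgroup.eq_of_le_of_card_ge hK.le h3)
  haveI hprim : MulAction.IsPreprimitive G (G ⧸ M) := by
    rw [← MulAction.isCoatom_stabilizer_iff_preprimitive G ((1 : G) : G ⧸ M),
      MulAction.stabilizer_quotient]
    exact hmax
  -- transfer to the range of the permutation representation
  obtain ⟨R, hR⟩ : ∃ R : Subgroup (Equiv.Perm (G ⧸ M)),
      R = (MulAction.toPermHom G (G ⧸ M)).range := ⟨_, rfl⟩
  let φ : G → R := fun x => ⟨MulAction.toPermHom G (G ⧸ M) x, by rw [hR]; exact ⟨x, rfl⟩⟩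
  let f : (G ⧸ M) →ₑ[φ] (G ⧸ M) := { toFun := id, map_smul' := fun _ _ => rfl }
  have hprimR : MulAction.IsPreprimitive R (G ⧸ M) :=
    MulAction.IsPreprimitive.of_surjective (f := f) Function.surjective_id
  -- the three-cycle
  have hσ : (MulAction.toPermHom G (G ⧸ M) g).support.card = 3 := by
    have hsum := Finset.card_filter_add_card_filter_not (s := (Finset.univ : Finset (G ⧸ M)))
      (fun x => g • x = x)
    have h7' : (Finset.univ.filter (fun x : G ⧸ M => g • x = x)).card = 7 := by
      rw [← Fintype.card_subtype, ← Nat.card_eq_fintype_card]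
      exact h7
    have hsupp : (MulAction.toPermHom G (G ⧸ M) g).support =
        Finset.univ.filter (fun x : G ⧸ M => ¬ g • x = x) := by
      ext x
      simp [Equiv.Perm.mem_support]
    rw [hsupp]
    rw [h7', Finset.card_univ, hcardF] at hsum
    omega
  have h3 := card_support_eq_three_iff.mp hσ
  have hle := Equiv.Perm.alternatingGroup_le_of_isPreprimitive_of_isThreeCycle_mem hprimR h3
    (by rw [hR]; exact ⟨g, rfl⟩)
  have hcardR : Nat.card R = 4320 := by
    rw [hR, ← hG]
    exact (Nat.card_congr (MonoidHom.ofInjective hinj).toEquiv).symm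
  have hA : 2 * Nat.card (alternatingGroup (G ⧸ M)) = 3628800 := by
    rw [Nat.card_eq_fintype_card, two_mul_card_alternatingGroup, Fintype.card_perm, hcardF]
    rfl
  have hcle := Subgroup.card_le_of_le hle
  omega

end Cfsg.Agent.Helper55
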