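import Mathlib
import Cfsg.Agent.Helper9.OrdTools
import Cfsg.Agent.S0985

/-! PIECE A5400 of CALL S0983 (helper82): in a simple group of order 5400 two distinct Sylow
5-subgroups meet in a subgroup of order 5. -/

set_option autoImplicit false

namespace Cfsg.Agent.Helper55

open Subgroup

variable {G : Type*} [Group G] [Finite G] [IsSimpleGroup G]

theorem o5400_a (h : Nat.card G = 5400) :
    ∃ (D : Subgroup G) (P R : Sylow 5 G), P ≠ R ∧ Nat.card D = 5 ∧
      D ≤ (P : Subgroup G) ∧ D ≤ (R : Subgroup G) := by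
  haveI : Fact (Nat.Prime 5) := ⟨by norm_num⟩
  have hS : ∀ P : Sylow 5 G, Nat.card (P : Subgroup G) = 25 := fun P => by
    have h1 := Helper9.OrdTools.sylow_card (p := 5) 2 216 (by rw [h]; norm_num) (by norm_num) P
    simpa using h1
  obtain ⟨P₀⟩ : Nonempty (Sylow 5 G) := inferInstance
  obtain ⟨hdvd, hmod, hne, hN⟩ := Helper9.OrdTools.sylow_num P₀ (by rw [hS P₀]; norm_num)
    (by rw [hS P₀, h]; norm_num)
  have hidx : (P₀ : Subgroup G).index = 216 := by
    have h1 := (P₀ : Subgroup G).card_mul_index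
    rw [hS P₀, h] at h1
    omega
  rw [hidx] at hdvd
  have hmod25 : Nat.card (Sylow 5 G) = 36 → ¬ Nat.card (Sylow 5 G) ≡ 1 [MOD 5 ^ 2] := by
    intro h36
    rw [h36]; decide
  obtain ⟨n, hn⟩ : ∃ n, n = Nat.card (Sylow 5 G) := ⟨_, rfl⟩
  rw [← hn] at hdvd hmod hne hN hmod25
  rw [h] at hN
  have hle : n ≤ 216 := Nat.le_of_dvd (by norm_num) hdvd
  have hcases : n = 6 ∨ n = 36 ∨ n = 216 := by
    interval_cases n <;> omega
  rcases hcases with rfl | rfl | rfl
  · -- n = 6
    exfalso
    have hNc : Nat.card (normalizer ((P₀ : Subgroup G) : Set G)) = 900 := by omega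
    have hNi : (normalizer ((P₀ : Subgroup G) : Set G)).index = 6 := by
      have h1 := (normalizer ((P₀ : Subgroup G) : Set G)).card_mul_index
      rw [hNc, h] at h1
      omega
    have hNtop : normalizer ((P₀ : Subgroup G) : Set G) ≠ ⊤ := by
      intro htop
      rw [htop, Subgroup.index_top] at hNi
      omega
    have h1 := Helper9.OrdTools.card_dvd_factorial_index _ hNtop
    rw [hNi, h] at h1
    revert h1
    decide
  · -- n = 36
    obtain ⟨P, R, hPR, hind⟩ := Cfsg.Agent.S0985.result (G := G) 5 2 (by rw [← hn]; decide)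
    refine ⟨(P : Subgroup G) ⊓ (R : Subgroup G), P, R, hPR, ?_, inf_le_left, inf_le_right⟩
    have hcard : Nat.card ((R : Subgroup G).subgroupOf (P : Subgroup G))
        = Nat.card ((P : Subgroup G) ⊓ (R : Subgroup G) : Subgroup G) := by
      rw [← Subgroup.inf_subgroupOf_right, inf_comm]
      exact Nat.card_congr (Subgroup.subgroupOfEquivOfLe inf_le_left).toEquiv
    have h1 := ((R : Subgroup G).subgroupOf (P : Subgroup G)).card_mul_index
    rw [hcard, hS P] at h1
    have hind' : ((R : Subgroup G).subgroupOf (P : Subgroup G)).index ≤ 5 := by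
      norm_num at hind
      exact hind
    have hd25 : Nat.card ((P : Subgroup G) ⊓ (R : Subgroup G) : Subgroup G) ≠ 25 := by
      intro h25
      apply hPR
      have e1 : (P : Subgroup G) ⊓ (R : Subgroup G) = (P : Subgroup G) :=
        Subgroup.eq_of_le_of_card_ge inf_le_left (by rw [h25, hS P])
      have e2 : (P : Subgroup G) ≤ (R : Subgroup G) := by
        rw [← e1]; exact inf_le_right
      exact Sylow.ext (Subgroup.eq_of_le_of_card_ge e2 (by rw [hS P, hS R]))
    obtain ⟨d, hd⟩ : ∃ d, d = Nat.card ((P : Subgroup G) ⊓ (R : Subgroup G) : Subgroup G) :=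
      ⟨_, rfl⟩
    obtain ⟨i, hi⟩ : ∃ i, i = ((R : Subgroup G).subgroupOf (P : Subgroup G)).index := ⟨_, rfl⟩
    rw [← hd] at h1 hd25 ⊢
    rw [← hi] at h1 hind'
    have hd_le : d ≤ 25 := Nat.le_of_dvd (by norm_num) ⟨i, h1.symm⟩
    interval_cases d <;> interval_cases i <;> omega
  · -- n = 216
    exfalso
    have hNc : Nat.card (normalizer ((P₀ : Subgroup G) : Set G)) = 25 := by omega
    have hNP : (P₀ : Subgroup G) = normalizer ((P₀ : Subgroup G) : Set G) :=
      Subgroup.eq_of_le_of_card_ge Subgroup.le_normalizer (by rw [hNc, hS P₀])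
    have hcomm : ∀ a b : (P₀ : Subgroup G), a * b = b * a :=
      IsPGroup.commutative_of_card_eq_prime_sq (p := 5) (by rw [hS P₀]; norm_num)
    apply Helper9.OrdTools.not_normalizer_le_centralizer P₀ (by rw [hS P₀]; norm_num)
      (by rw [hS P₀, h]; norm_num)
    intro g hg
    rw [← hNP] at hg
    rw [Subgroup.mem_centralizer_iff]
    intro k hk
    have h1 := hcomm ⟨k, hk⟩ ⟨g, hg⟩
    exact congrArg Subtype.val h1

end Cfsg.Agent.Helper55
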