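import Mathlib
import Cfsg.Agent.Helper9.OrdTools
import Cfsg.Agent.Helper8.SylSub
import Cfsg.Agent.Helper71.SylFifteenC

/-! PIECE B5400 of CALL S0983 (helper82): in a simple group of order 5400, the centralizer of the
intersection `D` (of order 5) of two distinct Sylow 5-subgroups has order 300. -/

set_option autoImplicit false

namespace Cfsg.Agent.Helper55

open Subgroup

/-- A group of order `2 * 75` or `2 * 225` has a unique Sylow 5-subgroup. -/
theorem o5400_b_aux {Γ : Type*} [Group Γ] [Finite Γ] (m : ℕ) (hm : m = 3 ∨ m = 9)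
    (hcard : Nat.card Γ = 2 * (25 * m)) : Nat.card (Sylow 5 Γ) = 1 := by
  haveI : Fact (Nat.Prime 5) := ⟨by norm_num⟩
  have hodd : Odd (25 * m) := by rcases hm with rfl | rfl <;> decide
  obtain ⟨Z, hZn, hZi⟩ := Helper71.exists_index_two_of_card (25 * m) hodd hcard
  have hZc : Nat.card Z = 25 * m := by
    have h1 := Z.card_mul_index
    rw [hZi, hcard] at h1
    omega
  have hSΓ : ∀ S : Sylow 5 Γ, Nat.card (S : Subgroup Γ) = 25 := fun S => by
    have h1 := Helper9.OrdTools.sylow_card (p := 5) 2 (2 * m) (by rw [hcard]; ring)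
      (by rcases hm with rfl | rfl <;> norm_num) S
    simpa using h1
  have hle : ∀ S : Sylow 5 Γ, (S : Subgroup Γ) ≤ Z := by
    intro S s hs
    have h2 : s ^ 2 ∈ Z := by
      have h3 := Subgroup.pow_index_mem Z s
      rwa [hZi] at h3
    have h25 : s ^ 25 = 1 := by
      have h3 : (⟨s, hs⟩ : (S : Subgroup Γ)) ^ 25 = 1 := by
        rw [← hSΓ S]; exact pow_card_eq_one'
      simpa using congrArg Subtype.val h3
    have h4 : (s ^ 2) ^ 13 = s := by
      rw [← pow_mul, show 2 * 13 = 25 + 1 from rfl, pow_succ, h25, one_mul]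
    rw [← h4]
    exact Z.pow_mem h2 13
  have h1 := Helper8.SylSub.card_le_card_sylow 5 Z
  have h2 : Nat.card {S : Sylow 5 Γ // (S : Subgroup Γ) ≤ Z} = Nat.card (Sylow 5 Γ) :=
    Nat.card_congr (Equiv.subtypeUnivEquiv hle)
  obtain ⟨Q⟩ : Nonempty (Sylow 5 Z) := inferInstance
  have hQ : Nat.card (Q : Subgroup Z) = 25 := by
    have h3 := Helper9.OrdTools.sylow_card (p := 5) 2 m (by rw [hZc]; ring)
      (by rcases hm with rfl | rfl <;> norm_num) Q
    simpa using h3
  have h3 : Nat.card (Sylow 5 Z) ∣ m := by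
    have h4 := Sylow.card_dvd_index Q
    have h5 := (Q : Subgroup Z).card_mul_index
    rw [hQ, hZc] at h5
    have h6 : (Q : Subgroup Z).index = m := by omega
    rwa [h6] at h4
  have h4 := Helper8.SylSub.card_sylow_mod 5 Z
  have h5 : Nat.card (Sylow 5 Z) = 1 := by
    have hpos : Nat.card (Sylow 5 Z) ≤ 9 := by
      rcases hm with rfl | rfl
      · exact le_trans (Nat.le_of_dvd (by norm_num) h3) (by norm_num)
      · exact Nat.le_of_dvd (by norm_num) h3
    obtain ⟨n, hn⟩ : ∃ n, n = Nat.card (Sylow 5 Z) := ⟨_, rfl⟩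
    rw [← hn] at h3 h4 hpos ⊢
    rcases hm with rfl | rfl <;> interval_cases n <;> omega
  have h6 : 0 < Nat.card (Sylow 5 Γ) := Nat.card_pos
  omega

variable {G : Type*} [Group G] [Finite G] [IsSimpleGroup G]

theorem o5400_b (h : Nat.card G = 5400) (D : Subgroup G) (P R : Sylow 5 G) (hPR : P ≠ R)
    (hD : Nat.card D = 5) (hDP : D ≤ (P : Subgroup G)) (hDR : D ≤ (R : Subgroup G)) :
    Nat.card (centralizer (D : Set G)) = 300 := by
  haveI : Fact (Nat.Prime 5) := ⟨by norm_num⟩
  have hS : ∀ P : Sylow 5 G, Nat.card (P : Subgroup G) = 25 := fun P => by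
    have h1 := Helper9.OrdTools.sylow_card (p := 5) 2 216 (by rw [h]; norm_num) (by norm_num) P
    simpa using h1
  have hab : ∀ Q : Sylow 5 G, D ≤ (Q : Subgroup G) →
      (Q : Subgroup G) ≤ centralizer (D : Set G) := by
    intro Q hDQ g hg
    have hcomm : ∀ a b : (Q : Subgroup G), a * b = b * a :=
      IsPGroup.commutative_of_card_eq_prime_sq (p := 5) (by rw [hS Q]; norm_num)
    rw [Subgroup.mem_centralizer_iff]
    intro d hd
    exact congrArg Subtype.val (hcomm ⟨d, hDQ hd⟩ ⟨g, hg⟩)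
  have hPC := hab P hDP
  have hRC := hab R hDR
  have hCtop : centralizer (D : Set G) ≠ ⊤ := by
    intro htop
    have hDn : D.Normal := by
      constructor
      intro d hd g
      have hg : g ∈ centralizer (D : Set G) := by rw [htop]; exact Subgroup.mem_top g
      have hc := (Subgroup.mem_centralizer_iff.mp hg) d hd
      have h1 : g * d * g⁻¹ = d := by rw [← hc, mul_inv_cancel_right]
      rw [h1]; exact hd
    rcases hDn.eq_bot_or_eq_top with hb | ht
    · rw [hb, Subgroup.card_bot] at hD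
      omega
    · rw [ht, Subgroup.card_top, h] at hD
      omega
  obtain ⟨c, hc⟩ : ∃ c, c = Nat.card (centralizer (D : Set G)) := ⟨_, rfl⟩
  obtain ⟨i, hi⟩ : ∃ i, i = (centralizer (D : Set G)).index := ⟨_, rfl⟩
  have hci : c * i = 5400 := by rw [hc, hi, Subgroup.card_mul_index, h]
  have h25c : 25 ∣ c := by rw [hc, ← hS P]; exact Subgroup.card_dvd_of_le hPC
  have hfact : 5400 ∣ i.factorial := by
    have h1 := Helper9.OrdTools.card_dvd_factorial_index _ hCtop
    rw [h, ← hi] at h1
    exact h1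
  have hi10 : 10 ≤ i := by
    by_contra hlt
    have hi9 : i ≤ 9 := by omega
    interval_cases i <;> revert hfact <;> decide
  have hmul := Helper8.SylSub.card_eq_inf_normalizer_mul P (centralizer (D : Set G)) hPC
  have hmod := Helper8.SylSub.card_sylow_mod 5 (centralizer (D : Set G))
  have hge : 2 ≤ Nat.card (Sylow 5 (centralizer (D : Set G))) := by
    have h1 := Helper8.SylSub.card_le_card_sylow 5 (centralizer (D : Set G))
    have h2 : 1 < Nat.card {S : Sylow 5 G // (S : Subgroup G) ≤ centralizer (D : Set G)} := by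
      rw [Finite.one_lt_card_iff_nontrivial]
      exact ⟨⟨⟨P, hPC⟩, ⟨R, hRC⟩, fun e => hPR (congrArg Subtype.val e)⟩⟩
    omega
  have h25m : 25 ∣ Nat.card
      (centralizer (D : Set G) ⊓ normalizer ((P : Subgroup G) : Set G) : Subgroup G) := by
    rw [← hS P]; exact Subgroup.card_dvd_of_le (le_inf hPC Subgroup.le_normalizer)
  have haux : ∀ m : ℕ, m = 3 ∨ m = 9 → c ≠ 2 * (25 * m) := by
    intro m hm hcm
    have h1 := o5400_b_aux (Γ := centralizer (D : Set G)) m hm (by rw [← hc, hcm])
    omega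
  obtain ⟨nC, hnC⟩ : ∃ nC, nC = Nat.card (Sylow 5 (centralizer (D : Set G))) := ⟨_, rfl⟩
  rw [← hc, ← hnC] at hmul
  rw [← hnC] at hmod hge
  obtain ⟨k, hk⟩ := h25c
  obtain ⟨j, hj⟩ := h25m
  rw [hj] at hmul
  have hki : k * i = 216 := by
    have h1 : 25 * (k * i) = 25 * 216 := by rw [← mul_assoc, ← hk, hci]
    exact Nat.eq_of_mul_eq_mul_left (by norm_num) h1
  have hkj : k = j * nC := by
    have h1 : 25 * k = 25 * (j * nC) := by rw [← hk, hmul, mul_assoc]
    exact Nat.eq_of_mul_eq_mul_left (by norm_num) h1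
  have hk21 : k ≤ 21 := by
    by_contra hlt
    have h1 : 22 ≤ k := by omega
    nlinarith
  have hkpos : 0 < k := by
    rcases Nat.eq_zero_or_pos k with h0 | h0
    · rw [h0] at hki; omega
    · exact h0
  have hnCk : nC ≤ k := Nat.le_of_dvd hkpos ⟨j, by rw [hkj, mul_comm]⟩
  have hk3 : k = 6 ∨ k = 12 ∨ k = 18 := by
    interval_cases k <;> interval_cases nC <;> omega
  rw [← hc, hk]
  rcases hk3 with rfl | rfl | rfl
  · exact absurd hk (haux 3 (Or.inl rfl))
  · rfl
  · exact absurd hk (haux 9 (Or.inr rfl))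

end Cfsg.Agent.Helper55
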