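import Mathlib
import Cfsg.Agent.S0992

/-! PIECE INV of CALL S0983 (helper82): in a non-abelian simple group of even order not
divisible by 8, all involutions are conjugate. -/

set_option autoImplicit false

namespace Cfsg.Agent.Helper55

open Subgroup

variable {G : Type*} [Group G] [Finite G] [IsSimpleGroup G]

theorem invol_conj_of_not_eight_dvd (hG : ¬ IsMulCommutative G) (h2 : Even (Nat.card G))
    (h8 : ¬ 8 ∣ Nat.card G) (s t : G) (hs : orderOf s = 2) (ht : orderOf t = 2) :
    IsConj s t := by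
  haveI : Fact (Nat.Prime 2) := ⟨Nat.prime_two⟩
  have key : ∀ (T : Sylow 2 G) (a b : G), a ∈ (T : Subgroup G) → b ∈ (T : Subgroup G) →
      a ≠ 1 → b ≠ 1 → IsConj a b := by
    intro T a b ha hb ha1 hb1
    obtain ⟨hK, hrel⟩ := Cfsg.Agent.S0992.result hG h2 h8 T
    have hcard : Nat.card (T : Subgroup G) = 4 := hK.card_four
    have hNC : ¬ normalizer ((T : Subgroup G) : Set G) ≤ centralizer ((T : Subgroup G) : Set G) := by
      intro hle
      rw [Subgroup.relIndex_eq_one.mpr hle] at hrel
      omega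
    obtain ⟨g₀, hg₀N, hg₀C⟩ := SetLike.not_le_iff_exists.mp hNC
    rw [Subgroup.mem_centralizer_iff] at hg₀C
    push Not at hg₀C
    obtain ⟨x, hxT, hx⟩ := hg₀C
    have h3 : g₀ ^ 3 ∈ centralizer ((T : Subgroup G) : Set G) := by
      haveI : ((centralizer ((T : Subgroup G) : Set G)).subgroupOf
          (normalizer ((T : Subgroup G) : Set G))).Normal := by
        rw [← Subgroup.normalizerMonoidHom_ker]
        exact MonoidHom.normal_ker _
      have h4 := Subgroup.pow_index_mem ((centralizer ((T : Subgroup G) : Set G)).subgroupOf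
          (normalizer ((T : Subgroup G) : Set G)))
          (⟨g₀, hg₀N⟩ : normalizer ((T : Subgroup G) : Set G))
      have h5 : ((centralizer ((T : Subgroup G) : Set G)).subgroupOf
          (normalizer ((T : Subgroup G) : Set G))).index = 3 := hrel
      rw [h5, Subgroup.mem_subgroupOf] at h4
      simpa using h4
    have hc : x * g₀ ^ 3 = g₀ ^ 3 * x := (Subgroup.mem_centralizer_iff.mp h3) x hxT
    obtain ⟨y1, hy1⟩ : ∃ y1, y1 = g₀ * x * g₀⁻¹ := ⟨_, rfl⟩
    obtain ⟨y2, hy2⟩ : ∃ y2, y2 = g₀ * y1 * g₀⁻¹ := ⟨_, rfl⟩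
    have hy1T : y1 ∈ (T : Subgroup G) := by
      rw [hy1]; exact (Subgroup.mem_normalizer_iff.mp hg₀N x).mp hxT
    have hy2T : y2 ∈ (T : Subgroup G) := by
      rw [hy2]; exact (Subgroup.mem_normalizer_iff.mp hg₀N y1).mp hy1T
    have h3x : g₀ * y2 * g₀⁻¹ = x := by
      rw [hy2, hy1]
      calc g₀ * (g₀ * (g₀ * x * g₀⁻¹) * g₀⁻¹) * g₀⁻¹ = g₀ ^ 3 * x * (g₀ ^ 3)⁻¹ := by
            simp [pow_succ, mul_assoc]
        _ = x := by rw [← hc, mul_inv_cancel_right]
    have hy1x : y1 ≠ x := by
      intro e
      apply hx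
      calc x * g₀ = y1 * g₀ := by rw [e]
        _ = g₀ * x := by rw [hy1]; group
    have hy2y1 : y2 ≠ y1 := by
      intro e
      apply hy1x
      have e' : g₀ * y1 * g₀⁻¹ = g₀ * x * g₀⁻¹ := by rw [← hy2, ← hy1]; exact e
      exact mul_left_cancel (mul_right_cancel e')
    have hy2x : y2 ≠ x := by
      intro e
      apply hy1x
      rw [e] at h3x
      rw [hy1]; exact h3x
    have hx1 : x ≠ 1 := by
      intro e
      apply hx
      rw [e]; simp
    have hy11 : y1 ≠ 1 := by
      intro e
      rw [hy1, conj_eq_one_iff] at e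
      exact hx1 e
    have hy21 : y2 ≠ 1 := by
      intro e
      rw [hy2, conj_eq_one_iff] at e
      exact hy11 e
    have hS4 : ({1, x, y1, y2} : Set G).ncard = 4 := by
      rw [Set.ncard_insert_of_notMem (by
          intro hmem
          simp only [Set.mem_insert_iff, Set.mem_singleton_iff] at hmem
          rcases hmem with hmem | hmem | hmem
          · exact hx1 hmem.symm
          · exact hy11 hmem.symm
          · exact hy21 hmem.symm),
        Set.ncard_insert_of_notMem (by
          intro hmem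
          simp only [Set.mem_insert_iff, Set.mem_singleton_iff] at hmem
          rcases hmem with hmem | hmem
          · exact hy1x hmem.symm
          · exact hy2x hmem.symm),
        Set.ncard_pair (Ne.symm hy2y1)]
    have hsub : ({1, x, y1, y2} : Set G) ⊆ ((T : Subgroup G) : Set G) := by
      intro z hz
      simp only [Set.mem_insert_iff, Set.mem_singleton_iff] at hz
      rcases hz with rfl | rfl | rfl | rfl
      · exact Subgroup.one_mem _
      · exact hxT
      · exact hy1T
      · exact hy2T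
    have hST : ({1, x, y1, y2} : Set G) = ((T : Subgroup G) : Set G) :=
      Set.eq_of_subset_of_ncard_le hsub (by
        rw [hS4, ← Nat.card_coe_set_eq]
        exact hcard.le) (Set.toFinite _)
    have hconj : ∀ c : G, c ∈ (T : Subgroup G) → c ≠ 1 → IsConj x c := by
      intro c hcT hc1
      have hmem : c ∈ ({1, x, y1, y2} : Set G) := by rw [hST]; exact hcT
      simp only [Set.mem_insert_iff, Set.mem_singleton_iff] at hmem
      rcases hmem with hmem | hmem | hmem | hmem
      · exact absurd hmem hc1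
      · rw [hmem]
      · rw [hmem]; exact isConj_iff.mpr ⟨g₀, hy1.symm⟩
      · rw [hmem]; exact isConj_iff.mpr ⟨g₀ * g₀, by rw [hy2, hy1]; group⟩
    exact (hconj a ha ha1).symm.trans (hconj b hb hb1)
  have hs1 : s ≠ 1 := by
    intro e
    rw [e, orderOf_one] at hs
    omega
  have ht1 : t ≠ 1 := by
    intro e
    rw [e, orderOf_one] at ht
    omega
  have hzs : IsPGroup 2 (zpowers s) :=
    IsPGroup.of_card (n := 1) (by rw [Nat.card_zpowers, hs, pow_one])
  have hzt : IsPGroup 2 (zpowers t) :=
    IsPGroup.of_card (n := 1) (by rw [Nat.card_zpowers, ht, pow_one])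
  obtain ⟨Ts, hTs⟩ := hzs.exists_le_sylow
  obtain ⟨Tt, hTt⟩ := hzt.exists_le_sylow
  obtain ⟨g, hg⟩ := MulAction.exists_smul_eq G Ts Tt
  have hs' : g * s * g⁻¹ ∈ (Tt : Subgroup G) := by
    rw [← hg, Sylow.coe_subgroup_smul]
    have h1 := Subgroup.smul_mem_pointwise_smul s (MulAut.conj g) (Ts : Subgroup G)
      (hTs (mem_zpowers s))
    simpa [MulAut.smul_def] using h1
  have h1 : IsConj s (g * s * g⁻¹) := isConj_iff.mpr ⟨g, rfl⟩
  have h2' := key Tt (g * s * g⁻¹) t hs' (hTt (mem_zpowers t))
    (by rw [Ne, conj_eq_one_iff]; exact hs1) ht1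
  exact h1.trans h2'

end Cfsg.Agent.Helper55
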