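import Mathlib
import Cfsg.Agent.Helper8.Ord4032A
import Cfsg.Agent.Helper41.Ord4032B
import Cfsg.Agent.S0985

set_option autoImplicit false

/-! PIECE N96a2 of CALL S0980 (helper8; no simple group of order 5760): the normalizer `H` of a
subgroup of order 3 (index 16, containing a Sylow 5-subgroup with a unique fixed point on `G ⧸ H`)
is transitive on the 15 points other than the base point. -/

namespace Cfsg.Agent.Helper55

open scoped Pointwise
open Subgroup Cfsg.Agent.Helper9.OrdTools

variable {G : Type*} [Group G] [Finite G]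

/-- Fixed point congruence for a `p`-subgroup acting on an invariant set. -/
theorem n96_card_modEq {Ω : Type*} [MulAction G Ω] [Finite Ω] {p : ℕ} [Fact p.Prime]
    (K : Subgroup G) (hK : IsPGroup p K) (X : Set Ω) (hX : ∀ k ∈ K, ∀ y ∈ X, k • y ∈ X) :
    Nat.card X ≡ Nat.card {y : Ω // y ∈ X ∧ ∀ k ∈ K, k • y = y} [MOD p] := by
  let S₀ : SubMulAction (↥K) Ω :=
    { carrier := X
      smul_mem' := fun c y hy => hX c.1 c.2 y hy }
  have h := hK.card_modEq_card_fixedPoints S₀
  have e : MulAction.fixedPoints K S₀ ≃ {y : Ω // y ∈ X ∧ ∀ k ∈ K, k • y = y} :=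
    { toFun := fun y => ⟨y.1.1, y.1.2, fun k hk => congrArg Subtype.val (y.2 ⟨k, hk⟩)⟩
      invFun := fun y => ⟨⟨y.1, y.2.1⟩, fun k => Subtype.ext (y.2.2 k.1 k.2)⟩
      left_inv := fun y => rfl
      right_inv := fun y => rfl }
  rw [Nat.card_congr e] at h
  exact h

/-- PIECE N96a2 of CALL S0980. -/
theorem ord5760_n96_trans [IsSimpleGroup G] (hG : Nat.card G = 5760) (P : Sylow 5 G) (s : G)
    (H : Subgroup G) (hs : orderOf s = 3)
    (hH : H = Subgroup.normalizer ((Subgroup.zpowers s : Subgroup G) : Set G))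
    (hidx : H.index = 16) (hPH : (P : Subgroup G) ≤ H)
    (hPfix : ∀ q : G ⧸ H, (∀ x ∈ (P : Subgroup G), x • q = q) → q = ((1 : G) : G ⧸ H)) :
    4 ∣ Nat.card (Subgroup.centralizer ({s} : Set G)) ∧
      (∀ q : G ⧸ H, s • q = q → q = ((1 : G) : G ⧸ H)) ∧
      (∀ q q' : G ⧸ H, q ≠ ((1 : G) : G ⧸ H) → q' ≠ ((1 : G) : G ⧸ H) → ∃ h ∈ H, h • q = q') := by
  classical
  haveI : Fintype (G ⧸ H) := Fintype.ofFinite _
  haveI : Fact (Nat.Prime 3) := ⟨Nat.prime_three⟩
  haveI : Fact (Nat.Prime 5) := ⟨by norm_num⟩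
  have hΩ : Nat.card (G ⧸ H) = 16 := by
    rw [← Subgroup.index_eq_card, hidx]
  have hHtop : H ≠ ⊤ := by
    intro h; rw [h, Subgroup.index_top] at hidx; omega
  have hHcard : Nat.card H = 360 := by
    have := Subgroup.card_mul_index H
    rw [hidx, hG] at this
    omega
  have hs3 : s ^ 3 = 1 := by rw [← hs]; exact pow_orderOf_eq_one s
  have hs1 : s ≠ 1 := by intro h; rw [h, orderOf_one] at hs; omega
  have hsH : s ∈ H := by rw [hH]; exact le_normalizer (mem_zpowers s)
  have hss : s * s = s⁻¹ := by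
    apply eq_inv_of_mul_eq_one_left
    rw [← pow_two, ← pow_succ]; exact hs3
  have hbase : ∀ h ∈ H, h • ((1 : G) : G ⧸ H) = ((1 : G) : G ⧸ H) := by
    intro h hh
    rw [MulAction.Quotient.smul_mk, QuotientGroup.eq, smul_eq_mul, mul_one, mul_one]
    exact inv_mem hh
  -- elements of `⟨s⟩`
  have hz : ∀ t ∈ zpowers s, t = 1 ∨ t = s ∨ t = s⁻¹ := by
    intro t ht
    obtain ⟨k, rfl⟩ := mem_zpowers_iff.mp ht
    have h1 := zpow_mod_orderOf s k
    rw [hs] at h1
    have h2 := Int.emod_nonneg k (by norm_num : (3 : ℤ) ≠ 0)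
    have h3 := Int.emod_lt_of_pos k (by norm_num : (0 : ℤ) < 3)
    obtain h | h | h : k % (3 : ℕ) = 0 ∨ k % (3 : ℕ) = 1 ∨ k % (3 : ℕ) = 2 := by
      push_cast; omega
    · left; rw [← h1, h, zpow_zero]
    · right; left; rw [← h1, h, zpow_one]
    · right; right; rw [← h1, h, zpow_two, hss]
  have hconj : ∀ h ∈ H, h * s * h⁻¹ = s ∨ h * s * h⁻¹ = s⁻¹ := by
    intro h hh
    rw [hH] at hh
    have h1 := (mem_normalizer_iff.mp hh s).1 (mem_zpowers s)
    rcases hz _ h1 with h2 | h2 | h2
    · exfalso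
      apply hs1
      have : h * s = h := by rw [← mul_inv_eq_one]; rw [mul_inv_eq_one] at h2 ⊢; exact h2
      exact mul_left_cancel (this.trans (mul_one h).symm)
    · exact Or.inl h2
    · exact Or.inr h2
  -- (e) the centralizer of `s`
  have hCH : centralizer ({s} : Set G) ≤ H := by
    intro c hc
    rw [mem_centralizer_singleton_iff] at hc
    rw [hH, mem_normalizer_iff]
    have hcomm : ∀ x ∈ zpowers s, c * x * c⁻¹ = x := by
      intro x hx
      obtain ⟨k, rfl⟩ := mem_zpowers_iff.mp hx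
      have h1 : Commute c (s ^ k) := Commute.zpow_right hc k
      rw [h1.eq, mul_inv_cancel_right]
    have hcomm' : ∀ x ∈ zpowers s, c⁻¹ * x * c = x := by
      intro x hx
      have h1 := hcomm x hx
      calc c⁻¹ * x * c = c⁻¹ * (c * x * c⁻¹) * c := by rw [h1]
        _ = x := by group
    intro x
    constructor
    · intro hx
      rw [hcomm x hx]; exact hx
    · intro hx
      have h1 := hcomm' _ hx
      have h2 : c⁻¹ * (c * x * c⁻¹) * c = x := by group
      rw [h2] at h1
      rw [h1]; exact hx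
  have h4 : 4 ∣ Nat.card (centralizer ({s} : Set G)) := by
    have hdvd : Nat.card (centralizer ({s} : Set G)) ∣ 360 :=
      hHcard ▸ Subgroup.card_dvd_of_le hCH
    have hge : 360 ≤ 2 * Nat.card (centralizer ({s} : Set G)) := by
      by_cases hall : ∀ h ∈ H, h * s * h⁻¹ = s
      · have hle : H ≤ centralizer ({s} : Set G) := by
          intro h hh
          rw [mem_centralizer_singleton_iff]
          have := hall h hh
          rw [mul_inv_eq_iff_eq_mul] at this
          exact this
        have := Subgroup.card_le_of_le hle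
        omega
      · push Not at hall
        obtain ⟨h0, hh0, hne0⟩ := hall
        have hinv0 : h0 * s * h0⁻¹ = s⁻¹ := (hconj h0 hh0).resolve_left hne0
        have hinv0' : h0⁻¹ * s⁻¹ * h0 = s := by
          rw [← hinv0]; group
        have hmem : ∀ h ∈ H, h * s * h⁻¹ ≠ s → h0⁻¹ * h ∈ centralizer ({s} : Set G) := by
          intro h hh hne
          have h1 : h * s * h⁻¹ = s⁻¹ := (hconj h hh).resolve_left hne
          rw [mem_centralizer_singleton_iff]
          have h2 : h0⁻¹ * h * s * (h0⁻¹ * h)⁻¹ = s := by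
            calc h0⁻¹ * h * s * (h0⁻¹ * h)⁻¹ = h0⁻¹ * (h * s * h⁻¹) * h0 := by group
              _ = s := by rw [h1, hinv0']
          rw [mul_inv_eq_iff_eq_mul] at h2
          exact h2
        have hmem' : ∀ h ∈ H, h * s * h⁻¹ = s → h ∈ centralizer ({s} : Set G) := by
          intro h hh he
          rw [mem_centralizer_singleton_iff]
          rw [mul_inv_eq_iff_eq_mul] at he
          exact he
        have hinj : Function.Injective (fun h : H =>
            if hh : (h : G) * s * (h : G)⁻¹ = s then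
              (Sum.inl ⟨(h : G), hmem' h.1 h.2 hh⟩ :
                centralizer ({s} : Set G) ⊕ centralizer ({s} : Set G))
            else Sum.inr ⟨h0⁻¹ * (h : G), hmem h.1 h.2 hh⟩) := by
          intro a b hab
          by_cases ha : (a : G) * s * (a : G)⁻¹ = s <;> by_cases hb : (b : G) * s * (b : G)⁻¹ = s
          · simp only [ha, hb, dite_true] at hab
            have h1 := Sum.inl.inj hab
            have h2 := congrArg Subtype.val h1
            exact Subtype.ext h2
          · simp only [ha, hb, dite_true, dite_false] at hab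
            exact absurd hab (by simp)
          · simp only [ha, hb, dite_true, dite_false] at hab
            exact absurd hab (by simp)
          · simp only [ha, hb, dite_false] at hab
            have h1 := Sum.inr.inj hab
            have h2 := congrArg Subtype.val h1
            exact Subtype.ext (mul_left_cancel h2)
        have := Nat.card_le_card_of_injective _ hinj
        rw [Nat.card_sum, hHcard] at this
        omega
    obtain ⟨k, hk⟩ := hdvd
    have hk2 : k ≤ 2 := by
      by_contra hcon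
      push Not at hcon
      have : Nat.card (centralizer ({s} : Set G)) * 3 ≤ Nat.card (centralizer ({s} : Set G)) * k :=
        Nat.mul_le_mul_left _ hcon
      omega
    have hk0 : k ≠ 0 := by
      intro h0; rw [h0] at hk; omega
    obtain rfl | rfl : k = 1 ∨ k = 2 := by omega
    · exact ⟨90, by omega⟩
    · exact ⟨45, by omega⟩
  -- (f) the fixed points of `s`
  have hsinvfix : ∀ q : G ⧸ H, s • q = q → s⁻¹ • q = q := by
    intro q hq
    rw [inv_smul_eq_iff, hq]
  have hFinv : ∀ h ∈ H, ∀ q : G ⧸ H, s • q = q → s • h • q = h • q := by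
    intro h hh q hq
    have h1 : s * h = h * (h⁻¹ * s * h⁻¹⁻¹) := by group
    rw [smul_smul, h1, ← smul_smul]
    rcases hconj h⁻¹ (inv_mem hh) with h2 | h2
    · rw [h2, hq]
    · rw [h2, hsinvfix q hq]
  have hsbase : s • ((1 : G) : G ⧸ H) = ((1 : G) : G ⧸ H) := hbase s hsH
  have hz3 : IsPGroup 3 (zpowers s) :=
    IsPGroup.of_card (n := 1) (by rw [Nat.card_zpowers, hs, pow_one])
  have hzfix : ∀ y : G ⧸ H, (∀ k ∈ zpowers s, k • y = y) ↔ s • y = y := by
    intro y
    constructor
    · intro h; exact h s (mem_zpowers s)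
    · intro h k hk
      have hle : zpowers s ≤ MulAction.stabilizer G y :=
        (Subgroup.zpowers_le).mpr (MulAction.mem_stabilizer_iff.mpr h)
      exact MulAction.mem_stabilizer_iff.mp (hle hk)
  have hfix : ∀ q : G ⧸ H, s • q = q → q = ((1 : G) : G ⧸ H) := by
    -- modulo 3
    have hm3 := n96_card_modEq (Ω := G ⧸ H) (zpowers s) hz3 Set.univ (fun _ _ _ _ => Set.mem_univ _)
    rw [Nat.card_congr (Equiv.Set.univ (G ⧸ H)), hΩ,
      Nat.card_congr (Equiv.subtypeEquivRight (q := fun y : G ⧸ H => s • y = y)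
        (fun y => by rw [hzfix]; simp))] at hm3
    -- modulo 5
    have hm5 := n96_card_modEq (Ω := G ⧸ H) (P : Subgroup G) P.2 {y | s • y = y}
      (fun k hk y hy => hFinv k (hPH hk) y hy)
    have h1 : Nat.card {y : G ⧸ H // y ∈ {y : G ⧸ H | s • y = y} ∧
        ∀ k ∈ (P : Subgroup G), k • y = y} = 1 := by
      rw [Nat.card_eq_one_iff_unique]
      constructor
      · refine ⟨fun y y' => Subtype.ext ?_⟩
        rw [hPfix y.1 y.2.2, hPfix y'.1 y'.2.2]
      · exact ⟨⟨((1 : G) : G ⧸ H), hsbase, fun k hk => hbase k (hPH hk)⟩⟩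
    rw [h1] at hm5
    have hX : Nat.card ({y : G ⧸ H | s • y = y} : Set (G ⧸ H))
        = Nat.card {y : G ⧸ H // s • y = y} := rfl
    rw [hX] at hm5
    have hle16 : Nat.card {y : G ⧸ H // s • y = y} ≤ 16 := by
      rw [← hΩ]
      exact Nat.card_le_card_of_injective _ Subtype.val_injective
    have hcases : Nat.card {y : G ⧸ H // s • y = y} = 1 ∨
        Nat.card {y : G ⧸ H // s • y = y} = 16 := by
      rw [Nat.ModEq] at hm3 hm5
      omega
    have hFcard : (Finset.univ.filter (fun q : G ⧸ H => s • q = q)).card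
        = Nat.card {y : G ⧸ H // s • y = y} := by
      rw [Nat.card_eq_fintype_card, ← Fintype.card_subtype]
    rcases hcases with h | h
    · intro q hq
      have hsub : Subsingleton {y : G ⧸ H // s • y = y} :=
        (Nat.card_eq_one_iff_unique.mp h).1
      exact congrArg Subtype.val (hsub.elim ⟨q, hq⟩ ⟨((1 : G) : G ⧸ H), hsbase⟩)
    · exfalso
      apply hs1
      apply toPermHom_injective H hHtop
      rw [map_one]
      have huniv : Finset.univ.filter (fun q : G ⧸ H => s • q = q) = Finset.univ := by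
        rw [← Finset.card_eq_iff_eq_univ, hFcard, h, ← Nat.card_eq_fintype_card, hΩ]
      ext q
      have hq : q ∈ Finset.univ.filter (fun q : G ⧸ H => s • q = q) := by
        rw [huniv]; exact Finset.mem_univ q
      exact (Finset.mem_filter.mp hq).2
  refine ⟨h4, hfix, ?_⟩
  -- (g) transitivity
  intro q q' hq hq'
  have hOinv : ∀ k ∈ H, ∀ y ∈ {y : G ⧸ H | ∃ h ∈ H, h • q = y}, k • y ∈
      {y : G ⧸ H | ∃ h ∈ H, h • q = y} := by
    rintro k hk y ⟨h, hh, rfl⟩
    exact ⟨k * h, mul_mem hk hh, by rw [smul_smul]⟩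
  have hObase : ((1 : G) : G ⧸ H) ∉ {y : G ⧸ H | ∃ h ∈ H, h • q = y} := by
    rintro ⟨h, hh, he⟩
    apply hq
    have h1 : q = h⁻¹ • ((1 : G) : G ⧸ H) := by rw [← he, inv_smul_smul]
    rw [h1]
    exact hbase _ (inv_mem hh)
  have hO5 := n96_card_modEq (Ω := G ⧸ H) (P : Subgroup G) P.2 {y | ∃ h ∈ H, h • q = y}
    (fun k hk y hy => hOinv k (hPH hk) y hy)
  have hO3 := n96_card_modEq (Ω := G ⧸ H) (zpowers s) hz3 {y | ∃ h ∈ H, h • q = y}
    (fun k hk y hy => hOinv k ((Subgroup.zpowers_le).mpr hsH hk) y hy)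
  have he5 : Nat.card {y : G ⧸ H // y ∈ {y : G ⧸ H | ∃ h ∈ H, h • q = y} ∧
      ∀ k ∈ (P : Subgroup G), k • y = y} = 0 := by
    have : IsEmpty {y : G ⧸ H // y ∈ {y : G ⧸ H | ∃ h ∈ H, h • q = y} ∧
        ∀ k ∈ (P : Subgroup G), k • y = y} :=
      ⟨fun y => hObase (by rw [← hPfix y.1 y.2.2]; exact y.2.1)⟩
    exact Nat.card_of_isEmpty
  have he3 : Nat.card {y : G ⧸ H // y ∈ {y : G ⧸ H | ∃ h ∈ H, h • q = y} ∧
      ∀ k ∈ zpowers s, k • y = y} = 0 := by
    have : IsEmpty {y : G ⧸ H // y ∈ {y : G ⧸ H | ∃ h ∈ H, h • q = y} ∧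
        ∀ k ∈ zpowers s, k • y = y} :=
      ⟨fun y => hObase (by rw [← hfix y.1 ((hzfix y.1).1 y.2.2)]; exact y.2.1)⟩
    exact Nat.card_of_isEmpty
  rw [he5] at hO5
  rw [he3] at hO3
  have hOcard : (Finset.univ.filter (fun y : G ⧸ H => ∃ h ∈ H, h • q = y)).card
      = Nat.card ({y : G ⧸ H | ∃ h ∈ H, h • q = y} : Set (G ⧸ H)) := by
    rw [Nat.card_eq_fintype_card, ← Fintype.card_subtype]
    rfl
  have hsub : Finset.univ.filter (fun y : G ⧸ H => ∃ h ∈ H, h • q = y)
      ⊆ Finset.univ.erase ((1 : G) : G ⧸ H) := by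
    intro y hy
    rw [Finset.mem_filter] at hy
    rw [Finset.mem_erase]
    refine ⟨fun h => hObase (h ▸ hy.2), Finset.mem_univ y⟩
  have herase : (Finset.univ.erase ((1 : G) : G ⧸ H)).card = 15 := by
    rw [Finset.card_erase_of_mem (Finset.mem_univ _), Finset.card_univ,
      ← Nat.card_eq_fintype_card, hΩ]
  have hqO : q ∈ Finset.univ.filter (fun y : G ⧸ H => ∃ h ∈ H, h • q = y) := by
    rw [Finset.mem_filter]
    exact ⟨Finset.mem_univ q, 1, one_mem H, one_smul _ _⟩
  have hpos : 0 < (Finset.univ.filter (fun y : G ⧸ H => ∃ h ∈ H, h • q = y)).card :=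
    Finset.card_pos.mpr ⟨q, hqO⟩
  have hle := Finset.card_le_card hsub
  have h15 : (Finset.univ.filter (fun y : G ⧸ H => ∃ h ∈ H, h • q = y)).card = 15 := by
    rw [hOcard] at hpos hle ⊢
    rw [herase] at hle
    rw [Nat.ModEq] at hO5 hO3
    omega
  have heq := Finset.eq_of_subset_of_card_le hsub (by rw [herase, h15])
  have hq'O : q' ∈ Finset.univ.filter (fun y : G ⧸ H => ∃ h ∈ H, h • q = y) := by
    rw [heq, Finset.mem_erase]
    exact ⟨hq', Finset.mem_univ q'⟩
  exact (Finset.mem_filter.mp hq'O).2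

end Cfsg.Agent.Helper55
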